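import Mathlib

/-!
Regular nilpotent matrices in triangular shape, and generation of a finite field by a square of a
generator.
-/

set_option autoImplicit false

namespace CfsgLib.RegularGenForms

open Matrix

variable {F : Type*} [Field F]

theorem upper_pow_apply {m : ℕ} (A : Matrix (Fin m) (Fin m) F)
    (hA : ∀ i j : Fin m, (j : ℕ) ≤ i → A i j = 0)
    (hs : ∀ i j : Fin m, (i : ℕ) + 1 = j → A i j ≠ 0) : ∀ (k : ℕ) (i j : Fin m),
    ((j : ℕ) < i + k → (A ^ k) i j = 0) ∧ ((i : ℕ) + k = j → (A ^ k) i j ≠ 0) := by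
  intro k
  induction k with
  | zero =>
    intro i j
    refine ⟨fun h => ?_, fun h => ?_⟩
    · rw [pow_zero, one_apply_ne]
      intro e
      simp [e] at h
    · simp [(Fin.ext (by omega) : i = j)]
  | succ k ih =>
    intro i j
    rw [pow_succ', Matrix.mul_apply]
    refine ⟨fun h => Finset.sum_eq_zero fun l _ => ?_, fun h => ?_⟩
    · by_cases hl : (l : ℕ) ≤ i
      · rw [hA i l hl, zero_mul]
      · rw [(ih l j).1 (by omega), mul_zero]
    · have := j.isLt
      rw [Finset.sum_eq_single ⟨i + 1, by omega⟩]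
      · exact mul_ne_zero (hs _ _ rfl) ((ih _ j).2 (by simp only; omega))
      · intro l _ hl
        have hl' : (l : ℕ) ≠ i + 1 := fun e => hl (Fin.ext e)
        by_cases hl2 : (l : ℕ) ≤ i
        · rw [hA i l hl2, zero_mul]
        · rw [(ih l j).1 (by omega), mul_zero]
      · simp

/-- A matrix which is strictly triangular with nonzero first diagonal for some ordering of the
index set is a regular nilpotent matrix. -/
theorem regular_of_triangular {ι : Type} [Fintype ι] [DecidableEq ι] {m : ℕ} (hm : 0 < m)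
    (e : ι ≃ Fin m) (N : Matrix ι ι F)
    (hN : ∀ i j, (e j : ℕ) ≤ e i → N i j = 0)
    (hs : ∀ i j, (e i : ℕ) + 1 = e j → N i j ≠ 0) :
    IsNilpotent N ∧ N ^ (m - 1) ≠ 0 := by
  set A := Matrix.reindexAlgEquiv F F e N with hAdef
  have hap : ∀ i j, A i j = N (e.symm i) (e.symm j) := fun i j => by
    simp [hAdef]
  have hA : ∀ i j : Fin m, (j : ℕ) ≤ i → A i j = 0 := fun i j h => by
    rw [hap]; exact hN _ _ (by simpa using h)
  have hs' : ∀ i j : Fin m, (i : ℕ) + 1 = j → A i j ≠ 0 := fun i j h => by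
    rw [hap]; exact hs _ _ (by simpa using h)
  refine ⟨⟨m, ?_⟩, fun h => ?_⟩
  · apply (Matrix.reindexAlgEquiv F F e).injective
    rw [map_pow, map_zero, ← hAdef]
    ext i j
    have := j.isLt
    exact (upper_pow_apply A hA hs' m i j).1 (by omega)
  · have h' := congrArg (Matrix.reindexAlgEquiv F F e) h
    rw [map_pow, map_zero, ← hAdef] at h'
    exact (upper_pow_apply A hA hs' (m - 1) ⟨0, hm⟩ ⟨m - 1, by omega⟩).2 (by simp)
      (by rw [h']; rfl)

/-- A subring of a finite field containing all squares is everything. -/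
theorem subring_eq_top_of_squares [Finite F] (R : Subring F) (h : ∀ x : F, x ^ 2 ∈ R) : R = ⊤ := by
  cases nonempty_fintype F
  refine eq_top_iff.2 fun x _ => ?_
  by_cases h2 : (2 : F) = 0
  · have : CharP F 2 := CharTwo.of_one_ne_zero_of_two_eq_zero one_ne_zero h2
    obtain ⟨y, hy⟩ := (FiniteField.isSquare_of_char_two (F := F) (ringChar.eq F 2) x)
    rw [hy, ← sq]; exact h y
  · have hinv : (2 : F)⁻¹ ∈ R := by
      have : (2 : F)⁻¹ = ((2 : F)⁻¹) ^ 2 * 2 := by field_simp
      rw [this]
      exact R.mul_mem (h _) (by simpa using (natCast_mem R 2 : ((2 : ℕ) : F) ∈ R))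
    have : x = ((x + 1) ^ 2 - x ^ 2 - 1) * (2 : F)⁻¹ := by field_simp; ring
    rw [this]
    exact R.mul_mem (R.sub_mem (R.sub_mem (h _) (h _)) R.one_mem) hinv

/-- An additive subgroup containing `θ ^ 2 - 1` and stable under multiplication by it is
everything, if `θ` generates the multiplicative group. -/
theorem addSubgroup_eq_top_of_gen [Finite F] {θ : Fˣ} (hθ : ∀ x : Fˣ, x ∈ Subgroup.zpowers θ)
    (L : AddSubgroup F) (ha : (θ : F) ^ 2 - 1 ≠ 0) (hmem : (θ : F) ^ 2 - 1 ∈ L)
    (hcl : ∀ x ∈ L, ((θ : F) ^ 2 - 1) * x ∈ L) : L = ⊤ := by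
  classical
  let R : Subring F :=
    { carrier := {r | ∀ x ∈ L, r * x ∈ L}
      mul_mem' := fun {r s} hr hs x hx => by rw [mul_assoc]; exact hr _ (hs _ hx)
      one_mem' := fun x hx => by rwa [one_mul]
      add_mem' := fun {r s} hr hs x hx => by rw [add_mul]; exact L.add_mem (hr _ hx) (hs _ hx)
      zero_mem' := fun x _ => by rw [zero_mul]; exact L.zero_mem
      neg_mem' := fun {r} hr x hx => by rw [neg_mul]; exact L.neg_mem (hr _ hx) }
  have hθ2 : (θ : F) ^ 2 ∈ R := by
    have := R.add_mem (show (θ : F) ^ 2 - 1 ∈ R from hcl) R.one_mem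
    simpa using this
  have hR : R = ⊤ := subring_eq_top_of_squares R fun x => by
    by_cases hx : x = 0
    · subst hx; simp [R.zero_mem]
    · obtain ⟨k, hk⟩ := (isOfFinOrder_of_finite θ).mem_powers_iff_mem_zpowers.2 (hθ (Units.mk0 x hx))
      have : x = (θ : F) ^ k := by
        rw [← Units.val_pow_eq_pow_val]
        exact (congrArg Units.val hk).symm
      rw [this, ← pow_mul, mul_comm k 2, pow_mul]
      exact pow_mem hθ2 k
  refine eq_top_iff.2 fun x _ => ?_
  have hx : x / ((θ : F) ^ 2 - 1) ∈ R := hR ▸ Subring.mem_top _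
  simpa [div_mul_cancel₀, ha] using hx _ hmem

end CfsgLib.RegularGenForms
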