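import Cfsg.Agent.Lib.Amalgams.UnitaryThree
import Cfsg.Agent.S0780

/-!
`SU₃(q)` with antidiagonal form: a frame to the standard model, and a generation criterion in
terms of upper root elements.
-/

set_option autoImplicit false

open Matrix
open scoped MatrixGroups

namespace CfsgLib.RegularGenForms

open CfsgLib.Amalgams

variable {F : Type*} [Field F]

local notation "M₃" => Matrix (Fin 3) (Fin 3) F

/-- A change of frame between the two models of `SU₃`, given by a matrix. -/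
theorem exists_frame [Finite F] {σ : F →+* F} {q : ℕ} (h : UniField F σ q) :
    ∃ (P Q : M₃) (e : suAnti σ ≃* Cfsg.SU 3 F q), P * Q = 1 ∧ Q * P = 1 ∧
      Pᵀ * P.map σ = antiForm ∧
      ∀ g, (((e g : Cfsg.SU 3 F q) : SL(3, F)) : M₃) = P * mat₃ σ g * Q := by
  have hσσ := h.conj_conj
  obtain ⟨κ, hκ⟩ := h.exists_norm (a := -1) (by rw [map_neg, map_one])
  obtain ⟨t, ht⟩ := h.exists_trace (a := -1) (by rw [map_neg, map_one])
  let P : M₃ := !![1, 0, 1 + t; κ, 0, t * κ; 0, 1, 0]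
  have hP : Pᵀ * P.map σ = antiForm := by
    ext i j
    fin_cases i <;> fin_cases j <;>
      simp [P, antiForm, Matrix.mul_apply, Fin.sum_univ_three]
    · linear_combination hκ
    · linear_combination (σ t) * hκ
    · linear_combination t * hκ
    · linear_combination ht + t * (σ t) * hκ
  have hdet : P.det ≠ 0 := by
    have hκ0 : κ ≠ 0 := by rintro rfl; simp at hκ
    simp [P, Matrix.det_fin_three]
    intro e
    exact hκ0 (by linear_combination e)
  let Pu : GL (Fin 3) F := Matrix.GeneralLinearGroup.mkOfDetNeZero P hdet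
  have hPu : (Pu : M₃) = P := rfl
  set Q : M₃ := ((Pu⁻¹ : GL (Fin 3) F) : M₃) with hQ
  have hPQ : P * Q = 1 := by rw [← hPu, hQ, ← Units.val_mul, mul_inv_cancel, Units.val_one]
  have hQP : Q * P = 1 := by rw [← hPu, hQ, ← Units.val_mul, inv_mul_cancel, Units.val_one]
  have hQJ : Qᵀ * antiForm * Q.map σ = 1 := by
    rw [← hP, show Qᵀ * (Pᵀ * P.map σ) * Q.map σ = (P * Q)ᵀ * (P * Q).map σ by
      simp only [Matrix.transpose_mul, Matrix.map_mul, Matrix.mul_assoc], hPQ]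
    simp
  have d1 : ∀ M : M₃, M.det = 1 → (P * M * Q).det = 1 := fun M hM => by
    rw [Matrix.det_mul, Matrix.det_mul, hM, mul_one, ← Matrix.det_mul, hPQ, Matrix.det_one]
  have d2 : ∀ M : M₃, M.det = 1 → (Q * M * P).det = 1 := fun M hM => by
    rw [Matrix.det_mul, Matrix.det_mul, hM, mul_one, ← Matrix.det_mul, hQP, Matrix.det_one]
  refine ⟨P, Q,
    { toFun := fun g => ⟨⟨P * ((g : SL(3, F)) : M₃) * Q, d1 _ (g : SL(3, F)).2⟩, ?_⟩
      invFun := fun g => ⟨⟨Q * ((g : SL(3, F)) : M₃) * P, d2 _ (g : SL(3, F)).2⟩, ?_⟩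
      left_inv := fun g => ?_
      right_inv := fun g => ?_
      map_mul' := fun a b => ?_ }, hPQ, hQP, hP, fun g => rfl⟩
  · refine (mem_SU_iff h.apply_eq).2 ?_
    have hg := mem_suAnti.1 g.2
    show (P * ((g : SL(3, F)) : M₃) * Q)ᵀ * (P * ((g : SL(3, F)) : M₃) * Q).map σ = 1
    rw [show (P * ((g : SL(3, F)) : M₃) * Q)ᵀ * (P * ((g : SL(3, F)) : M₃) * Q).map σ =
      Qᵀ * (((g : SL(3, F)) : M₃)ᵀ * (Pᵀ * P.map σ) * ((g : SL(3, F)) : M₃).map σ) * Q.map σ by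
      simp only [Matrix.transpose_mul, Matrix.map_mul, Matrix.mul_assoc], hP, hg, hQJ]
  · refine mem_suAnti.2 ?_
    have hg := (mem_SU_iff h.apply_eq).1 g.2
    show (Q * ((g : SL(3, F)) : M₃) * P)ᵀ * antiForm * (Q * ((g : SL(3, F)) : M₃) * P).map σ =
      antiForm
    rw [show (Q * ((g : SL(3, F)) : M₃) * P)ᵀ * antiForm * (Q * ((g : SL(3, F)) : M₃) * P).map σ =
      Pᵀ * (((g : SL(3, F)) : M₃)ᵀ * (Qᵀ * antiForm * Q.map σ) * ((g : SL(3, F)) : M₃).map σ) *
        P.map σ by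
      simp only [Matrix.transpose_mul, Matrix.map_mul, Matrix.mul_assoc], hQJ, Matrix.mul_one, hg,
      Matrix.mul_one, hP]
  · apply Subtype.ext; apply Subtype.ext
    show Q * (P * ((g : SL(3, F)) : M₃) * Q) * P = _
    rw [show Q * (P * ((g : SL(3, F)) : M₃) * Q) * P = (Q * P) * ((g : SL(3, F)) : M₃) * (Q * P) by
      simp only [Matrix.mul_assoc], hQP, Matrix.one_mul, Matrix.mul_one]
  · apply Subtype.ext; apply Subtype.ext
    show P * (Q * ((g : SL(3, F)) : M₃) * P) * Q = _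
    rw [show P * (Q * ((g : SL(3, F)) : M₃) * P) * Q = (P * Q) * ((g : SL(3, F)) : M₃) * (P * Q) by
      simp only [Matrix.mul_assoc], hPQ, Matrix.one_mul, Matrix.mul_one]
  · apply Subtype.ext; apply Subtype.ext
    show P * (((a : SL(3, F)) : M₃) * ((b : SL(3, F)) : M₃)) * Q =
      P * ((a : SL(3, F)) : M₃) * Q * (P * ((b : SL(3, F)) : M₃) * Q)
    rw [show P * ((a : SL(3, F)) : M₃) * Q * (P * ((b : SL(3, F)) : M₃) * Q) =
      P * (((a : SL(3, F)) : M₃) * ((Q * P) * ((b : SL(3, F)) : M₃))) * Q by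
      simp only [Matrix.mul_assoc], hQP, Matrix.one_mul]

variable {σ : F →+* F}

theorem mat₃_form (g : suAnti σ) :
    (mat₃ σ g)ᵀ * antiForm * (mat₃ σ g).map σ = antiForm :=
  mem_suAnti.1 g.2

theorem mat₃_det (g : suAnti σ) : (mat₃ σ g).det = 1 := (g : SL(3, F)).2

theorem mat₃_mul_inv (g : suAnti σ) : mat₃ σ g * mat₃ σ g⁻¹ = 1 := by
  rw [← map_mul, mul_inv_cancel, map_one]

theorem mat₃_inv_mul (g : suAnti σ) : mat₃ σ g⁻¹ * mat₃ σ g = 1 := by
  rw [← map_mul, inv_mul_cancel, map_one]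

theorem eq_uEl_of_mat (hσσ : ∀ x, σ (σ x) = x) {g : suAnti σ} {b c : F}
    (hg : mat₃ σ g = uMat₃ σ b c) :
    ∃ hc : c + σ c + b * σ b = 0, g = uEl₃ hσσ b c hc := by
  have h22 := congrFun (congrFun (mat₃_form g) 2) 2
  simp [hg, uMat₃, antiForm, Matrix.mul_apply, Fin.sum_univ_three] at h22
  have hc : c + σ c + b * σ b = 0 := by linear_combination h22
  exact ⟨hc, mat₃_injective σ hg⟩

theorem uMat₃_mul (b c b' c' : F) :
    uMat₃ σ b c * uMat₃ σ b' c' = uMat₃ σ (b + b') (c + c' - σ b * b') := by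
  ext i j
  fin_cases i <;> fin_cases j <;> simp [uMat₃, Matrix.mul_apply, Fin.sum_univ_three] <;> ring

theorem uMat₃_zero : uMat₃ σ 0 0 = (1 : M₃) := by
  ext i j
  fin_cases i <;> fin_cases j <;> simp [uMat₃]

/-- An upper triangular element scales the middle coordinate of upper root elements. -/
theorem exists_conj_upper (hσσ : ∀ x, σ (σ x) = x) (g : suAnti σ) (h10 : mat₃ σ g 1 0 = 0)
    (h20 : mat₃ σ g 2 0 = 0) (h21 : mat₃ σ g 2 1 = 0) (x : F) {c : F}
    (hc : c + σ c + x * σ x = 0) :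
    ∃ c' hc', g * uEl₃ hσσ x c hc * g⁻¹ =
      uEl₃ hσσ (mat₃ σ g 1 1 / mat₃ σ g 2 2 * x) c' hc' := by
  set G := mat₃ σ g with hG
  have hf := mat₃_form g
  have e11 := congrFun (congrFun hf 1) 1
  have e02 := congrFun (congrFun hf 0) 2
  simp [← hG, h10, h20, h21, antiForm, Matrix.mul_apply, Fin.sum_univ_three] at e11 e02
  have hd : G 2 2 ≠ 0 := by
    intro h0
    rw [h0, map_zero, mul_zero] at e02
    exact zero_ne_one e02
  have hm : G 1 1 ≠ 0 := by
    intro h0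
    rw [h0, zero_mul] at e11
    exact zero_ne_one e11
  set χ := G 1 1 / G 2 2 with hχ
  have hkey : σ χ * G 1 1 = G 0 0 := by
    rw [hχ, map_div₀, div_mul_eq_mul_div, div_eq_iff (by simpa using hd)]
    linear_combination e11 - e02
  set c' := (G 0 0 * c + G 0 1 * x + σ (χ * x) * G 1 2) / G 2 2 with hc'
  have hmul : G * uMat₃ σ x c = uMat₃ σ (χ * x) c' * G := by
    ext i j
    fin_cases i <;> fin_cases j <;>
      simp [uMat₃, Matrix.mul_apply, Fin.sum_univ_three, h10, h20, h21]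
    · linear_combination σ x * hkey
    · rw [hc', div_mul_cancel₀ _ hd, map_mul]; ring
    · rw [hχ]; field_simp; ring
  have hmat : mat₃ σ (g * uEl₃ hσσ x c hc * g⁻¹) = uMat₃ σ (χ * x) c' := by
    rw [map_mul, map_mul, mat₃_uEl, ← hG, hmul, Matrix.mul_assoc, hG, mat₃_mul_inv, Matrix.mul_one]
  obtain ⟨hc'', he⟩ := eq_uEl_of_mat hσσ hmat
  exact ⟨c', hc'', he⟩

/-- The transvection with centre `z`. -/
def tvMat₃ (σ : F →+* F) (z : Fin 3 → F) (c : F) : M₃ :=
  1 + c • vecMulVec z (antiForm *ᵥ (σ ∘ z))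

theorem antiForm_transpose : (antiForm : M₃)ᵀ = antiForm := by
  ext i j
  fin_cases i <;> fin_cases j <;> simp [antiForm]

theorem tvMat₃_smul (z : Fin 3 → F) (ρ c : F) :
    tvMat₃ σ (ρ • z) c = tvMat₃ σ z (c * (ρ * σ ρ)) := by
  rw [tvMat₃, tvMat₃]
  have : σ ∘ (ρ • z) = σ ρ • (σ ∘ z) := funext fun i => by simp
  rw [this, mulVec_smul, smul_vecMulVec, vecMulVec_smul, smul_smul, smul_smul]
  congr 2
  ring

theorem tvMat₃_conj (g : suAnti σ) (z : Fin 3 → F) (c : F) :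
    mat₃ σ g * tvMat₃ σ z c * mat₃ σ g⁻¹ = tvMat₃ σ (mat₃ σ g *ᵥ z) c := by
  set G := mat₃ σ g with hG
  have hT : ((G.map σ)ᵀ) * antiForm * G = antiForm := by
    have := congrArg Matrix.transpose (mat₃_form g)
    rwa [Matrix.transpose_mul, Matrix.transpose_mul, Matrix.transpose_transpose,
      antiForm_transpose, ← Matrix.mul_assoc, ← hG] at this
  have hrow : (antiForm *ᵥ (σ ∘ z)) ᵥ* mat₃ σ g⁻¹ = antiForm *ᵥ (σ ∘ (G *ᵥ z)) := by
    have e : σ ∘ (G *ᵥ z) = G.map σ *ᵥ (σ ∘ z) := funext fun i => RingHom.map_mulVec σ _ _ i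
    have h1 : (antiForm : M₃) *ᵥ (σ ∘ (G *ᵥ z)) = (σ ∘ z) ᵥ* ((G.map σ)ᵀ * antiForm) := by
      rw [e, mulVec_mulVec, ← Matrix.vecMul_transpose, Matrix.transpose_mul, antiForm_transpose]
    have h2 : (G.map σ)ᵀ * antiForm = antiForm * mat₃ σ g⁻¹ := by
      calc (G.map σ)ᵀ * antiForm = (G.map σ)ᵀ * antiForm * (G * mat₃ σ g⁻¹) := by
            rw [hG, mat₃_mul_inv, Matrix.mul_one]
        _ = antiForm * mat₃ σ g⁻¹ := by rw [← Matrix.mul_assoc, hT]
    rw [h1, h2, ← vecMul_vecMul, ← Matrix.vecMul_transpose antiForm, antiForm_transpose]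
  rw [tvMat₃, tvMat₃, Matrix.mul_add, Matrix.mul_one, Matrix.add_mul, Matrix.mul_smul,
    Matrix.smul_mul, mul_vecMulVec, vecMulVec_mul, hrow, hG, mat₃_mul_inv]

theorem tvMat₃_first (c : F) : tvMat₃ σ (Pi.single 0 1) c = uMat₃ σ 0 c := by
  ext i j
  fin_cases i <;> fin_cases j <;>
    simp [tvMat₃, uMat₃, antiForm, vecMulVec_apply, Matrix.mulVec, dotProduct, Fin.sum_univ_three,
      Pi.single_apply, apply_ite σ]

section criterion

variable [Finite F] {q : ℕ} (h : UniField F σ q)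
include h

/-- A subgroup containing an upper root element, an upper triangular element with a generating
ratio, and an element moving the first axis to the last one, is everything. -/
theorem eq_top_of_upper (hq : 3 ≤ q) (K : Subgroup (suAnti σ)) {b c : F}
    (hc : c + σ c + b * σ b = 0) (hb : b ≠ 0) (hu : uEl₃ h.conj_conj b c hc ∈ K)
    {W : suAnti σ} (hW : W ∈ K) (h10 : mat₃ σ W 1 0 = 0) (h20 : mat₃ σ W 2 0 = 0)
    (h21 : mat₃ σ W 2 1 = 0)
    (hgen : ∀ R : Subring F, mat₃ σ W 1 1 / mat₃ σ W 2 2 ∈ R → R = ⊤)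
    (hmove : ∃ g ∈ K, mat₃ σ g 2 0 ≠ 0) : K = ⊤ := by
  have hσσ := h.conj_conj
  let B : AddSubgroup F :=
    { carrier := {x | ∃ c hc, uEl₃ hσσ x c hc ∈ K}
      add_mem' := by
        rintro x y ⟨c₁, hc₁, hk₁⟩ ⟨c₂, hc₂, hk₂⟩
        obtain ⟨hc₃, he⟩ := eq_uEl_of_mat hσσ
          (show mat₃ σ (uEl₃ hσσ x c₁ hc₁ * uEl₃ hσσ y c₂ hc₂) =
            uMat₃ σ (x + y) (c₁ + c₂ - σ x * y) by rw [map_mul, mat₃_uEl, mat₃_uEl, uMat₃_mul])
        exact ⟨_, hc₃, he ▸ K.mul_mem hk₁ hk₂⟩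
      zero_mem' := by
        obtain ⟨hc₀, he⟩ := eq_uEl_of_mat hσσ
          (show mat₃ σ (1 : suAnti σ) = uMat₃ σ 0 0 by rw [map_one, uMat₃_zero])
        exact ⟨0, hc₀, he ▸ K.one_mem⟩
      neg_mem' := by
        rintro x ⟨c₁, hc₁, hk₁⟩
        have hm : mat₃ σ (uEl₃ hσσ x c₁ hc₁)⁻¹ = uMat₃ σ (-x) (σ c₁) := by
          refine left_inv_eq_right_inv (mat₃_inv_mul _) ?_
          rw [mat₃_uEl, uMat₃_mul, add_neg_cancel, mul_neg, sub_neg_eq_add, mul_comm, hc₁,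
            uMat₃_zero]
        obtain ⟨hc₂, he⟩ := eq_uEl_of_mat hσσ hm
        exact ⟨_, hc₂, he ▸ K.inv_mem hk₁⟩ }
  let R : Subring F :=
    { carrier := {r | ∀ x ∈ B, r * x ∈ B}
      mul_mem' := fun {r s} hr hs x hx => by rw [mul_assoc]; exact hr _ (hs _ hx)
      one_mem' := fun x hx => by rwa [one_mul]
      add_mem' := fun {r s} hr hs x hx => by rw [add_mul]; exact B.add_mem (hr _ hx) (hs _ hx)
      zero_mem' := fun x _ => by rw [zero_mul]; exact B.zero_mem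
      neg_mem' := fun {r} hr x hx => by rw [neg_mul]; exact B.neg_mem (hr _ hx) }
  have hR : R = ⊤ := hgen R fun x hx => by
    obtain ⟨c₁, hc₁, hk₁⟩ := hx
    obtain ⟨c', hc', he⟩ := exists_conj_upper hσσ W h10 h20 h21 x hc₁
    exact ⟨c', hc', he ▸ K.mul_mem (K.mul_mem hW hk₁) (K.inv_mem hW)⟩
  have hB : ∀ x, ∃ c hc, uEl₃ hσσ x c hc ∈ K := fun x => by
    have hxR : x / b ∈ R := hR ▸ Subring.mem_top _
    have := hxR b ⟨c, hc, hu⟩
    rwa [div_mul_cancel₀ x hb] at this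
  obtain ⟨ζ, hζ⟩ := h.exists_not_fix
  have hZ : ∀ a (ha : a + σ a + 0 * σ 0 = 0), uEl₃ hσσ 0 a ha ∈ K := by
    intro a ha
    have ha' : σ a = -a := by linear_combination ha
    set t := a / (σ ζ - ζ) with ht
    have hd : σ ζ - ζ ≠ 0 := sub_ne_zero.2 hζ
    have htr : σ t = t := by
      rw [ht, map_div₀, ha', map_sub, hσσ, ← neg_sub (σ ζ) ζ, neg_div_neg_eq]
    obtain ⟨c₁, hc₁, hk₁⟩ := hB t
    obtain ⟨c₂, hc₂, hk₂⟩ := hB ζ
    have he : uEl₃ hσσ t c₁ hc₁ * uEl₃ hσσ ζ c₂ hc₂ =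
        uEl₃ hσσ 0 a ha * (uEl₃ hσσ ζ c₂ hc₂ * uEl₃ hσσ t c₁ hc₁) := by
      apply mat₃_injective σ
      rw [map_mul, map_mul, map_mul, mat₃_uEl, mat₃_uEl, mat₃_uEl, uMat₃_mul, uMat₃_mul, uMat₃_mul,
        map_zero, zero_mul, sub_zero, zero_add]
      congr 1
      · ring
      · rw [htr]
        have : t * (σ ζ - ζ) = a := by rw [ht, div_mul_cancel₀ _ hd]
        linear_combination this
    rw [eq_mul_inv_of_mul_eq he.symm]
    exact K.mul_mem (K.mul_mem hk₁ hk₂) (K.inv_mem (K.mul_mem hk₂ hk₁))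
  have hall : ∀ x c (hc : c + σ c + x * σ x = 0), uEl₃ hσσ x c hc ∈ K := by
    intro x c hc
    obtain ⟨c₁, hc₁, hk₁⟩ := hB x
    have ha : c - c₁ + σ (c - c₁) + 0 * σ 0 = 0 := by
      rw [map_sub, map_zero]; linear_combination hc - hc₁
    have he : uEl₃ hσσ x c hc = uEl₃ hσσ 0 (c - c₁) ha * uEl₃ hσσ x c₁ hc₁ := by
      apply mat₃_injective σ
      rw [map_mul, mat₃_uEl, mat₃_uEl, mat₃_uEl, uMat₃_mul, map_zero, zero_mul, sub_zero, zero_add,
        sub_add_cancel]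
    rw [he]
    exact K.mul_mem (hZ _ ha) hk₁
  -- transitivity on isotropic vectors
  have hiso : ∀ g : suAnti σ, (mat₃ σ g 0 0) * σ (mat₃ σ g 2 0) +
      mat₃ σ g 1 0 * σ (mat₃ σ g 1 0) + mat₃ σ g 2 0 * σ (mat₃ σ g 0 0) = 0 := by
    intro g
    have := congrFun (congrFun (mat₃_form g) 0) 0
    simp [antiForm, Matrix.mul_apply, Fin.sum_univ_three] at this
    linear_combination this
  have hcover : ∀ z : Fin 3 → F, z 0 * σ (z 2) + z 1 * σ (z 1) + z 2 * σ (z 0) = 0 →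
      ∃ g ∈ K, ∃ ρ : F, z = ρ • (mat₃ σ g *ᵥ Pi.single 0 1) := by
    intro z hz
    by_cases h2 : z 2 = 0
    · have h1 : z 1 = 0 := by
        have : z 1 * σ (z 1) = 0 := by
          rw [h2, map_zero] at hz; linear_combination hz
        rcases mul_eq_zero.1 this with h1 | h1
        · exact h1
        · simpa using h1
      refine ⟨1, K.one_mem, z 0, ?_⟩
      funext i
      fin_cases i <;> simp [h1, h2]
    obtain ⟨g, hgK, hg⟩ := hmove
    set G := mat₃ σ g with hG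
    have hg' : σ (G 2 0) ≠ 0 := by simpa using hg
    have h2' : σ (z 2) ≠ 0 := by simpa using h2
    have cx : ∀ (a b d : F), d ≠ 0 → a * σ d + b * σ b + d * σ a = 0 →
        a / d + σ (a / d) + b / d * σ (b / d) = 0 := by
      intro a b d hd he
      have hd' : σ d ≠ 0 := by simpa using hd
      rw [map_div₀, map_div₀]
      field_simp
      linear_combination he
    have hc₁ := cx _ _ _ hg (hiso g)
    have hc₂ := cx _ _ _ h2 hz
    set A := uEl₃ hσσ _ _ hc₁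
    set B' := uEl₃ hσσ _ _ hc₂
    refine ⟨B' * A⁻¹ * g, K.mul_mem (K.mul_mem (hall _ _ hc₂) (K.inv_mem (hall _ _ hc₁))) hgK,
      z 2 / G 2 0, ?_⟩
    have e1 : mat₃ σ g *ᵥ Pi.single 0 1 = G 2 0 • (mat₃ σ A *ᵥ Pi.single 2 1) := by
      funext i
      fin_cases i <;> simp [A, ← hG, uMat₃] <;> field_simp
    have e2 : z = z 2 • (mat₃ σ B' *ᵥ Pi.single 2 1) := by
      funext i
      fin_cases i <;> simp [B', uMat₃] <;> field_simp
    rw [map_mul, map_mul, ← mulVec_mulVec, e1, ← mulVec_mulVec, mulVec_smul, mulVec_smul,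
      mulVec_mulVec _ (mat₃ σ A⁻¹) (mat₃ σ A), mat₃_inv_mul, one_mulVec, smul_smul,
      div_mul_cancel₀ _ hg]
    exact e2
  -- all transvections
  cases nonempty_fintype F
  obtain ⟨P, Q, e, hPQ, hQP, hP, he⟩ := exists_frame h
  have hcard : Fintype.card F = q ^ 2 := by rw [← Nat.card_eq_fintype_card, h.card]
  have htop := Cfsg.Agent.S0780.result hcard 3 le_rfl (fun h' => by omega)
  suffices K.map (e : suAnti σ →* Cfsg.SU 3 F q) = ⊤ by
    refine eq_top_iff.2 fun g _ => ?_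
    have hg : e g ∈ K.map (e : suAnti σ →* Cfsg.SU 3 F q) := by rw [this]; trivial
    obtain ⟨g', hg', hge⟩ := hg
    rwa [← e.injective hge]
  rw [eq_top_iff, ← htop, Subgroup.closure_le]
  rintro A ⟨v, d, hv, hA⟩
  have hherm : ∀ x : Fin 3 → F, σ ∘ x = fun i => x i ^ q := fun x => funext fun i => h.apply_eq _
  set z := Q *ᵥ v with hz
  have hvz : v = P *ᵥ z := by rw [hz, mulVec_mulVec, hPQ, one_mulVec]
  have hzi : z 0 * σ (z 2) + z 1 * σ (z 1) + z 2 * σ (z 0) = 0 := by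
    have h0 : v ⬝ᵥ (σ ∘ v) = 0 := by
      rw [← hv]; simp [Cfsg.hermForm, dotProduct, h.apply_eq]
    have e' : σ ∘ (P *ᵥ z) = P.map σ *ᵥ (σ ∘ z) := funext fun i => RingHom.map_mulVec σ _ _ i
    rw [hvz, e', Matrix.dotProduct_mulVec, ← Matrix.mulVec_transpose, Matrix.mulVec_mulVec] at h0
    have hP' : (P.map σ)ᵀ * P = antiForm := by
      have := congrArg Matrix.transpose hP
      rwa [Matrix.transpose_mul, Matrix.transpose_transpose, antiForm_transpose] at this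
    rw [hP'] at h0
    simp [antiForm, Matrix.mulVec, dotProduct, Fin.sum_univ_three] at h0
    linear_combination h0
  have hmat : mat₃ σ (e.symm A) = tvMat₃ σ z d := by
    have h1 := he (e.symm A)
    rw [MulEquiv.apply_symm_apply, hA] at h1
    have h2 : mat₃ σ (e.symm A) = Q * Cfsg.unitaryTransvection 3 q v d * P := by
      rw [h1]
      simp only [Matrix.mul_assoc]
      rw [hQP, Matrix.mul_one, ← Matrix.mul_assoc, hQP, Matrix.one_mul]
    rw [h2, Cfsg.unitaryTransvection, ← hherm v, tvMat₃, Matrix.mul_add, Matrix.mul_one,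
      Matrix.add_mul, hQP, Matrix.mul_smul, Matrix.smul_mul, mul_vecMulVec, vecMulVec_mul, ← hz]
    congr 3
    have e' : σ ∘ (P *ᵥ z) = P.map σ *ᵥ (σ ∘ z) := funext fun i => RingHom.map_mulVec σ _ _ i
    rw [hvz, e', ← Matrix.mulVec_transpose, Matrix.mulVec_mulVec, hP]
  obtain ⟨g, hgK, ρ, hρ⟩ := hcover z hzi
  refine ⟨e.symm A, ?_, e.apply_symm_apply A⟩
  rw [hρ, tvMat₃_smul, ← tvMat₃_conj, tvMat₃_first] at hmat
  have hm : mat₃ σ (g⁻¹ * e.symm A * g) = uMat₃ σ 0 (d * (ρ * σ ρ)) := by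
    rw [map_mul, map_mul, hmat]
    simp only [Matrix.mul_assoc]
    rw [mat₃_inv_mul, Matrix.mul_one, ← Matrix.mul_assoc, mat₃_inv_mul, Matrix.one_mul]
  obtain ⟨hc', he'⟩ := eq_uEl_of_mat hσσ hm
  have hk := K.mul_mem (K.mul_mem hgK (he' ▸ hall _ _ hc')) (K.inv_mem hgK)
  have : e.symm A = g * (g⁻¹ * e.symm A * g) * g⁻¹ := by group
  show e.symm A ∈ K
  rw [this]
  exact hk

end criterion

end CfsgLib.RegularGenForms
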