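import Cfsg.Agent.Lib.RegularGenForms.SU3Basic
import Cfsg.Agent.Lib.RegularGenForms.Chain

/-!
`SU₃(q)` is generated by an upper regular unipotent `u` and a conjugate `M u` with `M` monomial,
whenever the cube of the norm-one ratio `σλ/λ` generates the field.
-/

set_option autoImplicit false

open Matrix
open scoped MatrixGroups

namespace CfsgLib.RegularGenForms

open CfsgLib.Amalgams

variable {F : Type*} [Field F] {σ : F →+* F}

local notation "M₃" => Matrix (Fin 3) (Fin 3) F

/-- Two unipotent isometries with cyclic vectors of equal determinant and equal Gram data are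
conjugate in the special unitary group. -/
theorem exists_su_conj (A B : suAnti σ) (y z : Fin 3 → F) (P₁ P₂ C : M₃)
    (hd : P₁.det = P₂.det) (hd0 : P₁.det ≠ 0)
    (hA : mat₃ σ A * P₁ = P₁ * C) (hB : mat₃ σ B * P₂ = P₂ * C)
    (hG : P₁ᵀ * antiForm * P₁.map σ = P₂ᵀ * antiForm * P₂.map σ)
    (_hy : P₁ *ᵥ Pi.single 0 1 = y) (_hz : P₂ *ᵥ Pi.single 0 1 = z) :
    ∃ g : suAnti σ, g * A * g⁻¹ = B := by
  have hu : IsUnit P₁.det := isUnit_iff_ne_zero.2 hd0
  set G := P₂ * P₁⁻¹ with hGdef
  have hdet : G.det = 1 := by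
    rw [hGdef, det_mul, det_nonsing_inv, ← hd, Ring.mul_inverse_cancel _ hu]
  have hform : Gᵀ * antiForm * G.map σ = antiForm := by
    have h1 : P₁ * P₁⁻¹ = 1 := mul_nonsing_inv _ hu
    calc Gᵀ * antiForm * G.map σ
        = (P₁⁻¹)ᵀ * (P₂ᵀ * antiForm * P₂.map σ) * (P₁⁻¹).map σ := by
          rw [hGdef, Matrix.transpose_mul, Matrix.map_mul]; simp only [Matrix.mul_assoc]
      _ = (P₁ * P₁⁻¹)ᵀ * antiForm * (P₁ * P₁⁻¹).map σ := by
          rw [← hG, Matrix.transpose_mul, Matrix.map_mul]; simp only [Matrix.mul_assoc]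
      _ = antiForm := by rw [h1]; simp
  let g : suAnti σ := ⟨⟨G, hdet⟩, hform⟩
  refine ⟨g, mul_inv_eq_iff_eq_mul.2 (mat₃_injective σ ?_)⟩
  rw [map_mul, map_mul]
  show G * mat₃ σ A = mat₃ σ B * G
  have hC : C = P₁⁻¹ * mat₃ σ A * P₁ := by
    rw [Matrix.mul_assoc, hA, ← Matrix.mul_assoc, nonsing_inv_mul _ hu, Matrix.one_mul]
  calc G * mat₃ σ A = P₂ * (P₁⁻¹ * mat₃ σ A * P₁) * P₁⁻¹ := by
        rw [hGdef]
        simp only [Matrix.mul_assoc]
        rw [mul_nonsing_inv _ hu, Matrix.mul_one]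
    _ = mat₃ σ B * G := by rw [← hC, ← hB, hGdef, Matrix.mul_assoc]

/-- The monomial matrix. -/
def monMat (σ : F →+* F) (lam : F) : M₃ :=
  !![0, 0, (σ lam)⁻¹; 0, -(σ lam / lam), 0; lam, 0, 0]

theorem monMat_form (hσσ : ∀ x, σ (σ x) = x) {lam : F} (h0 : lam ≠ 0) :
    (monMat σ lam)ᵀ * antiForm * (monMat σ lam).map σ = antiForm := by
  have hs : σ lam ≠ 0 := by simpa using h0
  ext i j
  fin_cases i <;> fin_cases j <;>
    simp [monMat, antiForm, Matrix.mul_apply, Fin.sum_univ_three, hσσ] <;> field_simp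

/-- The monomial element. -/
noncomputable def monEl (hσσ : ∀ x, σ (σ x) = x) {lam : F} (h0 : lam ≠ 0) : suAnti σ :=
  ⟨⟨monMat σ lam, by
    have hs : σ lam ≠ 0 := by simpa using h0
    simp [monMat, Matrix.det_fin_three]
    field_simp⟩, monMat_form hσσ h0⟩

@[simp] theorem mat₃_monEl (hσσ : ∀ x, σ (σ x) = x) {lam : F} (h0 : lam ≠ 0) :
    mat₃ σ (monEl hσσ h0) = monMat σ lam := rfl

variable [Finite F] {q : ℕ} (h : UniField F σ q)
include h

set_option maxHeartbeats 1000000 in
/-- For any `lam` with non-zero trace, `M u` is conjugate to a suitable upper regular `u`. -/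
theorem exists_conj_mon {lam : F} (h0 : lam ≠ 0) (hL : lam + σ lam ≠ 0) :
    ∃ (b c : F) (hc : c + σ c + b * σ b = 0), b ≠ 0 ∧
      ∃ g : suAnti σ, g * uEl₃ h.conj_conj b c hc * g⁻¹ =
        monEl h.conj_conj h0 * uEl₃ h.conj_conj b c hc := by
  have hσσ := h.conj_conj
  have hs0 : σ lam ≠ 0 := by simpa using h0
  set L := lam + σ lam with hLdef
  set P := lam * σ lam with hPdef
  have hP0 : P ≠ 0 := mul_ne_zero h0 hs0
  have hσL : σ L = L := by rw [hLdef, map_add, hσσ, add_comm]
  have hσP : σ P = P := by rw [hPdef, map_mul, hσσ, mul_comm]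
  set c : F := (3 + σ lam / lam) / lam with hcdef
  have hσc : σ c = (3 + lam / σ lam) / σ lam := by
    rw [hcdef, map_div₀, map_add, map_div₀, hσσ, map_ofNat]
  have hcc : c + σ c = L ^ 3 / P ^ 2 := by
    rw [hσc, hcdef, hLdef, hPdef]; field_simp; ring
  obtain ⟨b, hb⟩ := h.exists_norm (a := -(L ^ 3 / P ^ 2)) (by rw [map_neg, map_div₀, map_pow, map_pow, hσL, hσP])
  have hb0 : b ≠ 0 := by
    rintro rfl
    rw [zero_mul, zero_eq_neg] at hb
    exact div_ne_zero (pow_ne_zero 3 hL) (pow_ne_zero 2 hP0) hb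
  have hc : c + σ c + b * σ b = 0 := by rw [hcc, hb, add_neg_cancel]
  refine ⟨b, c, hc, hb0, ?_⟩
  set r : F := -(P / L) with hr
  have hr0 : r ≠ 0 := neg_ne_zero.2 (div_ne_zero hP0 hL)
  have hσr : σ r = r := by rw [hr, map_neg, map_div₀, hσP, hσL]
  -- the middle coordinate
  set D : F := (lam - c * r ^ 2) / r with hD
  have hsD : σ D = -D := by
    have e1 : c * r ^ 2 + σ c * r ^ 2 = L := by
      rw [← add_mul, hcc, hr]; field_simp
    rw [hD, map_div₀, map_sub, map_mul, map_pow, hσr, ← neg_div]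
    congr 1
    linear_combination -e1 + hLdef
  obtain ⟨ζ, hζ⟩ := h.exists_not_fix
  have hζ' : ζ - σ ζ ≠ 0 := sub_ne_zero.2 fun e => hζ e.symm
  set w : F := D / (ζ - σ ζ) * ζ with hw
  set d : F := σ (w / b) with hd
  have hbd : b * σ d - σ b * d = D := by
    rw [hd, hσσ, map_div₀, mul_div_cancel₀ _ hb0, mul_div_cancel₀ _ (by simpa using hb0), hw,
      map_mul, map_div₀, map_sub, hσσ, hsD]
    rw [← neg_sub ζ (σ ζ), neg_div_neg_eq]
    field_simp
  have hfix : σ (-(d * σ d) / r) = -(d * σ d) / r := by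
    rw [map_div₀, map_neg, map_mul, hσr, hσσ d, mul_comm]
  obtain ⟨t, ht⟩ := h.exists_trace hfix
  have hiso : t * r + d * σ d + r * σ t = 0 := by
    have := congrArg (· * r) ht
    simp only [div_mul_cancel₀ _ hr0] at this
    linear_combination this
  -- the two frames
  set U := uMat₃ σ b c with hU
  set V := monMat σ lam * U with hV
  let P₁ : M₃ := !![t, t - σ b * d + c * r, t - 2 * (σ b * d) + 2 * (c * r) - σ b * b * r;
    d, d + b * r, d + 2 * (b * r);
    r, r, r]
  let P₂ : M₃ := !![1, 0, lam / σ lam;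
    0, 0, -(σ lam) * b;
    0, lam, lam ^ 2 * c]
  let C : M₃ := !![0, 0, 1; 1, 0, -3; 0, 1, 3]
  refine exists_su_conj (uEl₃ hσσ b c hc) (monEl hσσ h0 * uEl₃ hσσ b c hc) (P₁ *ᵥ Pi.single 0 1)
    (P₂ *ᵥ Pi.single 0 1) P₁ P₂ C ?_ ?_ ?_ ?_ ?_ rfl rfl
  · simp [P₁, P₂, Matrix.det_fin_three]
    have e : b * σ b * r ^ 3 = P := by
      rw [hb, hr]; field_simp
    linear_combination b * e
  · simp [P₁, Matrix.det_fin_three]
    have e : b * σ b * r ^ 3 = P := by
      rw [hb, hr]; field_simp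
    intro e'
    exact mul_ne_zero hb0 hP0 (by linear_combination e' - b * e)
  · ext i j
    fin_cases i <;> fin_cases j <;>
      simp [P₁, C, uMat₃, Matrix.mul_apply, Fin.sum_univ_three] <;> ring
  · rw [map_mul, mat₃_monEl, mat₃_uEl]
    have hσbb : σ b * b = -(c + σ c) := by linear_combination hc
    ext i j
    fin_cases i <;> fin_cases j <;>
      simp [P₂, C, monMat, uMat₃, Matrix.mul_apply, Fin.sum_univ_three]
    all_goals (try field_simp)
    all_goals first
      | ring1
      | (rw [hcdef]; field_simp; ring1)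
      | (have e1 : c * lam ^ 2 = 3 * lam + σ lam := by rw [hcdef]; field_simp
         have e2 : σ c * σ lam ^ 2 = 3 * σ lam + lam := by rw [hσc]; field_simp
         linear_combination σ lam ^ 2 * hσbb - e2 + σ lam * c * e1)
  · have hy : ∀ x : M₃, xᵀ * antiForm * x.map σ = Matrix.of fun i j =>
        x 0 i * σ (x 2 j) + x 1 i * σ (x 1 j) + x 2 i * σ (x 0 j) := by
      intro x
      ext i j
      fin_cases i <;> fin_cases j <;>
        simp [antiForm, Matrix.mul_apply, Fin.sum_univ_three] <;> ring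
    rw [hy, hy]
    have hN : σ b * b = -(c + σ c) := by linear_combination hc
    have e1 : c * lam ^ 2 = 3 * lam + σ lam := by rw [hcdef]; field_simp
    have e2 : σ c * σ lam ^ 2 = 3 * σ lam + lam := by rw [hσc]; field_simp
    have e3 : (b * σ d - σ b * d) * r + c * r ^ 2 = lam := by
      rw [hbd, hD, div_mul_cancel₀ _ hr0]; ring
    have e4 : (σ b * d - b * σ d) * r + σ c * r ^ 2 = σ lam := by
      have := congrArg σ e3
      simp only [map_add, map_mul, map_sub, map_pow, hσσ, hσr] at this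
      linear_combination this
    have e5 : (c + σ c) * r ^ 2 = lam + σ lam := by linear_combination e3 + e4
    ext i j
    fin_cases i <;> fin_cases j <;>
      simp [P₁, P₂, hσσ, hσr, map_ofNat, map_div₀]
    all_goals (try field_simp)
    all_goals first
      | linear_combination hiso
      | linear_combination hiso + e4
      | linear_combination hiso + 2 * e4 + e5 - r ^ 2 * hN - e2
      | linear_combination hiso + e3
      | linear_combination hiso + r ^ 2 * hc
      | linear_combination hiso + e3 + 2 * e4 + r ^ 2 * hN - e5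
      | linear_combination hiso + 2 * e3 + e5 - r ^ 2 * hN - e1
      | linear_combination hiso + 2 * e3 + e4 + r ^ 2 * hN - e5
      | linear_combination hiso + 2 * e3 + 2 * e4 + 2 * r ^ 2 * hN - 2 * e5 - lam * σ lam * hc

/-- Generation when the cube of the ratio generates the field. -/
theorem exists_pair_of_ratio (hq : 3 ≤ q) {lam : F} (h0 : lam ≠ 0) (hL : lam + σ lam ≠ 0)
    (hgen : ∀ R : Subring F, (σ lam / lam) ^ 3 ∈ R → R = ⊤) :
    ∃ (b c : F) (hc : c + σ c + b * σ b = 0), b ≠ 0 ∧ ∃ g : suAnti σ,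
      Subgroup.closure {uEl₃ h.conj_conj b c hc, g * uEl₃ h.conj_conj b c hc * g⁻¹} = ⊤ := by
  obtain ⟨b, c, hc, hb, g, hg⟩ := exists_conj_mon h h0 hL
  refine ⟨b, c, hc, hb, g, ?_⟩
  rw [hg]
  set u := uEl₃ h.conj_conj b c hc
  set M := monEl h.conj_conj h0
  set K := Subgroup.closure ({u, M * u} : Set (suAnti σ))
  have hu : u ∈ K := Subgroup.subset_closure (by simp)
  have hM : M ∈ K := by
    have := K.mul_mem (Subgroup.subset_closure (show M * u ∈ ({u, M * u} : Set _) by simp))
      (K.inv_mem hu)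
    rwa [mul_inv_cancel_right] at this
  have hs0 : σ lam ≠ 0 := by simpa using h0
  refine eq_top_of_upper h hq K hc hb hu (K.mul_mem hM hM) ?_ ?_ ?_ (fun R hR => hgen R ?_)
    ⟨M, hM, by simpa [M, monMat] using h0⟩
  iterate 3 simp [M, monMat, Matrix.mul_apply, Fin.sum_univ_three]
  convert hR using 1
  simp [M, monMat, Matrix.mul_apply, Fin.sum_univ_three]
  field_simp


end CfsgLib.RegularGenForms
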