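import Cfsg.Agent.Lib.RegularGenForms.SU3Small

/-!
`SU₃(q)`, `q ≥ 3`, is generated by two conjugate regular unipotent elements.
-/

set_option autoImplicit false

open Matrix
open scoped MatrixGroups

namespace CfsgLib.RegularGenForms

open CfsgLib.Amalgams

variable {F : Type*} [Field F] [Finite F] {σ : F →+* F} {q : ℕ} (h : UniField F σ q)
include h

local notation "M₃" => Matrix (Fin 3) (Fin 3) F

theorem exists_pair_generic (hq : 3 ≤ q) (h5 : q ≠ 5) (h8 : q ≠ 8) :
    ∃ (b c : F) (hc : c + σ c + b * σ b = 0), b ≠ 0 ∧ ∃ g : suAnti σ,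
      Subgroup.closure {uEl₃ h.conj_conj b c hc, g * uEl₃ h.conj_conj b c hc * g⁻¹} = ⊤ := by
  obtain ⟨g, hg⟩ := h.exists_gen
  set η : Fˣ := g ^ (q - 1) with hη
  have hqq : q ^ 2 - 1 = (q - 1) * (q + 1) := by
    rw [show q - 1 = q - 1 from rfl, mul_comm, ← Nat.sq_sub_sq]
  have hord : orderOf η = q + 1 := by
    rw [hη, orderOf_pow' _ (by omega), hg, hqq, Nat.gcd_mul_right_left,
      Nat.mul_div_cancel_left _ (by omega)]
  set lam : F := ((g⁻¹ : Fˣ) : F) with hlam
  have h0 : lam ≠ 0 := (g⁻¹ : Fˣ).ne_zero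
  have hση : σ lam / lam = ((η⁻¹ : Fˣ) : F) := by
    rw [h.apply_eq, div_eq_iff h0, hlam, ← Units.val_pow_eq_pow_val, ← Units.val_mul]
    congr 1
    rw [hη, ← inv_pow, ← pow_succ, show q - 1 + 1 = q by omega]
  have hL : lam + σ lam ≠ 0 := by
    intro e
    have e1 : ((η⁻¹ : Fˣ) : F) = -1 := by
      rw [← hση, div_eq_iff h0]; linear_combination e
    have e2 : (η⁻¹) ^ 2 = 1 := Units.ext (by rw [Units.val_pow_eq_pow_val, e1]; simp)
    have := Nat.le_of_dvd (by norm_num) (orderOf_dvd_of_pow_eq_one e2)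
    rw [orderOf_inv, hord] at this
    omega
  refine exists_pair_of_ratio h hq h0 hL fun R => subring_eq_top_of_pow_ne
    (fun l k hk hlk e => ?_) R
  rw [hση, ← Units.val_pow_eq_pow_val, ← Units.val_pow_eq_pow_val, Units.val_inj, ← pow_mul] at e
  have hl1 : 2 ≤ l := by
    by_contra hl
    rw [h.card] at hlk
    interval_cases l
    · rw [zero_pow (by omega)] at hlk; nlinarith
    · rw [one_pow] at hlk; nlinarith
  have hdvd : (q + 1) ∣ 3 * (l - 1) := by
    rw [← hord, ← orderOf_inv η]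
    apply orderOf_dvd_of_pow_eq_one
    refine mul_right_cancel (b := (η⁻¹) ^ 3) ?_
    rw [← pow_add, one_mul]
    convert e using 2
    rw [Nat.mul_sub, mul_one]; omega
  have hle : q + 1 ≤ 3 * (l - 1) := Nat.le_of_dvd (by omega) hdvd
  rw [h.card] at hlk
  rcases Nat.lt_or_ge k 3 with hk3 | hk3
  · obtain rfl : k = 2 := by omega
    obtain rfl : l = q := Nat.pow_left_injective two_ne_zero hlk
    have h6 : (l + 1) ∣ 6 := by
      have e6 : 6 = 3 * (l + 1) - 3 * (l - 1) := by omega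
      rw [e6]
      exact Nat.dvd_sub (dvd_mul_left _ _) hdvd
    have := Nat.le_of_dvd (by norm_num) h6
    have hl5 : l ≤ 5 := by omega
    interval_cases l <;> omega
  · have hl3 : l ^ 3 ≤ q ^ 2 := hlk ▸ Nat.pow_le_pow_right (by omega) hk3
    have hq9 : q ≤ 9 := by
      by_contra hq9
      have h1 : q + 4 ≤ 3 * l := by omega
      have h2 := Nat.pow_le_pow_left h1 3
      rw [mul_pow] at h2
      obtain ⟨s, rfl⟩ : ∃ s, q = s + 10 := ⟨q - 10, by omega⟩
      nlinarith [pow_nonneg (Nat.zero_le s) 3, pow_nonneg (Nat.zero_le s) 2]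
    have hl4 : l ≤ 4 := by
      by_contra hl4
      have := Nat.pow_le_pow_left (show 5 ≤ l by omega) 3
      nlinarith
    interval_cases q <;> interval_cases l <;> omega

theorem exists_pair_std (hq : 3 ≤ q) :
    ∃ u g : Cfsg.SU 3 F q, (IsNilpotent (((u : SL(3, F)) : M₃) - 1) ∧
        (((u : SL(3, F)) : M₃) - 1) ^ 2 ≠ 0) ∧
      Subgroup.closure ({u, g * u * g⁻¹} : Set (Cfsg.SU 3 F q)) = ⊤ := by
  obtain ⟨b, c, hc, hb, g, htop⟩ : ∃ (b c : F) (hc : c + σ c + b * σ b = 0), b ≠ 0 ∧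
      ∃ g : suAnti σ,
        Subgroup.closure {uEl₃ h.conj_conj b c hc, g * uEl₃ h.conj_conj b c hc * g⁻¹} = ⊤ := by
    by_cases h5 : q = 5
    · exact exists_pair_five h h5
    by_cases h8 : q = 8
    · exact exists_pair_eight h h8
    exact exists_pair_generic h hq h5 h8
  obtain ⟨P, Q, e, hPQ, hQP, -, he⟩ := exists_frame h
  set u := uEl₃ h.conj_conj b c hc
  have key : ∀ j : ℕ, (((e u : Cfsg.SU 3 F q) : SL(3, F)) : M₃) - 1 = P * (uMat₃ σ b c - 1) * Q ∧
      ((((e u : Cfsg.SU 3 F q) : SL(3, F)) : M₃) - 1) ^ j = P * (uMat₃ σ b c - 1) ^ j * Q := by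
    intro j
    have h1 : (((e u : Cfsg.SU 3 F q) : SL(3, F)) : M₃) - 1 = P * (uMat₃ σ b c - 1) * Q := by
      rw [he, Matrix.mul_sub, Matrix.sub_mul, Matrix.mul_one, hPQ]
      rfl
    refine ⟨h1, ?_⟩
    induction j with
    | zero => rw [pow_zero, pow_zero, Matrix.mul_one, hPQ]
    | succ j ih =>
      rw [pow_succ, ih, h1, pow_succ]
      simp only [Matrix.mul_assoc]
      rw [← Matrix.mul_assoc Q P, hQP, Matrix.one_mul]
  refine ⟨e u, e g, ⟨⟨3, ?_⟩, ?_⟩, ?_⟩
  · rw [(key 3).2]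
    have : (uMat₃ σ b c - 1 : M₃) ^ 3 = 0 := by
      ext i j
      fin_cases i <;> fin_cases j <;>
        simp [uMat₃, pow_succ, Matrix.mul_apply, Fin.sum_univ_three, Matrix.sub_apply]
    rw [this, Matrix.mul_zero, Matrix.zero_mul]
  · rw [(key 2).2]
    intro e0
    have : (uMat₃ σ b c - 1 : M₃) ^ 2 = 0 := by
      have := congrArg (fun X => Q * X * P) e0
      simpa [← Matrix.mul_assoc, hQP, Matrix.mul_assoc _ Q P] using this
    have := congrFun (congrFun this 0) 2
    simp [uMat₃, pow_succ, Matrix.mul_apply, Fin.sum_univ_three, hb] at this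
  · have := congrArg (Subgroup.map (e : suAnti σ →* Cfsg.SU 3 F q)) htop
    rw [MonoidHom.map_closure, Subgroup.map_top_of_surjective _ e.surjective, Set.image_pair] at this
    simpa using this

end CfsgLib.RegularGenForms
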