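import Cfsg.Agent.Lib.RegularGenForms.SU3Gen

/-!
A criterion for an element to generate a finite field, and explicit generating pairs of regular
unipotents for `SU₃(5)` and `SU₃(8)`: a word in `u` and its Weyl conjugate is upper triangular
with a generating ratio.
-/

set_option autoImplicit false

open Matrix
open scoped MatrixGroups

namespace CfsgLib.RegularGenForms

open CfsgLib.Amalgams

variable {F : Type*} [Field F] {σ : F →+* F}

local notation "M₃" => Matrix (Fin 3) (Fin 3) F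

/-- Criterion for an element of a finite field to generate it as a ring. -/
theorem subring_eq_top_of_pow_ne [Finite F] {x : F}
    (hx : ∀ l k : ℕ, 2 ≤ k → l ^ k = Nat.card F → x ^ l ≠ x) (R : Subring F) (hR : x ∈ R) :
    R = ⊤ := by
  classical
  cases nonempty_fintype F
  let S : Subfield F :=
    { R with
      inv_mem' := fun y hy => by
        by_cases hy0 : y = 0
        · subst hy0; rw [_root_.inv_zero]; exact R.zero_mem
        · have h1 := FiniteField.pow_card_sub_one_eq_one y hy0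
          have h2 : 2 ≤ Fintype.card F := Fintype.one_lt_card
          have : y⁻¹ = y ^ (Fintype.card F - 2) := by
            refine inv_eq_of_mul_eq_one_right ?_
            rw [← pow_succ', show Fintype.card F - 2 + 1 = Fintype.card F - 1 by omega]
            exact h1
          rw [this]
          exact pow_mem (show y ∈ R from hy) _ }
  by_contra hne
  have hk : Nat.card F = Nat.card S ^ Module.finrank S F := Module.natCard_eq_pow_finrank
  have hlt : Nat.card S < Nat.card F := by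
    have : (S : Set F) ≠ Set.univ := fun e => hne (eq_top_iff.2 fun y _ => by
      have : y ∈ (S : Set F) := by rw [e]; trivial
      exact this)
    have h1 := Set.ncard_lt_card this
    rwa [← Nat.card_coe_set_eq] at h1
  have hfr : 2 ≤ Module.finrank S F := by
    by_contra hlt2
    interval_cases hf : Module.finrank S F
    · rw [pow_zero] at hk
      have := Finite.one_lt_card (α := F)
      omega
    · rw [pow_one] at hk; omega
  have : Fintype S := Fintype.ofFinite S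
  refine hx (Nat.card S) _ hfr hk.symm ?_
  have := congrArg Subtype.val (FiniteField.pow_card (⟨x, hR⟩ : S))
  rw [Nat.card_eq_fintype_card]
  simpa using this

theorem mat₃_uEl_inv (hσσ : ∀ x, σ (σ x) = x) {b c : F} (hc : c + σ c + b * σ b = 0) :
    mat₃ σ (uEl₃ hσσ b c hc)⁻¹ = uMat₃ σ (-b) (σ c) := by
  refine left_inv_eq_right_inv (mat₃_inv_mul _) ?_
  rw [mat₃_uEl, uMat₃_mul, add_neg_cancel, mul_neg, sub_neg_eq_add, mul_comm, hc, uMat₃_zero]

theorem wMat₃_mul_uMat₃ (b c : F) :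
    (wMat₃ : M₃) * uMat₃ σ b c = lMat₃ σ (-b) c * wMat₃ := by
  ext i j
  fin_cases i <;> fin_cases j <;>
    simp [wMat₃, uMat₃, lMat₃, Matrix.mul_apply, Fin.sum_univ_three]

theorem mat₃_wConj (hσσ : ∀ x, σ (σ x) = x) {b c : F} (hc : c + σ c + b * σ b = 0) :
    mat₃ σ (wEl₃ σ * uEl₃ hσσ b c hc * (wEl₃ σ)⁻¹) = lMat₃ σ (-b) c := by
  rw [map_mul, map_mul, mat₃_wEl, mat₃_uEl, wMat₃_mul_uMat₃, Matrix.mul_assoc, ← mat₃_wEl (σ := σ),
    mat₃_mul_inv, Matrix.mul_one]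

theorem mat₃_wConj_inv (hσσ : ∀ x, σ (σ x) = x) {b c : F} (hc : c + σ c + b * σ b = 0) :
    mat₃ σ (wEl₃ σ * uEl₃ hσσ b c hc * (wEl₃ σ)⁻¹)⁻¹ = lMat₃ σ b (σ c) := by
  rw [show (wEl₃ σ * uEl₃ hσσ b c hc * (wEl₃ σ)⁻¹)⁻¹ =
    wEl₃ σ * (uEl₃ hσσ b c hc)⁻¹ * (wEl₃ σ)⁻¹ by group, map_mul, map_mul, mat₃_wEl,
    mat₃_uEl_inv, wMat₃_mul_uMat₃, neg_neg, Matrix.mul_assoc, ← mat₃_wEl (σ := σ), mat₃_mul_inv,
    Matrix.mul_one]

variable [Finite F] {q : ℕ} (h : UniField F σ q)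
include h

set_option maxHeartbeats 3000000 in
/-- The field with twenty-five elements. -/
theorem exists_pair_five (hq : q = 5) :
    ∃ (b c : F) (hc : c + σ c + b * σ b = 0), b ≠ 0 ∧ ∃ g : suAnti σ,
      Subgroup.closure {uEl₃ h.conj_conj b c hc, g * uEl₃ h.conj_conj b c hc * g⁻¹} = ⊤ := by
  subst hq
  cases nonempty_fintype F
  have hcard : Fintype.card F = 25 := by rw [← Nat.card_eq_fintype_card, h.card]; norm_num
  have h5 : (5 : F) = 0 := by
    have h25 : ((25 : ℕ) : F) = 0 := hcard ▸ FiniteField.cast_card_eq_zero F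
    have : (5 : F) ^ 2 = 0 := by
      push_cast at h25
      rw [← h25]; norm_num
    exact pow_eq_zero_iff two_ne_zero |>.1 this
  have h2 : (2 : F) ≠ 0 := fun e => one_ne_zero (by linear_combination h5 - 2 * e : (1 : F) = 0)
  obtain ⟨r, hr⟩ : IsSquare (2 : F) := by
    have hch : ringChar F ≠ 2 := fun e => h2 (by
      have := ringChar.Nat.cast_ringChar (R := F)
      rw [e] at this; simpa using this)
    rw [FiniteField.isSquare_iff hch h2, hcard]
    norm_num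
    linear_combination 819 * h5
  have hr2 : r * r = 2 := hr.symm
  have hr0 : r ≠ 0 := fun e => h2 (by rw [← hr2, e, mul_zero])
  have hσr : σ r = -r := by
    rw [h.apply_eq]
    linear_combination (r ^ 3 + 2 * r) * hr2 + r * h5
  set b : F := 2 * r with hb'
  set c : F := 4 + 2 * r with hc'
  have hb0 : b ≠ 0 := mul_ne_zero h2 hr0
  have hc0 : c ≠ 0 := fun e => by
    have : (4 + 2 * r) * (4 - 2 * r) = 0 := by rw [← hc', e, zero_mul]
    exact mul_ne_zero (mul_ne_zero h2 h2) h2 (by linear_combination this + 4 * hr2)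
  have hc : c + σ c + b * σ b = 0 := by
    simp [hb', hc', map_add, map_mul, hσr, map_ofNat]
    linear_combination -4 * hr2
  set u := uEl₃ h.conj_conj b c hc with hudef
  set v := wEl₃ σ * u * (wEl₃ σ)⁻¹ with hvdef
  have hu : mat₃ σ u = uMat₃ σ b c := rfl
  have hv : mat₃ σ v = lMat₃ σ (-b) c := mat₃_wConj h.conj_conj hc
  have hui : mat₃ σ u⁻¹ = uMat₃ σ (-b) (σ c) := mat₃_uEl_inv h.conj_conj hc
  have hvi : mat₃ σ v⁻¹ = lMat₃ σ b (σ c) := mat₃_wConj_inv h.conj_conj hc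
  have e0 : mat₃ σ v = lMat₃ σ (-b) c := hv
  have e1 : mat₃ σ (u⁻¹ * (v)) =
      (!![2, 3, 4 + 3 * r; 2, 4, 3 * r; 4 + 2 * r, 3 * r, 1] : M₃) := by
    rw [map_mul, hui, e0, hb', hc']
    ext i j
    fin_cases i <;> fin_cases j <;>
      simp [uMat₃, lMat₃, Matrix.mul_apply, Fin.sum_univ_three, hσr, map_ofNat] <;> grobner
  have e2 : mat₃ σ (v * (u⁻¹ * (v))) =
      (!![2, 3, 4 + 3 * r; 2 + r, 4 + 4 * r, 3; 2 + 2 * r, 2 + r, 2] : M₃) := by
    rw [map_mul, hv, e1, hb', hc']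
    ext i j
    fin_cases i <;> fin_cases j <;>
      simp [uMat₃, lMat₃, Matrix.mul_apply, Fin.sum_univ_three, hσr, map_ofNat] <;> grobner
  have e3 : mat₃ σ (v * (v * (u⁻¹ * (v)))) =
      (!![2, 3, 4 + 3 * r; 2 + 2 * r, 4 + 3 * r, 1 + 2 * r; 1 + 2 * r, 3 + 4 * r, 4 * r] : M₃) := by
    rw [map_mul, hv, e2, hb', hc']
    ext i j
    fin_cases i <;> fin_cases j <;>
      simp [uMat₃, lMat₃, Matrix.mul_apply, Fin.sum_univ_three, hσr, map_ofNat] <;> grobner
  have e4 : mat₃ σ (u⁻¹ * (v * (v * (u⁻¹ * (v))))) =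
      (!![2 * r, 2 + 2 * r, 2 * r; 4, 3 + 2 * r, 2 * r; 1 + 2 * r, 3 + 4 * r, 4 * r] : M₃) := by
    rw [map_mul, hui, e3, hb', hc']
    ext i j
    fin_cases i <;> fin_cases j <;>
      simp [uMat₃, lMat₃, Matrix.mul_apply, Fin.sum_univ_three, hσr, map_ofNat] <;> grobner
  have e5 : mat₃ σ (v⁻¹ * (u⁻¹ * (v * (v * (u⁻¹ * (v)))))) =
      (!![2 * r, 2 + 2 * r, 2 * r; 2, 1 + r, 3 + 2 * r; 3 + 3 * r, 1 + 4 * r, 2 * r] : M₃) := by
    rw [map_mul, hvi, e4, hb', hc']
    ext i j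
    fin_cases i <;> fin_cases j <;>
      simp [uMat₃, lMat₃, Matrix.mul_apply, Fin.sum_univ_three, hσr, map_ofNat] <;> grobner
  have e6 : mat₃ σ (v⁻¹ * (v⁻¹ * (u⁻¹ * (v * (v * (u⁻¹ * (v))))))) =
      (!![2 * r, 2 + 2 * r, 2 * r; 0, 4, 1 + 2 * r; 0, 0, r] : M₃) := by
    rw [map_mul, hvi, e5, hb', hc']
    ext i j
    fin_cases i <;> fin_cases j <;>
      simp [uMat₃, lMat₃, Matrix.mul_apply, Fin.sum_univ_three, hσr, map_ofNat] <;> grobner
  refine ⟨b, c, hc, hb0, wEl₃ σ, ?_⟩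
  rw [← hvdef]
  set K := Subgroup.closure ({u, v} : Set (suAnti σ))
  have huK : u ∈ K := Subgroup.subset_closure (by simp)
  have hvK : v ∈ K := Subgroup.subset_closure (by simp)
  have huK' : u⁻¹ ∈ K := K.inv_mem huK
  have hvK' : v⁻¹ ∈ K := K.inv_mem hvK
  refine eq_top_of_upper h (by omega) K hc hb0 huK (W := v⁻¹ * (v⁻¹ * (u⁻¹ * (v * (v * (u⁻¹ * (v)))))))
    (by repeat' first | assumption | apply K.mul_mem) (by rw [e6]; rfl) (by rw [e6]; rfl)
    (by rw [e6]; rfl) ?_ ⟨v, hvK, by rw [hv]; simpa [lMat₃] using hc0⟩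
  refine fun R => subring_eq_top_of_pow_ne (fun l k hk hlk => ?_) R
  rw [e6]
  intro e
  have h1 : (2 * r) ^ l = 2 * r := by
    have hX : (4 : F) / r = 2 * r := by rw [div_eq_iff hr0]; linear_combination -2 * hr2
    simpa [hX] using e
  have hl : l = 5 := by
    rw [Nat.card_eq_fintype_card, hcard] at hlk
    have hl5 : l ≤ 5 := by
      by_contra hh
      have h3 := Nat.pow_le_pow_left (show 6 ≤ l by omega) k
      have h4 := Nat.pow_le_pow_right (show 0 < 6 by norm_num) hk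
      omega
    have hk5 : k ≤ 5 ∨ l ≤ 1 := by
      by_contra! hh
      have h3 := Nat.pow_le_pow_left (show 2 ≤ l by omega) k
      have h4 := Nat.pow_le_pow_right (show 0 < 2 by norm_num) (show 6 ≤ k by omega)
      omega
    rcases hk5 with hk5 | hk5
    · interval_cases l <;> interval_cases k <;> omega
    · interval_cases l
      · rw [zero_pow (by omega)] at hlk; omega
      · rw [one_pow] at hlk; omega
  subst hl
  rw [← h.apply_eq, map_mul, hσr, map_ofNat] at h1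
  exact mul_ne_zero (mul_ne_zero h2 h2) hr0 (by linear_combination -h1)

set_option maxHeartbeats 3000000 in
/-- The field with sixty-four elements. -/
theorem exists_pair_eight (hq : q = 8) :
    ∃ (b c : F) (hc : c + σ c + b * σ b = 0), b ≠ 0 ∧ ∃ g : suAnti σ,
      Subgroup.closure {uEl₃ h.conj_conj b c hc, g * uEl₃ h.conj_conj b c hc * g⁻¹} = ⊤ := by
  subst hq
  cases nonempty_fintype F
  have hcard : Fintype.card F = 64 := by rw [← Nat.card_eq_fintype_card, h.card]; norm_num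
  have h2 : (2 : F) = 0 := by
    have h64 : ((64 : ℕ) : F) = 0 := hcard ▸ FiniteField.cast_card_eq_zero F
    have : (2 : F) ^ 6 = 0 := by
      push_cast at h64
      rw [← h64]; norm_num
    exact pow_eq_zero_iff (by norm_num) |>.1 this
  obtain ⟨θ, hθ⟩ := IsCyclic.exists_ofOrder_eq_natCard (α := Fˣ)
  rw [Nat.card_units, Nat.card_eq_fintype_card, hcard] at hθ
  have hroot : ∀ j, 0 < j → j < 63 → ((θ : F) ^ j) - 1 ≠ 0 := fun j h1 h2' e =>
    pow_ne_one_of_lt_orderOf (by omega) (by rw [hθ]; omega)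
      (Units.ext (by rw [Units.val_pow_eq_pow_val]; simpa [sub_eq_zero] using e) : θ ^ j = 1)
  have h63 : (θ : F) ^ 63 = 1 := by
    rw [← Units.val_pow_eq_pow_val, show (63 : ℕ) = orderOf θ by omega, pow_orderOf_eq_one,
      Units.val_one]
  obtain ⟨a, ha⟩ : ∃ a : F, a ^ 3 = a + 1 := by
    have key : ((θ : F) ^ 9 - 1) * ((((θ : F) ^ 9) ^ 3 + (θ : F) ^ 9 + 1) *
        (((θ : F) ^ 9) ^ 3 + ((θ : F) ^ 9) ^ 2 + 1)) = 0 := by
      linear_combination h63 + ((θ : F) ^ 36 - (θ : F) ^ 27) * h2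
    rcases mul_eq_zero.1 key with hk | hk
    · exact absurd hk (hroot 9 (by norm_num) (by norm_num))
    rcases mul_eq_zero.1 hk with hk | hk
    · exact ⟨(θ : F) ^ 9, by linear_combination hk - ((θ : F) ^ 9 + 1) * h2⟩
    · refine ⟨((θ : F) ^ 9)⁻¹, ?_⟩
      have ht0 : (θ : F) ^ 9 ≠ 0 := pow_ne_zero _ θ.ne_zero
      field_simp
      linear_combination -hk + h2
  obtain ⟨w, hw⟩ : ∃ w : F, w ^ 2 = w + 1 := by
    refine ⟨(θ : F) ^ 21, ?_⟩
    have key : ((θ : F) ^ 21 - 1) * (((θ : F) ^ 21) ^ 2 + (θ : F) ^ 21 + 1) = 0 := by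
      linear_combination h63
    rcases mul_eq_zero.1 key with hk | hk
    · exact absurd hk (hroot 21 (by norm_num) (by norm_num))
    · linear_combination hk - ((θ : F) ^ 21 + 1) * h2
  have hσa : σ a = a := by
    rw [h.apply_eq]
    linear_combination (a ^ 5 + a ^ 3 + a ^ 2 + a + 2) * ha + (a ^ 2 + a + 1) * h2
  have hσw : σ w = w + 1 := by
    rw [h.apply_eq]
    linear_combination (w ^ 6 + w ^ 5 + 2 * w ^ 4 + 3 * w ^ 3 + 5 * w ^ 2 + 8 * w + 13) * hw +
      (10 * w + 6) * h2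
  have ha0 : a ≠ 0 := fun e => one_ne_zero (by rw [e] at ha; simpa using ha.symm : (1 : F) = 0)
  have ha1 : a ≠ 1 := fun e => one_ne_zero (by rw [e] at ha; linear_combination -ha : (1 : F) = 0)
  obtain ⟨b, hb'⟩ : ∃ b : F, b = a := ⟨a, rfl⟩
  set c : F := 1 + a ^ 2 * w with hc'
  have hb0 : b ≠ 0 := hb' ▸ ha0
  have hc0 : c ≠ 0 := by
    intro e
    have e' := congrArg σ e
    simp [hc', hσa, hσw] at e'
    exact ha0 (pow_eq_zero_iff two_ne_zero |>.1 (by linear_combination e' - e : a ^ 2 = 0))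
  have hc : c + σ c + b * σ b = 0 := by
    simp [hb', hc', hσa, hσw]
    linear_combination (1 + a ^ 2 + a ^ 2 * w) * h2
  set u := uEl₃ h.conj_conj b c hc with hudef
  set v := wEl₃ σ * u * (wEl₃ σ)⁻¹ with hvdef
  have hu : mat₃ σ u = uMat₃ σ b c := rfl
  have hv : mat₃ σ v = lMat₃ σ (-b) c := mat₃_wConj h.conj_conj hc
  have hui : mat₃ σ u⁻¹ = uMat₃ σ (-b) (σ c) := mat₃_uEl_inv h.conj_conj hc
  have hvi : mat₃ σ v⁻¹ = lMat₃ σ b (σ c) := mat₃_wConj_inv h.conj_conj hc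
  have e0 : mat₃ σ v = lMat₃ σ (-b) c := hv
  have e1 : mat₃ σ (u⁻¹ * (v)) =
      (!![a ^ 2 + a, a + 1 + a * w + w, a ^ 2 + 1 + a ^ 2 * w; a * w + w, a ^ 2 + 1, a; 1 + a ^ 2 * w, a, 1] : M₃) := by
    rw [map_mul, hui, e0, hb', hc']
    ext i j
    fin_cases i <;> fin_cases j <;>
      simp [uMat₃, lMat₃, Matrix.mul_apply, Fin.sum_univ_three, hσa, hσw] <;> grobner
  have e2 : mat₃ σ (v * (u⁻¹ * (v))) =
      (!![a ^ 2 + a, a + 1 + a * w + w, a ^ 2 + 1 + a ^ 2 * w; a ^ 2 + a + 1 + a * w + w, a + 1 + a ^ 2 * w + a * w, a + 1 + a * w + w; a ^ 2 + a + 1 + a ^ 2 * w + a * w + w, a ^ 2 + a + 1 + a * w + w, a ^ 2 + a] : M₃) := by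
    rw [map_mul, hv, e1, hb', hc']
    ext i j
    fin_cases i <;> fin_cases j <;>
      simp [uMat₃, lMat₃, Matrix.mul_apply, Fin.sum_univ_three, hσa, hσw] <;> grobner
  have e3 : mat₃ σ (u * (v * (u⁻¹ * (v)))) =
      (!![a ^ 2 + 1 + w, a ^ 2 + 1 + w, a ^ 2 + 1 + a ^ 2 * w + a * w + w; a + a ^ 2 * w + a * w, a ^ 2 + a, a ^ 2 + a * w + w; a ^ 2 + a + 1 + a ^ 2 * w + a * w + w, a ^ 2 + a + 1 + a * w + w, a ^ 2 + a] : M₃) := by
    rw [map_mul, hu, e2, hb', hc']
    ext i j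
    fin_cases i <;> fin_cases j <;>
      simp [uMat₃, lMat₃, Matrix.mul_apply, Fin.sum_univ_three, hσa, hσw] <;> grobner
  have e4 : mat₃ σ (v⁻¹ * (u * (v * (u⁻¹ * (v))))) =
      (!![a ^ 2 + 1 + w, a ^ 2 + 1 + w, a ^ 2 + 1 + a ^ 2 * w + a * w + w; a + 1 + a ^ 2 * w, a ^ 2 + a + 1 + a * w, a ^ 2 + 1 + a ^ 2 * w + a * w; a * w + w, a + 1, a + 1 + a * w + w] : M₃) := by
    rw [map_mul, hvi, e3, hb', hc']
    ext i j
    fin_cases i <;> fin_cases j <;>
      simp [uMat₃, lMat₃, Matrix.mul_apply, Fin.sum_univ_three, hσa, hσw] <;> grobner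
  have e5 : mat₃ σ (u⁻¹ * (v⁻¹ * (u * (v * (u⁻¹ * (v)))))) =
      (!![a ^ 2 + w, a ^ 2 + a * w, a ^ 2 + a + 1 + a ^ 2 * w; a + 1 + a * w, 1 + a * w, a + 1; a * w + w, a + 1, a + 1 + a * w + w] : M₃) := by
    rw [map_mul, hui, e4, hb', hc']
    ext i j
    fin_cases i <;> fin_cases j <;>
      simp [uMat₃, lMat₃, Matrix.mul_apply, Fin.sum_univ_three, hσa, hσw] <;> grobner
  have e6 : mat₃ σ (v⁻¹ * (u⁻¹ * (v⁻¹ * (u * (v * (u⁻¹ * (v))))))) =
      (!![a ^ 2 + w, a ^ 2 + a * w, a ^ 2 + a + 1 + a ^ 2 * w; 0, a + a ^ 2 * w + a * w, a ^ 2 + a + a * w + w; 0, 0, a ^ 2 + 1 + a ^ 2 * w + a * w] : M₃) := by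
    rw [map_mul, hvi, e5, hb', hc']
    ext i j
    fin_cases i <;> fin_cases j <;>
      simp [uMat₃, lMat₃, Matrix.mul_apply, Fin.sum_univ_three, hσa, hσw] <;> grobner
  refine ⟨b, c, hc, hb0, wEl₃ σ, ?_⟩
  rw [← hvdef]
  set K := Subgroup.closure ({u, v} : Set (suAnti σ))
  have huK : u ∈ K := Subgroup.subset_closure (by simp)
  have hvK : v ∈ K := Subgroup.subset_closure (by simp)
  have huK' : u⁻¹ ∈ K := K.inv_mem huK
  have hvK' : v⁻¹ ∈ K := K.inv_mem hvK
  refine eq_top_of_upper h (by omega) K hc hb0 huK (W := v⁻¹ * (u⁻¹ * (v⁻¹ * (u * (v * (u⁻¹ * (v)))))))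
    (by repeat' first | assumption | apply K.mul_mem) (by rw [e6]; rfl) (by rw [e6]; rfl)
    (by rw [e6]; rfl) ?_ ⟨v, hvK, by rw [hv]; simpa [lMat₃] using hc0⟩
  refine fun R => subring_eq_top_of_pow_ne (fun l k hk hlk => ?_) R
  rw [e6]
  intro e
  set X := a + a ^ 2 * w + a * w with hX
  set Y := a ^ 2 + 1 + a ^ 2 * w + a * w with hY
  set χ := a ^ 2 + a + 1 + a ^ 2 * w + a * w + w with hχ
  have hmul : χ * Y = X := by rw [hχ, hX, hY]; grobner
  have h2χ : χ ^ 2 = a * w + w := by rw [hχ]; grobner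
  have h3χ : χ ^ 3 = a := by rw [hχ]; grobner
  have hY0 : Y ≠ 0 := by
    intro e0
    have e1 := congrArg σ e0
    simp [hY, hσa, hσw] at e1
    have : a * (a + 1) = 0 := by linear_combination e1 - e0
    rcases mul_eq_zero.1 this with e2 | e2
    · exact ha0 e2
    · exact ha1 (by linear_combination e2 - h2)
  have h1 : χ ^ l = χ := by
    have hd : X / Y = χ := by rw [← hmul, mul_div_cancel_right₀ _ hY0]
    simpa [hd] using e
  rw [Nat.card_eq_fintype_card, hcard] at hlk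
  have hl8 : l ≤ 8 := by
    by_contra hh
    have h3 := Nat.pow_le_pow_left (show 9 ≤ l by omega) k
    have h4 := Nat.pow_le_pow_right (show 0 < 9 by norm_num) hk
    omega
  have hk7 : k ≤ 6 ∨ l ≤ 1 := by
    by_contra! hh
    have h3 := Nat.pow_le_pow_left (show 2 ≤ l by omega) k
    have h4 := Nat.pow_le_pow_right (show 0 < 2 by norm_num) (show 7 ≤ k by omega)
    omega
  have hχ0 : χ ≠ 0 := fun e0 => ha0 (by rw [← h3χ, e0]; simp)
  have hl : l = 2 ∨ l = 4 ∨ l = 8 := by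
    rcases hk7 with hk7 | hk7
    · interval_cases l <;> interval_cases k <;> omega
    · interval_cases l
      · rw [zero_pow (by omega)] at hlk; omega
      · rw [one_pow] at hlk; omega
  rcases hl with rfl | rfl | rfl
  · have : χ = 1 := mul_left_cancel₀ hχ0 (by linear_combination h1)
    exact ha1 (by rw [← h3χ, this, one_pow])
  · have : χ ^ 3 = 1 := mul_left_cancel₀ hχ0 (by linear_combination h1)
    exact ha1 (by rw [← h3χ, this])
  · have e1 : σ (χ ^ 2) = χ ^ 2 := by rw [map_pow, h.apply_eq, h1]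
    rw [h2χ] at e1
    simp [hσa, hσw] at e1
    exact ha1 (by linear_combination e1 - h2)

end CfsgLib.RegularGenForms
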