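import Cfsg.Agent.Lib.ClassicalLinear.SympBasic

/-!
Algebra of root elements in a symplectic group: a subgroup containing four transvections with a
common scalar contains a full transvection group; spreading of transvection centres.
-/

set_option autoImplicit false

open Matrix

namespace CfsgLib.RegularGenForms

open CfsgLib.ClassicalLinear

universe u

variable {F : Type u} [Field F] {m : ℕ}

local notation "V" => (Fin m ⊕ Fin m → F)
local notation "Sp" => Matrix.symplecticGroup (Fin m) F
local notation "ω" => Cfsg.sympForm m F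

/-- The element `v ↦ v + (ω(v,y) + τ ω(v,r)) r + ω(v,r) y`, for `ω(y,r) = 0`. -/
noncomputable def rootEl (r y : V) (τ : F) : Sp :=
  spT (y + r) 1 * spT y (-1) * spT r (τ - 1)

theorem rootEl_smul {r y : V} (hy : ω y r = 0) (τ : F) (v : V) :
    rootEl r y τ • v = v + (ω v y + τ * ω v r) • r + ω v r • y := by
  have hy' : ω r y = 0 := by rw [sympForm_skew, hy, neg_zero]
  rw [rootEl, mul_smul, mul_smul, spT_smul, spT_smul, spT_smul]
  simp only [sympForm_add_left, sympForm_add_right, sympForm_smul_left, sympForm_self, hy, hy']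
  module

theorem rootEl_zero (r : V) (τ : F) : rootEl r 0 τ = spT r τ := by
  have h : ω (0 : V) r = 0 := by simpa using sympForm_smul_left (0 : F) (0 : V) r
  refine sp_ext fun v => ?_
  have hv : ω v (0 : V) = 0 := by simpa using sympForm_smul_right (0 : F) v (0 : V)
  rw [rootEl_smul h, spT_smul, hv]
  module

theorem rootEl_mul {r y y' : V} (hy : ω y r = 0) (hy' : ω y' r = 0) (τ τ' : F) :
    rootEl r y τ * rootEl r y' τ' = rootEl r (y + y') (τ + τ' + ω y' y) := by
  have h : ω (y + y') r = 0 := by rw [sympForm_add_left, hy, hy', add_zero]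
  have hry : ω r y = 0 := by rw [sympForm_skew, hy, neg_zero]
  refine sp_ext fun v => ?_
  rw [mul_smul, rootEl_smul hy, rootEl_smul hy', rootEl_smul h]
  simp only [sympForm_add_left, sympForm_add_right, sympForm_smul_left, sympForm_self, hry, hy']
  module

theorem conj_rootEl {r : V} (y : V) (τ : F) {g : Sp} (hg : g • r = r) :
    g * rootEl r y τ * g⁻¹ = rootEl r (g • y) τ := by
  have hconj : ∀ a b : Sp, g * (a * b) * g⁻¹ = (g * a * g⁻¹) * (g * b * g⁻¹) := fun a b => by group
  rw [rootEl, hconj, hconj, conj_spT, conj_spT, conj_spT, smul_add, hg, rootEl]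

theorem rootEl_shift {r y : V} (hy : ω y r = 0) (μ τ : F) :
    rootEl r (y + μ • r) τ = rootEl r y (τ + 2 * μ) := by
  have h : ω (y + μ • r) r = 0 := by
    rw [sympForm_add_left, sympForm_smul_left, hy, sympForm_self, mul_zero, add_zero]
  refine sp_ext fun v => ?_
  rw [rootEl_smul h, rootEl_smul hy, sympForm_add_right, sympForm_smul_right]
  module

theorem spT_shift_div {r z : V} (hz : ω z r = 0) (a β : F) :
    spT (z + β • r) a * (spT z a)⁻¹ = rootEl r ((a * β) • z) (a * β ^ 2) := by
  have h : ω ((a * β) • z) r = 0 := by rw [sympForm_smul_left, hz, mul_zero]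
  have hz' : ω r z = 0 := by rw [sympForm_skew, hz, neg_zero]
  refine mul_inv_eq_iff_eq_mul.2 (sp_ext fun v => ?_)
  rw [mul_smul, spT_smul, spT_smul, rootEl_smul h]
  simp only [sympForm_add_left, sympForm_add_right, sympForm_smul_left, sympForm_smul_right,
    sympForm_self, hz]
  module

section seeds

variable [Finite F] {K : Subgroup (Matrix.symplecticGroup (Fin m) F)}
  {r p q : Fin m ⊕ Fin m → F} {a : F}

set_option maxHeartbeats 800000 in
/-- From four transvections with scalar `a` to the whole transvection group at `r`. -/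
theorem spT_mem_of_seeds (hrp : ω r p = 0) (hrq : ω r q = 0) (hqp : ω q p = 1)
    (h1 : spT p a ∈ K) (h2 : spT (p + r) a ∈ K) (h3 : spT (p - q) a ∈ K) (h4 : spT (q - r) a ∈ K)
    (hgen : ∀ L : AddSubgroup F, a ∈ L → (∀ x ∈ L, a * x ∈ L) → L = ⊤)
    (hchar : (2 : F) ≠ 0 ∨ a ^ 2 + a ≠ 0) :
    (∀ τ, spT r τ ∈ K) ∧ ∀ l : F, ∃ τ, rootEl r (l • p) τ ∈ K := by
  have hpr : ω p r = 0 := by rw [sympForm_skew, hrp, neg_zero]
  have hqr : ω q r = 0 := by rw [sympForm_skew, hrq, neg_zero]
  have hpq : ω p q = -1 := by rw [sympForm_skew, hqp]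
  have hrx : ω r (p - q) = 0 := by rw [sympForm_sub_right, hrp, hrq, sub_zero]
  have hxr : ω (p - q) r = 0 := by rw [sympForm_skew, hrx, neg_zero]
  have hpx : ω p (p - q) = 1 := by
    rw [sympForm_sub_right, sympForm_self, hpq, sub_neg_eq_add, zero_add]
  let Y : V → Prop := fun y => ω y r = 0 ∧ ∃ τ, rootEl r y τ ∈ K
  have hYadd : ∀ y y', Y y → Y y' → Y (y + y') := by
    rintro y y' ⟨hy, τ, hm⟩ ⟨hy', τ', hm'⟩
    refine ⟨by rw [sympForm_add_left, hy, hy', add_zero], τ + τ' + ω y' y, ?_⟩
    rw [← rootEl_mul hy hy']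
    exact K.mul_mem hm hm'
  have hYneg : ∀ y, Y y → Y (-y) := by
    rintro y ⟨hy, τ, hm⟩
    have hy' : ω (-y) r = 0 := by
      rw [← neg_one_smul F y, sympForm_smul_left, hy, mul_zero]
    refine ⟨hy', -τ, ?_⟩
    have : rootEl r (-y) (-τ) = (rootEl r y τ)⁻¹ := by
      refine eq_inv_of_mul_eq_one_left ?_
      rw [rootEl_mul hy' hy]
      have hyy : ω y (-y) = 0 := by
        rw [← neg_one_smul F y, sympForm_smul_right, sympForm_self, mul_zero]
      rw [hyy, neg_add_cancel, neg_add_cancel, add_zero, rootEl_zero, spT_zero]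
    rw [this]
    exact K.inv_mem hm
  have hYtv : ∀ y z, Y y → spT z a ∈ K → ω r z = 0 → Y ((a * ω y z) • z) := by
    rintro y z ⟨hy, τ, hm⟩ hz hrz
    have hfix : spT z a • r = r := by rw [spT_smul, hrz, mul_zero, zero_smul, add_zero]
    have hm' : rootEl r (spT z a • y) τ ∈ K := by
      rw [← conj_rootEl y τ hfix]
      exact K.mul_mem (K.mul_mem hz hm) (K.inv_mem hz)
    have hzy : ω (spT z a • y) r = 0 := by
      have := sympForm_smul (spT z a) y r
      rw [hfix] at this
      rw [this, hy]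
    have := hYadd _ _ ⟨hzy, τ, hm'⟩ (hYneg y ⟨hy, τ, hm⟩)
    simpa [spT_smul] using this
  have hYshift : ∀ (y : V) (μ : F), ω y r = 0 → Y (y + μ • r) → Y y := by
    rintro y μ hy ⟨-, τ, hm⟩
    exact ⟨hy, τ + 2 * μ, by rwa [← rootEl_shift hy]⟩
  have hdiv : ∀ (z : V) (β : F), ω z r = 0 → spT z a ∈ K → spT (z + β • r) a ∈ K →
      rootEl r ((a * β) • z) (a * β ^ 2) ∈ K := by
    intro z β hz hz1 hz2
    rw [← spT_shift_div hz]
    exact K.mul_mem hz2 (K.inv_mem hz1)
  have htr : ∀ (y : V) (τ : F) (z : V), ω y r = 0 → rootEl r y τ ∈ K → spT z a ∈ K → ω z r = 0 →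
      spT (z + ω z y • r) a ∈ K := by
    intro y τ z hy hm hz hzr
    have : spT (z + ω z y • r) a = rootEl r y τ * spT z a * (rootEl r y τ)⁻¹ := by
      rw [conj_spT, rootEl_smul hy, hzr]
      congr 1
      module
    rw [this]
    exact K.mul_mem (K.mul_mem hm hz) (K.inv_mem hm)
  let L : AddSubgroup F :=
    { carrier := {l | Y (l • p)}
      add_mem' := fun {l l'} h h' => by
        simp only [Set.mem_ofPred_eq, add_smul] at *
        exact hYadd _ _ h h'
      zero_mem' := by
        refine ⟨by rw [sympForm_smul_left, zero_mul], 0, ?_⟩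
        rw [zero_smul, rootEl_zero, spT_zero]
        exact K.one_mem
      neg_mem' := fun {l} h => by
        simp only [Set.mem_ofPred_eq, neg_smul] at *
        exact hYneg _ h }
  have hqsub : ω (q - r) r = 0 := by
    rw [sub_eq_add_neg, ← neg_one_smul F r, sympForm_add_left, sympForm_smul_left, hqr,
      sympForm_self, mul_zero, add_zero]
  have hshiftq : ∀ l : F, l ∈ L → rootEl r ((a * l) • q) (a * l ^ 2 - 2 * (a * l)) ∈ K := by
    rintro l ⟨hy, τ, hm⟩
    have h5 : spT ((q - r) + l • r) a ∈ K := by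
      have := htr _ τ (q - r) hy hm h4 hqsub
      have e : ω (q - r) (l • p) = l := by
        rw [sympForm_smul_right, sub_eq_add_neg, ← neg_one_smul F r, sympForm_add_left,
          sympForm_smul_left, hqp, hrp, mul_zero, add_zero, mul_one]
      rwa [e] at this
    have := hdiv _ l hqsub h4 h5
    have e : (a * l) • (q - r) = (a * l) • q + (-(a * l)) • r := by module
    rw [e, rootEl_shift (by rw [sympForm_smul_left, hqr, mul_zero])] at this
    convert this using 2
    ring
  have hL : L = ⊤ := by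
    refine hgen L ?_ fun l hl => ?_
    · have := hdiv p 1 hpr h1 (by rwa [one_smul])
      rw [mul_one] at this
      exact ⟨by rw [sympForm_smul_left, hpr, mul_zero], _, this⟩
    · have hx : Y ((a * l) • (p - q)) := by
        have := hYtv _ (p - q) hl h3 hrx
        rwa [sympForm_smul_left, hpx, mul_one] at this
      have hq : Y ((a * l) • q) := ⟨by rw [sympForm_smul_left, hqr, mul_zero], _, hshiftq l hl⟩
      have := hYadd _ _ hx hq
      rw [← smul_add, sub_add_cancel] at this
      exact this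
  have hall : ∀ l : F, l ∈ L := fun l => hL ▸ AddSubgroup.mem_top l
  refine ⟨fun τ => ?_, fun l => (hall l).2⟩
  have hp0 : ∀ l : F, ω (l • p) r = 0 := fun l => by rw [sympForm_smul_left, hpr, mul_zero]
  have hq0 : ∀ l : F, ω (l • q) r = 0 := fun l => by rw [sympForm_smul_left, hqr, mul_zero]
  by_cases h2 : (2 : F) = 0
  · have ha : a ^ 2 + a ≠ 0 := hchar.resolve_left (not_not.2 h2)
    have : CharP F 2 := CharTwo.of_one_ne_zero_of_two_eq_zero one_ne_zero h2
    cases nonempty_fintype F
    obtain ⟨l, hl⟩ := FiniteField.isSquare_of_char_two (F := F) (ringChar.eq F 2) (τ / (a ^ 2 + a))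
    rw [← sq, div_eq_iff ha] at hl
    have hq' : ∀ μ : F, ∃ σ, rootEl r (μ • q) σ ∈ K := by
      intro μ
      have ha0 : a ≠ 0 := fun h => ha (by simp [h])
      exact ⟨_, by simpa [mul_div_cancel₀ μ ha0] using hshiftq (μ / a) (hall _)⟩
    have hA : rootEl r ((a * l) • p) (a * l ^ 2) ∈ K := by
      obtain ⟨σ, hσ⟩ := hq' (-l)
      refine hdiv p l hpr h1 ?_
      have := htr _ σ p (hq0 _) hσ h1 hpr
      rwa [sympForm_smul_right, hpq, neg_mul_neg, mul_one] at this
    have hB : rootEl r ((a * l) • q) (a * l ^ 2) ∈ K := by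
      have := hshiftq l (hall l)
      rwa [h2, zero_mul, sub_zero] at this
    have hC : rootEl r ((a * l) • (p - q)) (a * l ^ 2) ∈ K := by
      obtain ⟨-, σ, hσ⟩ := hall (-l)
      refine hdiv (p - q) l hxr h3 ?_
      have := htr _ σ (p - q) (hp0 _) hσ h3 hxr
      have e : ω (p - q) (-l • p) = l := by
        rw [sympForm_smul_right, sympForm_skew, hpx]; ring
      rwa [e] at this
    have hneg : ∀ x : F, -x = x := fun x => by linear_combination (-x) * h2
    have hmn : ∀ v : V, -v = v := fun v => by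
      funext i; exact hneg _
    have key : rootEl r ((a * l) • p) (a * l ^ 2) * rootEl r ((a * l) • q) (a * l ^ 2) *
        rootEl r ((a * l) • (p - q)) (a * l ^ 2) = spT r τ := by
      rw [rootEl_mul (hp0 _) (hq0 _)]
      have e1 : (a * l) • p + (a * l) • q = (a * l) • (p - q) := by
        rw [sub_eq_add_neg, hmn, smul_add]
      have hz : ω ((a * l) • (p - q)) r = 0 := by rw [sympForm_smul_left, hxr, mul_zero]
      rw [e1, rootEl_mul hz hz, sympForm_self, sympForm_smul_left, sympForm_smul_right, hqp,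
        ← rootEl_zero]
      congr 1
      · conv_lhs => arg 2; rw [← hmn (_ • _)]
        rw [add_neg_cancel]
      · rw [hl]
        linear_combination (a * l ^ 2) * h2
    rw [← key]
    exact K.mul_mem (K.mul_mem hA hB) hC
  · obtain ⟨-, σ, hσ⟩ := hall (τ / 2)
    have hq1 : ∃ σ', rootEl r ((1 : F) • q) σ' ∈ K := by
      rcases eq_or_ne a 0 with ha0 | ha0
      · exfalso
        have hbot : (⊥ : AddSubgroup F) = ⊤ :=
          hgen ⊥ (by simp [ha0]) (fun x hx => by simp [ha0])
        have : (1 : F) ∈ (⊥ : AddSubgroup F) := hbot ▸ AddSubgroup.mem_top _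
        exact one_ne_zero (AddSubgroup.mem_bot.1 this)
      · have h := hshiftq (1 / a) (hall _)
        rw [mul_one_div, div_self ha0] at h
        exact ⟨_, h⟩
    obtain ⟨σ', hσ'⟩ := hq1
    have e : spT r τ = rootEl r ((τ / 2) • p) σ * rootEl r ((1 : F) • q) σ' *
        (rootEl r ((1 : F) • q) σ' * rootEl r ((τ / 2) • p) σ)⁻¹ := by
      rw [rootEl_mul (hp0 _) (hq0 _), rootEl_mul (hq0 _) (hp0 _)]
      refine (mul_inv_eq_iff_eq_mul.2 ?_).symm
      have hz : ω ((1 : F) • q + (τ / 2) • p) r = 0 := by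
        rw [sympForm_add_left, hq0, hp0, add_zero]
      have hzz : ω (0 : V) r = 0 := by simpa using sympForm_smul_left (0 : F) (0 : V) r
      rw [← rootEl_zero r τ, rootEl_mul hzz hz]
      have hz0 : ω ((1 : F) • q + (τ / 2) • p) (0 : V) = 0 := by
        simpa using sympForm_smul_right (0 : F) ((1 : F) • q + (τ / 2) • p) (0 : V)
      rw [hz0, zero_add, add_comm ((τ / 2) • p)]
      simp only [sympForm_smul_left, sympForm_smul_right, hqp, hpq]
      congr 1
      field_simp
      ring
    rw [e]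
    exact K.mul_mem (K.mul_mem hσ hσ') (K.inv_mem (K.mul_mem hσ' hσ))

end seeds

/-- Centres all whose transvections lie in `K`. -/
def centres (K : Subgroup Sp) : Set V := {z | ∀ c : F, spT z c ∈ K}

section centres

variable {K : Subgroup (Matrix.symplecticGroup (Fin m) F)}

theorem smul_vec_mem_centres {z : V} (hz : z ∈ centres K) (l : F) : l • z ∈ centres K := fun c => by
  rw [spT_smul_vec]; exact hz _

theorem act_mem_centres {z : V} (hz : z ∈ centres K) {g : Sp} (hg : g ∈ K) :
    g • z ∈ centres K := fun c => by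
  rw [← conj_spT]
  exact K.mul_mem (K.mul_mem hg (hz c)) (K.inv_mem hg)

theorem combo_mem_centres {x y : V} (hx : x ∈ centres K) (hy : y ∈ centres K) (h : ω x y ≠ 0)
    (l μ : F) : l • x + μ • y ∈ centres K := by
  rcases eq_or_ne μ 0 with rfl | hμ
  · rw [zero_smul, add_zero]; exact smul_vec_mem_centres hx l
  have h' : ω y x ≠ 0 := by rwa [sympForm_skew, neg_ne_zero]
  have : l • x + μ • y = μ • (spT x (l / μ / ω y x) • y) := by
    rw [spT_smul, div_mul_cancel₀ _ h', smul_add, smul_smul, mul_div_cancel₀ _ hμ, add_comm]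
  rw [this]
  exact smul_vec_mem_centres (act_mem_centres hy (hx _)) μ

theorem add_mem_centres {x y : V} (hx : x ∈ centres K) (hy : y ∈ centres K) (h : ω x y ≠ 0) :
    x + y ∈ centres K := by
  simpa using combo_mem_centres hx hy h 1 1

theorem translate_mem_centres {W : Submodule F V} (hW : ∀ w ∈ W, w ∈ centres K)
    (hnd : ∀ w ∈ W, w ≠ 0 → ∃ a ∈ W, ω w a ≠ 0) {w p w' : V} (hw : w ∈ W) (hw0 : w ≠ 0)
    (hp : ∀ x ∈ W, ω p x = 0) (hz : w + p ∈ centres K) (hw' : w' ∈ W) (hw'0 : w' ≠ 0) :
    w' + p ∈ centres K := by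
  have step : ∀ x y : V, x ∈ W → y ∈ W → ω x y ≠ 0 → x + p ∈ centres K → y + p ∈ centres K := by
    intro x y hx hy hxy hxp
    have : y + p = spT (y - x) ((ω x y)⁻¹) • (x + p) := by
      rw [spT_smul, sympForm_add_left, hp _ (W.sub_mem hy hx), sympForm_sub_right, sympForm_self,
        sub_zero, add_zero, inv_mul_cancel₀ hxy, one_smul]
      abel
    rw [this]
    exact act_mem_centres hxp (hW _ (W.sub_mem hy hx) _)
  obtain ⟨a, ha, hwa⟩ := hnd w hw hw0
  obtain ⟨b, hb, hwb⟩ := hnd w' hw' hw'0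
  by_cases hab : ω w' a = 0
  · by_cases hba : ω w b = 0
    · refine step _ _ (W.add_mem ha hb) hw' ?_ (step _ _ hw (W.add_mem ha hb) ?_ hz)
      · rw [sympForm_skew, sympForm_add_right, hab, zero_add, neg_ne_zero]; exact hwb
      · rw [sympForm_add_right, hba, add_zero]; exact hwa
    · exact step b _ hb hw' (by rwa [sympForm_skew, neg_ne_zero]) (step w b hw hb hba hz)
  · exact step a _ ha hw' (by rwa [sympForm_skew, neg_ne_zero]) (step w a hw ha hwa hz)

/-- Two translated centres give the two translations. -/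
theorem pair_mem_centres {W : Submodule F V} {p p' w₀ w₁ : V}
    (hp : ∀ x ∈ W, ω p x = 0) (hp' : ∀ x ∈ W, ω p' x = 0)
    (hT : ∀ x ∈ W, x ≠ 0 → x + p ∈ centres K) (hT' : ∀ x ∈ W, x ≠ 0 → x + p' ∈ centres K)
    (hpp : ω p p' ≠ 0) (h0 : w₀ ∈ W) (h0' : w₀ ≠ 0) (h1 : w₁ ∈ W) (h1' : w₁ ≠ 0)
    (h10 : w₁ ≠ w₀) (hne : ω w₁ w₀ ≠ ω p p') : p ∈ centres K ∧ p' ∈ centres K := by
  have hT1 : ∀ x ∈ W, x ≠ 0 → x - p ∈ centres K := fun x hx hx0 => by
    have := smul_vec_mem_centres (hT (-x) (W.neg_mem hx) (neg_ne_zero.2 hx0)) (-1)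
    simpa [sub_eq_add_neg, add_comm] using this
  have hT2 : ∀ x ∈ W, x ≠ 0 → x - p' ∈ centres K := fun x hx hx0 => by
    have := smul_vec_mem_centres (hT' (-x) (W.neg_mem hx) (neg_ne_zero.2 hx0)) (-1)
    simpa [sub_eq_add_neg, add_comm] using this
  have hs : ∀ x ∈ W, ω x p = 0 := fun x hx => by rw [sympForm_skew, hp x hx, neg_zero]
  have hs' : ∀ x ∈ W, ω x p' = 0 := fun x hx => by rw [sympForm_skew, hp' x hx, neg_zero]
  have hmid : w₀ + p - p' ∈ centres K := by
    have h := add_mem_centres (hT w₁ h1 h1')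
      (hT2 (w₀ - w₁) (W.sub_mem h0 h1) (sub_ne_zero.2 h10.symm)) ?_
    · convert h using 1; abel
    · have e1 : ω (w₁ + p) (w₀ - w₁ - p') = ω w₁ w₀ - ω p p' := by
        rw [sympForm_add_left]
        simp only [sympForm_sub_right, sympForm_self, hp _ h0, hp _ h1, hs' _ h1]
        ring
      rw [e1, sub_ne_zero]; exact hne
  constructor
  · have h := add_mem_centres hmid (hT' (-w₀) (W.neg_mem h0) (neg_ne_zero.2 h0')) ?_
    · convert h using 1; abel
    · have e1 : ω (w₀ + p - p') (-w₀ + p') = ω p p' := by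
        rw [sub_eq_add_neg, ← neg_one_smul F p', ← neg_one_smul F w₀]
        simp only [sympForm_add_left, sympForm_add_right, sympForm_smul_left, sympForm_smul_right,
          sympForm_self, hp _ h0, hp' _ h0, hs' _ h0]
        ring
      rw [e1]; exact hpp
  · have h := add_mem_centres hmid (hT1 (-w₀) (W.neg_mem h0) (neg_ne_zero.2 h0')) ?_
    · have h2 := smul_vec_mem_centres h (-1)
      convert h2 using 1
      module
    · have e1 : ω (w₀ + p - p') (-w₀ - p) = ω p' p := by
        rw [sub_eq_add_neg, sub_eq_add_neg, ← neg_one_smul F p', ← neg_one_smul F w₀,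
          ← neg_one_smul F p]
        simp only [sympForm_add_left, sympForm_add_right, sympForm_smul_left, sympForm_smul_right,
          sympForm_self, hp _ h0, hp' _ h0, hs _ h0]
        ring
      rw [e1, sympForm_skew, neg_ne_zero]; exact hpp

/-- From the translations to the whole sum. -/
theorem sum_mem_centres {W : Submodule F V} {p p' : V} (hW : ∀ w ∈ W, w ∈ centres K)
    (hp' : ∀ x ∈ W, ω p' x = 0)
    (hT : ∀ x ∈ W, x ≠ 0 → x + p ∈ centres K) (hT' : ∀ x ∈ W, x ≠ 0 → x + p' ∈ centres K)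
    (hpp : ω p p' ≠ 0) (hpc : p ∈ centres K) (hpc' : p' ∈ centres K) {w : V} (hw : w ∈ W)
    (l μ : F) : w + l • p + μ • p' ∈ centres K := by
  rcases eq_or_ne w 0 with rfl | hw0
  · rw [zero_add]; exact combo_mem_centres hpc hpc' hpp l μ
  have sc : ∀ (z : V) (c : F), c ≠ 0 → (∀ x ∈ W, x ≠ 0 → x + z ∈ centres K) →
      w + c • z ∈ centres K := by
    intro z c hc hz
    have := smul_vec_mem_centres (hz (c⁻¹ • w) (W.smul_mem _ hw)
      (smul_ne_zero (inv_ne_zero hc) hw0)) c
    rwa [smul_add, smul_inv_smul₀ hc] at this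
  rcases eq_or_ne l 0 with rfl | hl
  · rw [zero_smul, add_zero]
    rcases eq_or_ne μ 0 with rfl | hμ
    · rw [zero_smul, add_zero]; exact hW w hw
    · exact sc p' μ hμ hT'
  have h1 := sc p l hl hT
  rcases eq_or_ne μ 0 with rfl | hμ
  · rwa [zero_smul, add_zero]
  refine add_mem_centres h1 (smul_vec_mem_centres hpc' μ) ?_
  rw [sympForm_add_left, sympForm_smul_right, sympForm_smul_right, sympForm_smul_left]
  have : ω w p' = 0 := by rw [sympForm_skew, hp' w hw, neg_zero]
  rw [this, mul_zero, zero_add]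
  exact mul_ne_zero hμ (mul_ne_zero hl hpp)

end centres

end CfsgLib.RegularGenForms
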