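import Cfsg.Agent.Lib.RegularGenForms.SpStd
import Cfsg.Agent.Lib.RegularGenForms.Chain

/-!
The symplectic group is generated by three conjugate regular unipotent elements.
-/

set_option autoImplicit false

open Matrix

namespace CfsgLib.RegularGenForms

open CfsgLib.ClassicalLinear CfsgLib.InvCentralizers

universe u

variable {F : Type u} [Field F] {m : ℕ}

local notation "V" => (Fin m ⊕ Fin m → F)
local notation "Sp" => Matrix.symplecticGroup (Fin m) F
local notation "ω" => Cfsg.sympForm m F
local notation "M2" => Matrix (Fin m ⊕ Fin m) (Fin m ⊕ Fin m) F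

/-- The vectors supported on the coordinates from `k` on. -/
def tailSpace (m : ℕ) (F : Type u) [Field F] (k : ℕ) : Submodule F (Fin m ⊕ Fin m → F) where
  carrier := {z | ∀ j : Fin m, (j : ℕ) < k → z (Sum.inl j) = 0 ∧ z (Sum.inr j) = 0}
  add_mem' {a b} ha hb j hj := by simp [ha j hj, hb j hj]
  zero_mem' j _ := by simp
  smul_mem' c x hx j hj := by simp [hx j hj]

theorem ev_mem_tailSpace {i k : ℕ} (h : k ≤ i) : ev m F i ∈ tailSpace m F k := fun j hj => by
  simp [ev, dv, show (j : ℕ) ≠ i by omega]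

theorem fv_mem_tailSpace {i k : ℕ} (h : k ≤ i) : fv m F i ∈ tailSpace m F k := fun j hj => by
  simp [fv, dv, show (j : ℕ) ≠ i by omega]

theorem tailSpace_nondeg {k : ℕ} {w : V} (hw : w ∈ tailSpace m F k) (hw0 : w ≠ 0) :
    ∃ a ∈ tailSpace m F k, ω w a ≠ 0 := by
  obtain ⟨s, hs⟩ := Function.ne_iff.1 hw0
  rw [← Sum.elim_comp_inl_inr w]
  rcases s with j | j
  · refine ⟨fv m F j, fv_mem_tailSpace (not_lt.1 fun h => hs (hw j h).1), ?_⟩
    rw [form_fv_right _ _ j.isLt, neg_ne_zero]
    exact hs
  · refine ⟨ev m F j, ev_mem_tailSpace (not_lt.1 fun h => hs (hw j h).2), ?_⟩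
    rw [form_ev_right _ _ j.isLt]
    exact hs

theorem ev_ne_zero {i : ℕ} (hi : i < m) : ev m F i ≠ 0 := fun h => by
  simpa [ev, dv] using congrFun h (Sum.inl ⟨i, hi⟩)

theorem fv_ne_zero {i : ℕ} (hi : i < m) : fv m F i ≠ 0 := fun h => by
  simpa [fv, dv] using congrFun h (Sum.inr ⟨i, hi⟩)

theorem ev_perp_tailSpace {k : ℕ} (hk : k < m) {x : V} (hx : x ∈ tailSpace m F (k + 1)) :
    ω (ev m F k) x = 0 := by
  rw [sympForm_skew, neg_eq_zero, ← Sum.elim_comp_inl_inr x, form_ev_right _ _ hk]
  exact (hx ⟨k, hk⟩ (by simp)).2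

theorem fv_perp_tailSpace {k : ℕ} (hk : k < m) {x : V} (hx : x ∈ tailSpace m F (k + 1)) :
    ω (fv m F k) x = 0 := by
  rw [sympForm_skew, neg_eq_zero, ← Sum.elim_comp_inl_inr x, form_fv_right _ _ hk, neg_eq_zero]
  exact (hx ⟨k, hk⟩ (by simp)).1

theorem exists_decomp {k : ℕ} (hk : k < m) {z : V} (hz : z ∈ tailSpace m F k) :
    ∃ (w : V) (l μ : F), w ∈ tailSpace m F (k + 1) ∧ z = w + l • ev m F k + μ • fv m F k := by
  refine ⟨z - z (Sum.inl ⟨k, hk⟩) • ev m F k - z (Sum.inr ⟨k, hk⟩) • fv m F k,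
    z (Sum.inl ⟨k, hk⟩), z (Sum.inr ⟨k, hk⟩), ?_, by abel⟩
  intro j hj
  by_cases h : (j : ℕ) = k
  · obtain rfl : j = ⟨k, hk⟩ := Fin.ext h
    simp [ev, fv, dv]
  · obtain ⟨h1, h2⟩ := hz j (by omega)
    simp [ev, fv, dv, h, h1, h2]

section generation

variable {K : Subgroup (Matrix.symplecticGroup (Fin m) F)}

theorem eq_top_of_pair (hm : 2 ≤ m) (hu : regEl m F ∈ K) (hv : oppEl m F ∈ K)
    (hp : ev m F (m - 1) ∈ centres K) (hq : fv m F (m - 1) ∈ centres K) : K = ⊤ := by
  have h0 : (0 : V) ∈ centres K := by simpa using smul_vec_mem_centres hp 0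
  have hbase : ∀ z ∈ tailSpace m F (m - 1), z ∈ centres K := by
    intro z hz
    obtain ⟨w, l, μ, hw, rfl⟩ := exists_decomp (show m - 1 < m by omega) hz
    obtain rfl : w = 0 := by
      funext i
      rcases i with j | j
      · exact (hw j (by omega)).1
      · exact (hw j (by omega)).2
    rw [zero_add]
    refine combo_mem_centres hp hq ?_ l μ
    rw [form_ev_fv (show m - 1 < m by omega), if_pos rfl]
    simp
  have hstep : ∀ k, k + 2 ≤ m → (∀ z ∈ tailSpace m F (k + 1), z ∈ centres K) →
      ∀ z ∈ tailSpace m F k, z ∈ centres K := by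
    intro k hk hW
    set W := tailSpace m F (k + 1)
    have hk' : k < m := by omega
    have hpe : ∀ x ∈ W, ω (ev m F k) x = 0 := fun x hx => ev_perp_tailSpace hk' hx
    have hpf : ∀ x ∈ W, ω (fv m F k) x = 0 := fun x hx => fv_perp_tailSpace hk' hx
    have e1 : ev m F (k + 1) ∈ W := ev_mem_tailSpace le_rfl
    have f1 : fv m F (k + 1) ∈ W := fv_mem_tailSpace le_rfl
    have hT : ∀ x ∈ W, x ≠ 0 → x + ev m F k ∈ centres K := by
      intro x hx hx0
      refine translate_mem_centres hW (fun w hw => tailSpace_nondeg hw) e1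
        (ev_ne_zero (by omega)) hpe ?_ hx hx0
      rw [← regEl_ev_succ hm (by omega : k + 1 < m)]
      exact act_mem_centres (hW _ e1) hu
    have hT' : ∀ x ∈ W, x ≠ 0 → x + fv m F k ∈ centres K := by
      intro x hx hx0
      refine translate_mem_centres hW (fun w hw => tailSpace_nondeg hw) f1
        (fv_ne_zero (by omega)) hpf ?_ hx hx0
      rw [← oppEl_fv_succ hm (by omega : k + 1 < m)]
      exact act_mem_centres (hW _ f1) hv
    have hpp : ω (ev m F k) (fv m F k) = -1 := by rw [form_ev_fv hk', if_pos rfl]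
    have hpair : ev m F k ∈ centres K ∧ fv m F k ∈ centres K := by
      by_cases h2 : k + 2 = m
      · obtain rfl : k = m - 2 := by omega
        refine ⟨?_, ?_⟩
        · rw [← oppEl_regEl_last_ev hm]
          exact act_mem_centres (act_mem_centres hp hu) hv
        · rw [← regEl_oppEl_last_fv hm]
          exact act_mem_centres (act_mem_centres hq hv) hu
      · refine pair_mem_centres hpe hpf hT hT' (by rw [hpp]; simp) e1 (ev_ne_zero (by omega))
          (ev_mem_tailSpace (show k + 1 ≤ k + 2 by omega)) (ev_ne_zero (by omega)) ?_ ?_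
        · intro h
          simpa [ev, dv] using congrFun h (Sum.inl ⟨k + 1, by omega⟩)
        · rw [form_ev_ev (show k + 1 < m by omega), hpp]
          simp
    intro z hz
    obtain ⟨w, l, μ, hw, rfl⟩ := exists_decomp hk' hz
    exact sum_mem_centres hW hpf hT hT' (by rw [hpp]; simp) hpair.1 hpair.2 hw l μ
  have hall : ∀ d, d + 1 ≤ m → ∀ z ∈ tailSpace m F (m - 1 - d), z ∈ centres K := by
    intro d
    induction d with
    | zero => intro _; simpa using hbase
    | succ d ih =>
      intro hd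
      refine hstep _ (by omega) ?_
      rw [show m - 1 - (d + 1) + 1 = m - 1 - d by omega]
      exact ih (by omega)
  rw [eq_top_iff, ← closure_spT_eq_top, Subgroup.closure_le]
  rintro g ⟨w, c, rfl⟩
  refine hall (m - 1) (by omega) w ?_ c
  intro j hj
  omega

theorem eq_top_of_scaled [Finite F] (hm : 2 ≤ m) (hu : regEl m F ∈ K) (hv : oppEl m F ∈ K)
    {θ : Fˣ} (hθ : ∀ x : Fˣ, x ∈ Subgroup.zpowers θ) (hθ2 : (θ : F) ^ 2 ≠ 1)
    (hT : spT (ev m F (m - 1)) ((θ : F) ^ 2 - 1) ∈ K) : K = ⊤ := by
  set p := ev m F (m - 1)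
  set q := fv m F (m - 1)
  set r := ev m F (m - 2)
  set a : F := (θ : F) ^ 2 - 1
  have hm1 : m - 1 < m := by omega
  have hne : m - 1 ≠ m - 2 := by omega
  have ha : a ≠ 0 := sub_ne_zero.2 hθ2
  have hconj : ∀ (g : Sp) (z : V) (c : F), g ∈ K → spT z c ∈ K → spT (g • z) c ∈ K := by
    intro g z c hg hz
    rw [← conj_spT]
    exact K.mul_mem (K.mul_mem hg hz) (K.inv_mem hg)
  have hpr : p + r = regEl m F • p := (regEl_last_ev hm).symm
  have hpq : p - q = oppEl m F • p := (oppEl_last_ev hm).symm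
  have hrq : spT (q - r) a = spT (regEl m F • (p - q)) a := by
    have e : regEl m F • (p - q) = (-1 : F) • (q - r) := by
      rw [smul_sub, regEl_last_ev hm, regEl_last_fv hm]
      module
    rw [e, spT_smul_vec, neg_one_sq, one_mul]
  obtain ⟨hr, -⟩ := spT_mem_of_seeds (K := K) (r := r) (p := p) (q := q) (a := a)
    (form_ev_ev hm1) (by rw [form_ev_fv hm1, if_neg hne])
    (by rw [form_fv_ev hm1, if_pos rfl]) hT (by rw [hpr]; exact hconj _ _ _ hu hT)
    (by rw [hpq]; exact hconj _ _ _ hv hT)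
    (by rw [hrq, hpq]; exact hconj _ _ _ hu (hconj _ _ _ hv hT))
    (fun L h1 h2 => addSubgroup_eq_top_of_gen hθ L ha h1 h2) (Or.inr (by
      have : a ^ 2 + a = a * (θ : F) ^ 2 := by ring
      rw [this]
      exact mul_ne_zero ha (pow_ne_zero _ θ.ne_zero)))
  have hp : p ∈ centres K := by
    have h := act_mem_centres (act_mem_centres (K := K) (z := r) hr (K.inv_mem hv)) (K.inv_mem hu)
    rwa [show (oppEl m F)⁻¹ • r = regEl m F • p by
      rw [inv_smul_eq_iff]; exact (oppEl_regEl_last_ev hm).symm, inv_smul_smul] at h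
  refine eq_top_of_pair hm hu hv hp ?_
  have hx : p - q ∈ centres K := by rw [hpq]; exact act_mem_centres hp hv
  have h := combo_mem_centres hp hx ?_ 1 (-1)
  · convert h using 1
    module
  · rw [sympForm_sub_right, sympForm_self, form_ev_fv hm1, if_pos rfl]
    simp

theorem eq_top_of_first (hm : 2 ≤ m) (hu : regEl m F ∈ K) (hv : oppEl m F ∈ K)
    (h0 : ev m F 0 ∈ centres K) : K = ⊤ := by
  have hm1 : m - 1 < m := by omega
  have h := act_mem_centres (act_mem_centres h0 hv) hu
  rw [regEl_oppEl_ev_zero hm] at h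
  have hq : fv m F (m - 1) ∈ centres K := by
    have hs : (-((-1 : F) ^ (m - 1))) ≠ 0 := neg_ne_zero.2 (pow_ne_zero _ (by simp))
    simpa [smul_smul, inv_mul_cancel₀ hs] using
      smul_vec_mem_centres h (-((-1 : F) ^ (m - 1)))⁻¹
  refine eq_top_of_pair hm hu hv ?_ hq
  have hq' := act_mem_centres hq hu
  rw [regEl_last_fv hm] at hq'
  have h2 := combo_mem_centres hq' hq ?_ 1 (-1)
  · convert h2 using 1
    module
  · rw [sympForm_add_left, sympForm_self, form_ev_fv hm1, if_pos rfl]
    simp

end generation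

theorem regEl_regular (hm : 2 ≤ m) :
    IsNilpotent ((regEl m F : M2) - 1) ∧ ((regEl m F : M2) - 1) ^ (2 * m - 1) ≠ 0 := by
  let e : Fin m ⊕ Fin m ≃ Fin (2 * m) :=
    ((Equiv.sumCongr (Equiv.refl _) Fin.revPerm).trans finSumFinEquiv).trans
      (finCongr (two_mul m).symm)
  have he1 : ∀ i : Fin m, (e (Sum.inl i) : ℕ) = i := fun i => by simp [e]
  have he2 : ∀ i : Fin m, (e (Sum.inr i) : ℕ) = 2 * m - 1 - i := fun i => by
    simp [e, Fin.val_rev]
    omega
  have hsingle1 : ∀ j : Fin m,
      (Pi.single (Sum.inl j) 1 : V) = Sum.elim (Pi.single j 1) (0 : Fin m → F) := fun j => by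
    funext i; cases i <;> simp [Pi.single_apply]
  have hsingle2 : ∀ j : Fin m,
      (Pi.single (Sum.inr j) 1 : V) = Sum.elim (0 : Fin m → F) (Pi.single j 1) := fun j => by
    funext i; cases i <;> simp [Pi.single_apply]
  have col1 : ∀ (j : Fin m) (s : Fin m ⊕ Fin m), (regEl m F : M2) s (Sum.inl j) =
      Sum.elim (fun i => RegularGen.U m F i j) (fun _ => 0) s := by
    intro j s
    have h := congrFun (regEl_smul (F := F) (show 0 < m by omega) (Pi.single j 1) 0) s
    rw [← hsingle1, sp_smul_eq, mulVec_single_one, Matrix.col_apply] at h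
    rw [h]
    cases s <;> simp
  have col2 : ∀ (j : Fin m) (s : Fin m ⊕ Fin m), (regEl m F : M2) s (Sum.inr j) =
      Sum.elim (fun i : Fin m => RegularGen.Ui m F j ⟨m - 1, by omega⟩ *
        if (i : ℕ) = m - 1 then 1 else 0) (fun i : Fin m => RegularGen.Ui m F j i) s := by
    intro j s
    have h := congrFun (regEl_smul (F := F) (show 0 < m by omega) 0 (Pi.single j 1)) s
    rw [← hsingle2, sp_smul_eq, mulVec_single_one, Matrix.col_apply] at h
    rw [h]
    cases s <;> simp [dv]
  refine regular_of_triangular (by omega) e _ ?_ ?_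
  · rintro (i | i) (j | j) h
    · rw [Matrix.sub_apply, col1, he1, he1] at *
      simp only [Sum.elim_inl, RegularGen.U_apply, Matrix.one_apply, Sum.inl.injEq, Fin.ext_iff]
      split_ifs <;> first | omega | simp
    · rw [he1, he2] at h
      have := i.isLt; have := j.isLt
      omega
    · simp [col1]
    · rw [he2, he2] at h
      have := i.isLt; have := j.isLt
      rw [Matrix.sub_apply, col2]
      simp only [Sum.elim_inr, RegularGen.Ui, Matrix.of_apply, Matrix.one_apply, Sum.inr.injEq,
        Fin.ext_iff]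
      split_ifs with h1 h2 <;> first | omega | simp [show (i : ℕ) - j = 0 by omega]
  · rintro (i | i) (j | j) h
    · rw [he1, he1] at h
      rw [Matrix.sub_apply, col1, Sum.elim_inl, RegularGen.U_apply, if_pos (Or.inr h),
        Matrix.one_apply_ne (by simp [Fin.ext_iff]; omega), sub_zero]
      exact one_ne_zero
    · rw [he1, he2] at h
      have := i.isLt; have := j.isLt
      rw [Matrix.sub_apply, col2, Sum.elim_inl, Matrix.one_apply_ne (by simp), sub_zero]
      rw [RegularGen.Ui, Matrix.of_apply, if_pos (show (j : ℕ) ≤ m - 1 by omega), if_pos (show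
        (i : ℕ) = m - 1 by omega), mul_one]
      exact pow_ne_zero _ (neg_ne_zero.2 one_ne_zero)
    · rw [he1, he2] at h
      have := i.isLt; have := j.isLt
      omega
    · rw [he2, he2] at h
      have := i.isLt; have := j.isLt
      rw [Matrix.sub_apply, col2, Sum.elim_inr, Matrix.one_apply_ne (by simp [Fin.ext_iff]; omega),
        sub_zero]
      rw [RegularGen.Ui, Matrix.of_apply, if_pos (show (j : ℕ) ≤ i by omega)]
      exact pow_ne_zero _ (neg_ne_zero.2 one_ne_zero)

theorem exists_conj_transvection [Fintype F] (hm : 2 ≤ m)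
    (h22 : ¬ (m = 2 ∧ Fintype.card F = 2)) (hsmall : Fintype.card F ≤ 3) :
    ∃ (g : Sp) (c : F), c ≠ 0 ∧ g * regEl m F * g⁻¹ * (regEl m F)⁻¹ = spT (ev m F 0) c := by
  have hm0 : 0 < m := by omega
  have hcard : Fintype.card F = 2 ∨ Fintype.card F = 3 := by
    have := Fintype.one_lt_card (α := F)
    omega
  have hdot : ∀ i (z : Fin m → F), i < m →
      dv m F i ⬝ᵥ ((RegularGen.U m F)ᵀ *ᵥ z) = (RegularGen.U m F *ᵥ dv m F i) ⬝ᵥ z := by
    intro i z _
    rw [dotProduct_mulVec, ← mulVec_transpose, Matrix.transpose_transpose]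
  rcases hcard with hc | hc
  · have hm3 : 3 ≤ m := by
      by_contra h
      exact h22 ⟨by omega, hc⟩
    have h2 : (2 : F) = 0 := by simpa [hc] using FiniteField.cast_card_eq_zero F
    refine ⟨shearEl (vecMulVec (dv m F 0) (dv m F 2) + vecMulVec (dv m F 2) (dv m F 0) +
      vecMulVec (dv m F 1) (dv m F 1)) ?_, -1, neg_ne_zero.2 one_ne_zero, ?_⟩
    · rw [transpose_add, transpose_add, transpose_vecMulVec, transpose_vecMulVec,
        transpose_vecMulVec]
      abel
    refine shearEl_conj hm0 _ _ _ fun z => ?_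
    simp only [add_mulVec, vecMulVec_mulVec, op_smul_eq_smul, hdot _ _ (show 0 < m by omega),
      hdot _ _ (show 1 < m by omega), hdot _ _ (show 2 < m by omega), mulVec_add, mulVec_smul,
      U_mulVec_dv_zero, U_mulVec_dv_succ (show 1 + 1 < m by omega),
      U_mulVec_dv_succ (show 0 + 1 < m by omega), add_dotProduct, ← dv_dot z hm0]
    have hneg : ∀ x : F, -x = x := fun x => by linear_combination (-x) * h2
    funext i
    simp only [Pi.add_apply, Pi.smul_apply, smul_eq_mul, one_mul, hneg]
    linear_combination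
      (-((dv m F 1 ⬝ᵥ z) * dv m F 0 i + (dv m F 0 ⬝ᵥ z) * dv m F 1 i +
        (dv m F 0 ⬝ᵥ z) * dv m F 0 i)) * h2
  · have h3 : (3 : F) = 0 := by simpa [hc] using FiniteField.cast_card_eq_zero F
    have h2 : (2 : F) ≠ 0 := fun h => one_ne_zero (by linear_combination h3 - h : (1 : F) = 0)
    refine ⟨shearEl (vecMulVec (dv m F 0) (dv m F 1) + vecMulVec (dv m F 1) (dv m F 0)) ?_, -2,
      neg_ne_zero.2 h2, ?_⟩
    · rw [transpose_add, transpose_vecMulVec, transpose_vecMulVec]
      abel
    refine shearEl_conj hm0 _ _ _ fun z => ?_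
    simp only [add_mulVec, vecMulVec_mulVec, op_smul_eq_smul, hdot _ _ (show 0 < m by omega),
      hdot _ _ (show 1 < m by omega), mulVec_add, mulVec_smul, U_mulVec_dv_zero,
      U_mulVec_dv_succ (show 0 + 1 < m by omega), add_dotProduct, ← dv_dot z hm0]
    module

/-- The symplectic group is generated by three conjugate regular unipotent elements. -/
theorem sp_generated [Fintype F] (hm : 2 ≤ m) (h22 : ¬ (m = 2 ∧ Fintype.card F = 2)) :
    ∃ u g h : Sp, IsNilpotent ((u : M2) - 1) ∧ ((u : M2) - 1) ^ (2 * m - 1) ≠ 0 ∧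
      Subgroup.closure ({u, g * u * g⁻¹, h * u * h⁻¹} : Set Sp) = ⊤ := by
  classical
  obtain ⟨θ, hθ⟩ := IsCyclic.exists_generator (α := Fˣ)
  by_cases hbig : 4 ≤ Fintype.card F
  · refine ⟨regEl m F, scaleEl m θ, swapEl m F, (regEl_regular hm).1, (regEl_regular hm).2, ?_⟩
    set K := Subgroup.closure ({regEl m F, scaleEl m θ * regEl m F * (scaleEl m θ)⁻¹,
      swapEl m F * regEl m F * (swapEl m F)⁻¹} : Set Sp)
    have hu : regEl m F ∈ K := Subgroup.subset_closure (by simp)
    refine eq_top_of_scaled hm hu (Subgroup.subset_closure (by simp [oppEl])) hθ ?_ ?_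
    · intro h
      have h1 : θ ^ 2 = 1 := Units.ext (by simpa using h)
      have h2 := orderOf_eq_card_of_forall_mem_zpowers hθ
      rw [Nat.card_units, Nat.card_eq_fintype_card] at h2
      have h3 := Nat.le_of_dvd (by norm_num) (orderOf_dvd_of_pow_eq_one h1)
      omega
    · rw [← scaleEl_conj]
      exact K.mul_mem (Subgroup.subset_closure (by simp)) (K.inv_mem hu)
  · obtain ⟨g, c, hc, hg⟩ := exists_conj_transvection hm h22 (by omega)
    refine ⟨regEl m F, g, swapEl m F, (regEl_regular hm).1, (regEl_regular hm).2, ?_⟩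
    set K := Subgroup.closure ({regEl m F, g * regEl m F * g⁻¹,
      swapEl m F * regEl m F * (swapEl m F)⁻¹} : Set Sp)
    have hu : regEl m F ∈ K := Subgroup.subset_closure (by simp)
    refine eq_top_of_first hm hu (Subgroup.subset_closure (by simp [oppEl])) fun d => ?_
    have hcK : spT (ev m F 0) c ∈ K := by
      rw [← hg]
      exact K.mul_mem (Subgroup.subset_closure (by simp)) (K.inv_mem hu)
    have hx : ∀ x : F, x ^ Fintype.card F = x := FiniteField.pow_card
    have hd : d = 0 ∨ d = c ∨ d = -c := by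
      have hone : Fintype.card F = 2 ∨ Fintype.card F = 3 := by
        have := Fintype.one_lt_card (α := F)
        omega
      have key : ∀ x : F, x = 0 ∨ x = 1 ∨ x = -1 := by
        intro x
        have hp : x * (x - 1) * (x - -1) = 0 := by
          rcases hone with h | h <;>
            (have e := hx x; rw [h] at e)
          · linear_combination (x + 1) * e
          · linear_combination e
        simp only [mul_eq_zero, sub_eq_zero] at hp
        tauto
      rcases key (d / c) with h | h | h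
      · exact Or.inl (by simpa [div_eq_zero_iff, hc] using h)
      · exact Or.inr (Or.inl (by rwa [div_eq_iff hc, one_mul] at h))
      · exact Or.inr (Or.inr (by rwa [div_eq_iff hc, neg_one_mul] at h))
    rcases hd with rfl | rfl | rfl
    · rw [spT_zero]; exact K.one_mem
    · exact hcK
    · rw [← spT_inv]; exact K.inv_mem hcK

end CfsgLib.RegularGenForms
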