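import Cfsg.Agent.Lib.RegularGenForms.SpElim
import Cfsg.Agent.Lib.InvCentralizers.RegularGen

/-!
A regular unipotent element of the symplectic group, two of its conjugates, and their action on
the standard basis.
-/

set_option autoImplicit false

open Matrix

namespace CfsgLib.RegularGenForms

open CfsgLib.ClassicalLinear CfsgLib.InvCentralizers

universe u

variable {F : Type u} [Field F] {m : ℕ}

local notation "V" => (Fin m ⊕ Fin m → F)
local notation "Sp" => Matrix.symplecticGroup (Fin m) F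
local notation "ω" => Cfsg.sympForm m F
local notation "U" => RegularGen.U m F
local notation "Ui" => RegularGen.Ui m F

/-- The `i`-th coordinate vector. -/
def dv (m : ℕ) (F : Type u) [Field F] (i : ℕ) : Fin m → F :=
  fun j => if (j : ℕ) = i then 1 else 0

/-- The `i`-th vector of the first Lagrangian half. -/
def ev (m : ℕ) (F : Type u) [Field F] (i : ℕ) : Fin m ⊕ Fin m → F := Sum.elim (dv m F i) 0

/-- The `i`-th vector of the second Lagrangian half. -/
def fv (m : ℕ) (F : Type u) [Field F] (i : ℕ) : Fin m ⊕ Fin m → F := Sum.elim 0 (dv m F i)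

theorem dv_eq_single {i : ℕ} (hi : i < m) : dv m F i = Pi.single ⟨i, hi⟩ 1 := by
  funext j
  simp [dv, Pi.single_apply, Fin.ext_iff]

theorem dot_dv (a : Fin m → F) {i : ℕ} (hi : i < m) : a ⬝ᵥ dv m F i = a ⟨i, hi⟩ := by
  rw [dv_eq_single hi, dotProduct_single_one]

theorem dv_dot (a : Fin m → F) {i : ℕ} (hi : i < m) : dv m F i ⬝ᵥ a = a ⟨i, hi⟩ := by
  rw [dotProduct_comm, dot_dv a hi]

theorem form_elim (a b c d : Fin m → F) :
    ω (Sum.elim a b) (Sum.elim c d) = b ⬝ᵥ c - a ⬝ᵥ d := by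
  simp [Cfsg.sympForm, Matrix.J, dotProduct, Matrix.mulVec, Fintype.sum_sum_type,
    Matrix.one_apply, Matrix.fromBlocks]
  abel

theorem form_ev_right (a b : Fin m → F) {i : ℕ} (hi : i < m) :
    ω (Sum.elim a b) (ev m F i) = b ⟨i, hi⟩ := by
  rw [ev, form_elim, dot_dv b hi, dotProduct_zero, sub_zero]

theorem form_fv_right (a b : Fin m → F) {i : ℕ} (hi : i < m) :
    ω (Sum.elim a b) (fv m F i) = -a ⟨i, hi⟩ := by
  rw [fv, form_elim, dot_dv a hi, dotProduct_zero, zero_sub]

theorem form_ev_ev {i j : ℕ} (hj : j < m) : ω (ev m F i) (ev m F j) = 0 := by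
  rw [ev, form_ev_right _ _ hj]; rfl

theorem form_fv_ev {i j : ℕ} (hj : j < m) :
    ω (fv m F i) (ev m F j) = if j = i then 1 else 0 := by
  rw [fv, form_ev_right _ _ hj]; rfl

theorem form_ev_fv {i j : ℕ} (hj : j < m) :
    ω (ev m F i) (fv m F j) = if j = i then -1 else 0 := by
  rw [ev, form_fv_right _ _ hj, dv]
  split_ifs <;> simp

theorem form_fv_fv {i j : ℕ} (hj : j < m) : ω (fv m F i) (fv m F j) = 0 := by
  rw [fv, form_fv_right _ _ hj]; simp

theorem elim_add (a b c d : Fin m → F) :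
    Sum.elim a b + Sum.elim c d = (Sum.elim (a + c) (b + d) : V) := by
  funext i; cases i <;> rfl

theorem elim_smul (r : F) (a b : Fin m → F) :
    r • (Sum.elim a b : V) = Sum.elim (r • a) (r • b) := by
  funext i; cases i <;> rfl

theorem elim_neg (a b : Fin m → F) : -(Sum.elim a b : V) = Sum.elim (-a) (-b) := by
  funext i; cases i <;> rfl

theorem Ui_mul_U : Ui * U = 1 := mul_eq_one_comm.1 RegularGen.U_mul_Ui

theorem U_mulVec_dv_succ {i : ℕ} (hi : i + 1 < m) :
    U *ᵥ dv m F (i + 1) = dv m F (i + 1) + dv m F i := by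
  rw [dv_eq_single hi, dv_eq_single (show i < m by omega), mulVec_single_one]
  funext j
  simp only [Matrix.col_apply, RegularGen.U_apply, Pi.add_apply, Pi.single_apply, Fin.ext_iff]
  split_ifs <;> simp_all

theorem U_mulVec_dv_zero : U *ᵥ dv m F 0 = dv m F 0 := by
  rcases m.eq_zero_or_pos with rfl | hm
  · exact Subsingleton.elim _ _
  · rw [dv_eq_single hm, mulVec_single_one]
    funext j
    simp only [Matrix.col_apply, RegularGen.U_apply, Pi.single_apply, Fin.ext_iff]
    split_ifs <;> simp_all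

/-- The alternating vector. -/
def alt (m : ℕ) (F : Type u) [Field F] : Fin m → F := fun j => (-1) ^ (j : ℕ)

theorem UiT_mulVec_dv_zero : Uiᵀ *ᵥ dv m F 0 = alt m F := by
  funext j
  have hm : 0 < m := Fin.pos_iff_nonempty.2 ⟨j⟩
  rw [dv_eq_single hm, mulVec_single_one]
  simp only [Matrix.col_apply, Matrix.transpose_apply, RegularGen.Ui, Matrix.of_apply, alt]
  rw [if_pos (Nat.zero_le _), Nat.sub_zero]

theorem UiT_mulVec_dv_last : Uiᵀ *ᵥ dv m F (m - 1) = dv m F (m - 1) := by
  funext j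
  have hj := j.isLt
  rw [dv_eq_single (show m - 1 < m by omega), mulVec_single_one]
  simp only [Matrix.col_apply, Matrix.transpose_apply, RegularGen.Ui, Matrix.of_apply,
    Pi.single_apply, Fin.ext_iff]
  by_cases h : (j : ℕ) = m - 1
  · simp [h]
  · rw [if_neg h, if_neg]; omega

theorem UiT_mulVec_dv_prev (hm : 2 ≤ m) :
    Uiᵀ *ᵥ dv m F (m - 2) = dv m F (m - 2) - dv m F (m - 1) := by
  funext j
  have hj := j.isLt
  rw [dv_eq_single (show m - 2 < m by omega), mulVec_single_one]
  simp only [Matrix.col_apply, Matrix.transpose_apply, RegularGen.Ui, Matrix.of_apply,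
    Pi.single_apply, Pi.sub_apply, Fin.ext_iff, dv]
  by_cases h : (j : ℕ) = m - 1
  · have e : (j : ℕ) - (m - 2) = 1 := by omega
    rw [if_pos (by omega), if_neg (by omega), if_pos h, e]
    ring
  · by_cases h' : (j : ℕ) = m - 2
    · rw [if_pos (by omega), if_pos h', if_neg h]
      simp [h']
    · rw [if_neg (by omega), if_neg h', if_neg h]
      ring

theorem U_mulVec_alt : U *ᵥ alt m F = ((-1 : F) ^ (m - 1)) • dv m F (m - 1) := by
  funext j
  have hj := j.isLt
  have key := RegularGen.U_mul_apply (F := F) (Matrix.of fun i (_ : Fin m) => alt m F i) j j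
  have h1 : (U *ᵥ alt m F) j = (U * Matrix.of fun i (_ : Fin m) => alt m F i) j j := by
    simp [Matrix.mulVec, dotProduct, Matrix.mul_apply]
  rw [h1, key]
  simp only [Matrix.of_apply, alt, Pi.smul_apply, smul_eq_mul, dv]
  by_cases h : (j : ℕ) + 1 < m
  · rw [dif_pos h, if_neg (by omega), mul_zero, pow_succ]
    ring
  · rw [dif_neg h, if_pos (by omega), mul_one, add_zero, show (j : ℕ) = m - 1 by omega]

/-- The element acting by the Jordan block on both halves. -/
noncomputable def leviEl (m : ℕ) (F : Type u) [Field F] : Matrix.symplecticGroup (Fin m) F :=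
  ⟨fromBlocks (RegularGen.U m F) 0 0 (RegularGen.Ui m F)ᵀ, by
    rw [SymplecticGroup.mem_iff', J, fromBlocks_transpose, fromBlocks_multiply,
      fromBlocks_multiply]
    simp [Ui_mul_U, ← Matrix.transpose_mul]⟩

theorem leviEl_smul (a b : Fin m → F) :
    leviEl m F • (Sum.elim a b : V) = Sum.elim (U *ᵥ a) (Uiᵀ *ᵥ b) := by
  rw [sp_smul_eq]
  simp [leviEl, fromBlocks_mulVec]

/-- The standard regular unipotent element. -/
noncomputable def regEl (m : ℕ) (F : Type u) [Field F] : Matrix.symplecticGroup (Fin m) F :=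
  spT (ev m F (m - 1)) 1 * leviEl m F

theorem regEl_smul (hm : 0 < m) (a b : Fin m → F) :
    regEl m F • (Sum.elim a b : V) =
      Sum.elim (U *ᵥ a + ((Uiᵀ *ᵥ b) ⟨m - 1, by omega⟩) • dv m F (m - 1)) (Uiᵀ *ᵥ b) := by
  rw [regEl, mul_smul, leviEl_smul, spT_smul, form_ev_right _ _ (show m - 1 < m by omega),
    one_mul, ev, elim_smul, elim_add, smul_zero, add_zero]

/-- The element exchanging the two halves. -/
noncomputable def swapEl (m : ℕ) (F : Type u) [Field F] : Matrix.symplecticGroup (Fin m) F :=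
  ⟨Matrix.J (Fin m) F, SymplecticGroup.J_mem _ _⟩

theorem swapEl_smul (a b : Fin m → F) :
    swapEl m F • (Sum.elim a b : V) = Sum.elim (-b) a := by
  rw [sp_smul_eq]
  simp [swapEl, Matrix.J, fromBlocks_mulVec, neg_mulVec]

theorem swapEl_inv_smul (a b : Fin m → F) :
    (swapEl m F)⁻¹ • (Sum.elim a b : V) = Sum.elim b (-a) := by
  rw [inv_smul_eq_iff, swapEl_smul, neg_neg]

/-- The opposite conjugate. -/
noncomputable def oppEl (m : ℕ) (F : Type u) [Field F] : Matrix.symplecticGroup (Fin m) F :=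
  swapEl m F * regEl m F * (swapEl m F)⁻¹

section action

variable (hm : 2 ≤ m)
include hm

theorem regEl_ev_zero : regEl m F • ev m F 0 = ev m F 0 := by
  rw [ev, regEl_smul (by omega), U_mulVec_dv_zero]
  simp

theorem regEl_ev_succ {i : ℕ} (hi : i + 1 < m) :
    regEl m F • ev m F (i + 1) = ev m F (i + 1) + ev m F i := by
  rw [ev, regEl_smul (by omega), U_mulVec_dv_succ hi, ev, elim_add]
  simp

theorem regEl_last_ev : regEl m F • ev m F (m - 1) = ev m F (m - 1) + ev m F (m - 2) := by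
  have h := regEl_ev_succ (F := F) hm (i := m - 2) (by omega)
  rwa [show m - 2 + 1 = m - 1 by omega] at h

theorem regEl_last_fv : regEl m F • fv m F (m - 1) = fv m F (m - 1) + ev m F (m - 1) := by
  rw [fv, regEl_smul (by omega), UiT_mulVec_dv_last, ev, elim_add]
  simp [dv]

theorem regEl_prev_fv :
    regEl m F • fv m F (m - 2) = fv m F (m - 2) - fv m F (m - 1) - ev m F (m - 1) := by
  have h : m - 1 ≠ m - 2 := by omega
  rw [fv, regEl_smul (by omega), UiT_mulVec_dv_prev hm, fv, ev]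
  funext i
  cases i <;> simp [dv, h]

omit hm in
theorem oppEl_ev (i : ℕ) :
    oppEl m F • ev m F i = -(swapEl m F • regEl m F • fv m F i) := by
  rw [oppEl, mul_smul, mul_smul, ev, swapEl_inv_smul, fv]
  have e : (Sum.elim (0 : Fin m → F) (-dv m F i) : V) =
      (-1 : F) • Sum.elim (0 : Fin m → F) (dv m F i) := by
    funext j; cases j <;> simp
  rw [e, sp_smul_eq, sp_smul_eq, mulVec_smul, mulVec_smul, ← sp_smul_eq, ← sp_smul_eq, neg_smul,
    one_smul]

omit hm in
theorem oppEl_fv (i : ℕ) : oppEl m F • fv m F i = swapEl m F • regEl m F • ev m F i := by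
  rw [oppEl, mul_smul, mul_smul, fv, swapEl_inv_smul, neg_zero, ev]

theorem oppEl_fv_succ {i : ℕ} (hi : i + 1 < m) :
    oppEl m F • fv m F (i + 1) = fv m F (i + 1) + fv m F i := by
  rw [oppEl_fv, regEl_ev_succ hm hi, ev, ev, elim_add, swapEl_smul, fv, fv, elim_add]
  simp

theorem oppEl_last_fv : oppEl m F • fv m F (m - 1) = fv m F (m - 1) + fv m F (m - 2) := by
  have h := oppEl_fv_succ (F := F) hm (i := m - 2) (by omega)
  rwa [show m - 2 + 1 = m - 1 by omega] at h

theorem oppEl_last_ev : oppEl m F • ev m F (m - 1) = ev m F (m - 1) - fv m F (m - 1) := by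
  rw [oppEl_ev, regEl_last_fv hm, fv, ev, elim_add, swapEl_smul]
  funext i
  cases i <;> simp

theorem oppEl_regEl_last_ev : oppEl m F • regEl m F • ev m F (m - 1) = ev m F (m - 2) := by
  rw [regEl_last_ev hm, smul_add, oppEl_ev, oppEl_ev, regEl_last_fv hm, regEl_prev_fv hm,
    ← neg_add, ← smul_add]
  have e : fv m F (m - 1) + ev m F (m - 1) + (fv m F (m - 2) - fv m F (m - 1) - ev m F (m - 1))
      = fv m F (m - 2) := by abel
  rw [e, fv, swapEl_smul, ev, elim_neg, neg_neg, neg_zero]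

theorem regEl_oppEl_last_fv : regEl m F • oppEl m F • fv m F (m - 1) = fv m F (m - 2) := by
  rw [oppEl_last_fv hm, smul_add, regEl_last_fv hm, regEl_prev_fv hm]
  abel

theorem regEl_oppEl_ev_zero :
    regEl m F • oppEl m F • ev m F 0 = (-((-1 : F) ^ (m - 1))) • fv m F (m - 1) := by
  set s : F := (-1) ^ (m - 1) with hs
  have h1 : oppEl m F • ev m F 0 = Sum.elim (alt m F) ((-s) • dv m F (m - 1)) := by
    rw [oppEl_ev, fv, regEl_smul (by omega), UiT_mulVec_dv_zero, swapEl_smul]
    funext i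
    cases i <;> simp [alt, hs]
  rw [h1, regEl_smul (by omega), mulVec_smul, UiT_mulVec_dv_last, U_mulVec_alt, fv, elim_smul]
  funext i
  cases i <;> simp [dv, hs]

end action

/-- The scaling element `diag (θ, θ⁻¹)`. -/
noncomputable def scaleEl (m : ℕ) (θ : Fˣ) : Matrix.symplecticGroup (Fin m) F :=
  ⟨fromBlocks ((θ : F) • 1) 0 0 (((θ⁻¹ : Fˣ) : F) • 1), by
    rw [SymplecticGroup.mem_iff', J, fromBlocks_transpose, fromBlocks_multiply,
      fromBlocks_multiply]
    simp [smul_smul]⟩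

theorem scaleEl_smul (θ : Fˣ) (a b : Fin m → F) :
    scaleEl m θ • (Sum.elim a b : V) = Sum.elim ((θ : F) • a) (((θ⁻¹ : Fˣ) : F) • b) := by
  rw [sp_smul_eq]
  simp [scaleEl, fromBlocks_mulVec, Matrix.smul_mulVec]

theorem scaleEl_conj (θ : Fˣ) :
    scaleEl m θ * regEl m F * (scaleEl m θ)⁻¹ * (regEl m F)⁻¹ =
      spT (ev m F (m - 1)) ((θ : F) ^ 2 - 1) := by
  have hcomm : scaleEl m θ * leviEl m F = leviEl m F * scaleEl m θ := by
    refine sp_ext fun v => ?_
    rw [← Sum.elim_comp_inl_inr v, mul_smul, mul_smul, leviEl_smul, scaleEl_smul, scaleEl_smul,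
      leviEl_smul, mulVec_smul, mulVec_smul]
  have e : scaleEl m θ • ev m F (m - 1) = (θ : F) • ev m F (m - 1) := by
    rw [ev, scaleEl_smul, elim_smul, smul_zero, smul_zero]
  rw [regEl]
  calc scaleEl m θ * (spT (ev m F (m - 1)) 1 * leviEl m F) * (scaleEl m θ)⁻¹ *
        (spT (ev m F (m - 1)) 1 * leviEl m F)⁻¹
      = (scaleEl m θ * spT (ev m F (m - 1)) 1 * (scaleEl m θ)⁻¹) *
          (scaleEl m θ * leviEl m F * (scaleEl m θ)⁻¹ * (leviEl m F)⁻¹) *
          (spT (ev m F (m - 1)) 1)⁻¹ := by group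
    _ = _ := by
      rw [hcomm, conj_spT, e, spT_smul_vec, spT_inv, mul_one, mul_inv_cancel_right,
        mul_inv_cancel, mul_one, spT_add, sub_eq_add_neg]

/-- The shear by a symmetric matrix. -/
noncomputable def shearEl (S : Matrix (Fin m) (Fin m) F) (hS : Sᵀ = S) :
    Matrix.symplecticGroup (Fin m) F :=
  ⟨fromBlocks 1 S 0 1, by
    rw [SymplecticGroup.mem_iff', J, fromBlocks_transpose, fromBlocks_multiply,
      fromBlocks_multiply]
    simp [hS]⟩

theorem shearEl_smul (S : Matrix (Fin m) (Fin m) F) (hS : Sᵀ = S) (a b : Fin m → F) :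
    shearEl S hS • (Sum.elim a b : V) = Sum.elim (a + S *ᵥ b) b := by
  rw [sp_smul_eq]
  simp [shearEl, fromBlocks_mulVec]

theorem shearEl_conj (hm : 0 < m) (S : Matrix (Fin m) (Fin m) F) (hS : Sᵀ = S) (c : F)
    (h : ∀ z : Fin m → F,
      S *ᵥ z = U *ᵥ (S *ᵥ (Uᵀ *ᵥ z)) + (c * z ⟨0, hm⟩) • dv m F 0) :
    shearEl S hS * regEl m F * (shearEl S hS)⁻¹ * (regEl m F)⁻¹ = spT (ev m F 0) c := by
  rw [mul_inv_eq_iff_eq_mul, mul_inv_eq_iff_eq_mul]
  refine sp_ext fun v => ?_
  rw [← Sum.elim_comp_inl_inr v]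
  set a := v ∘ Sum.inl
  set b := v ∘ Sum.inr
  rw [mul_smul, mul_smul, mul_smul, regEl_smul hm, shearEl_smul, shearEl_smul, regEl_smul hm,
    spT_smul, form_ev_right _ _ hm, ev, elim_smul, elim_add, h, mulVec_mulVec b Uᵀ,
    ← Matrix.transpose_mul, Ui_mul_U, Matrix.transpose_one, one_mulVec, mulVec_add, smul_zero,
    add_zero]
  congr 1
  abel

end CfsgLib.RegularGenForms
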