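import Cfsg.Agent.Lib.RegularGenForms.SuModel

/-!
The standard regular unipotent elements of `SU_n(q)`, `n` odd, are conjugate in `SU_n(q)`.
-/

set_option autoImplicit false

open Matrix

namespace CfsgLib.RegularGenForms

open CfsgLib.Amalgams CfsgLib.InvCentralizers

universe u

variable {F : Type u} [Field F] {k n q : ℕ}

theorem uLin_col_left (hk : 0 < k) (c : F) (j : Fin k) :
    uLin hk c (Pi.single (.inl (.inl j)) 1) = hv (fun i => RegularGen.U k F i j) 0 0 := by
  have e : (Pi.single (.inl (.inl j)) 1 : Idx k → F) = hv (Pi.single j 1) 0 0 := by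
    funext i
    rcases i with (i | i) | i <;> simp [hv, Pi.single_apply]
  rw [e, uLin_hv, mulVec_single_one]
  simp only [lastCoord, mulVec_zero, Pi.zero_apply, mul_zero, add_zero, zero_smul, sub_zero]
  rfl

theorem uLin_col_right (hk : 0 < k) (c : F) (j : Fin k) :
    uLin hk c (Pi.single (.inl (.inr j)) 1) =
      hv ((c * RegularGen.Ui k F j ⟨k - 1, by omega⟩) • dv k F (k - 1))
        (fun i => RegularGen.Ui k F j i) (-RegularGen.Ui k F j ⟨k - 1, by omega⟩) := by
  have e : (Pi.single (.inl (.inr j)) 1 : Idx k → F) = hv 0 (Pi.single j 1) 0 := by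
    funext i
    rcases i with (i | i) | i <;> simp [hv, Pi.single_apply]
  rw [e, uLin_hv, mulVec_single_one]
  simp only [lastCoord, mulVec_single_one, mulVec_zero, zero_add, zero_sub, Matrix.col_apply,
    Matrix.transpose_apply]
  rfl

theorem uLin_col_mid (hk : 0 < k) (c : F) (z : Unit) :
    uLin hk c (Pi.single (.inr z) 1) = hv (dv k F (k - 1)) 0 1 := by
  obtain rfl : z = () := rfl
  have e : (Pi.single (.inr ()) 1 : Idx k → F) = hv 0 0 1 := by
    funext i
    rcases i with (i | i) | i <;> simp [hv, Pi.single_apply]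
  rw [e, uLin_hv]
  simp [lastCoord]

/-- The ordered nilpotent part of the standard regular unipotent. -/
noncomputable def nilPart (hn : n = 2 * k + 1) (hk : 0 < k) (c : F) : Matrix (Fin n) (Fin n) F :=
  Matrix.reindexAlgEquiv F F (ordEquiv hn) (LinearMap.toMatrixAlgEquiv' (uLin hk c) - 1)

theorem nilPart_apply (hn : n = 2 * k + 1) (hk : 0 < k) (c : F) (i j : Idx k) :
    nilPart hn hk c (ordEquiv hn i) (ordEquiv hn j) =
      uLin hk c (Pi.single j 1) i - if i = j then 1 else 0 := by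
  simp [nilPart, LinearMap.toMatrixAlgEquiv'_apply, Matrix.one_apply]

theorem ordEquiv_val (hn : n = 2 * k + 1) (i : Idx k) :
    (ordEquiv hn i : ℕ) = match i with
      | .inl (.inl i) => (i : ℕ)
      | .inl (.inr i) => 2 * k - i
      | .inr _ => k := by
  rcases i with (i | i) | i <;> rfl

theorem nilPart_upper (hn : n = 2 * k + 1) (hk : 0 < k) (c : F) (i j : Fin n)
    (hij : (j : ℕ) ≤ i) : nilPart hn hk c i j = 0 := by
  obtain ⟨i, rfl⟩ := (ordEquiv hn).surjective i
  obtain ⟨j, rfl⟩ := (ordEquiv hn).surjective j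
  rw [ordEquiv_val, ordEquiv_val] at hij
  rw [nilPart_apply]
  rcases j with (j | j) | ⟨⟩ <;> rcases i with (i | i) | ⟨⟩ <;>
    simp only [uLin_col_left, uLin_col_right, uLin_col_mid, hv, Sum.elim_inl, Sum.elim_inr,
      Pi.zero_apply, Sum.inl.injEq, Sum.inr.injEq, Fin.ext_iff] at hij ⊢
  all_goals first
    | (simp [RegularGen.U_apply]; split_ifs <;> first | omega | simp)
    | (have := i.isLt; have := j.isLt
       simp only [RegularGen.Ui, Matrix.of_apply]
       split_ifs with h1 h2 <;> first | omega | simp [show (i : ℕ) - j = 0 by omega])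
    | (have := i.isLt; omega)
    | (have := j.isLt; omega)
    | simp
    | (have := i.isLt; have := j.isLt; omega)

theorem nilPart_super (hn : n = 2 * k + 1) (hk : 0 < k) (c c' : F) (i j : Fin n)
    (hij : (i : ℕ) + 1 = j) :
    nilPart hn hk c i j ≠ 0 ∧ nilPart hn hk c i j = nilPart hn hk c' i j := by
  obtain ⟨i, rfl⟩ := (ordEquiv hn).surjective i
  obtain ⟨j, rfl⟩ := (ordEquiv hn).surjective j
  rw [ordEquiv_val, ordEquiv_val] at hij
  rw [nilPart_apply, nilPart_apply]
  rcases j with (j | j) | ⟨⟩ <;> rcases i with (i | i) | ⟨⟩ <;>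
    simp only [uLin_col_left, uLin_col_right, uLin_col_mid, hv, Sum.elim_inl, Sum.elim_inr,
      Sum.inl.injEq, Sum.inr.injEq, Fin.ext_iff] at hij ⊢
  all_goals first
    | (have := i.isLt; have := j.isLt; omega)
    | (have := i.isLt; omega)
    | (have := j.isLt; omega)
    | omega
    | (rw [RegularGen.U_apply, if_pos (Or.inr hij), if_neg (by omega)]; simp)
    | (have := i.isLt; have := j.isLt
       rw [RegularGen.Ui, Matrix.of_apply, if_pos (show (j : ℕ) ≤ i by omega), if_neg (by omega)]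
       simp)
    | (have := j.isLt
       rw [RegularGen.Ui, Matrix.of_apply, if_pos (show (j : ℕ) ≤ k - 1 by omega), if_neg (by simp)]
       simp)
    | simp [dv, show (i : ℕ) = k - 1 by omega]

theorem uLin_det (hn : n = 2 * k + 1) (hk : 0 < k) (c : F) : LinearMap.det (uLin hk c) = 1 := by
  rw [← LinearMap.det_toMatrix', ← Matrix.det_reindex_self (ordEquiv hn)]
  have e : Matrix.reindex (ordEquiv hn) (ordEquiv hn) (LinearMap.toMatrix' (uLin hk c)) =
      nilPart hn hk c + 1 := by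
    rw [nilPart, map_sub, map_one, sub_add_cancel]
    rfl
  rw [e, Matrix.det_of_isUpperTriangular]
  · refine Finset.prod_eq_one fun i _ => ?_
    simp [nilPart_upper hn hk c i i le_rfl]
  · intro i j h
    have h' : (j : ℕ) < i := h
    rw [Matrix.add_apply, nilPart_upper hn hk c i j h'.le, zero_add, Matrix.one_apply_ne]
    exact fun e => by simp [e] at h'

theorem swapLin_det_sq : LinearMap.det (swapLin k F) * LinearMap.det (swapLin k F) = 1 := by
  rw [← map_mul, show swapLin k F * swapLin k F = 1 from LinearMap.ext swapLin_swapLin, map_one]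

variable {σ : F →+* F}

theorem mem_SU_of_form [Finite F] (h : UniField F σ q) (Φ : (Idx k → F) ≃ₗ[F] (Fin n → F))
    (hΦ : ∀ x y, hm σ (Φ x) (Φ y) = hA σ x y) (A : Module.End F (Idx k → F))
    (hA' : ∀ x y, hA σ (A x) (A y) = hA σ x y) (hdet : (stdMat Φ A).det = 1) :
    (⟨stdMat Φ A, hdet⟩ : Matrix.SpecialLinearGroup (Fin n) F) ∈ Cfsg.SU n F q := by
  intro u v
  obtain ⟨x, rfl⟩ := Φ.surjective u
  obtain ⟨y, rfl⟩ := Φ.surjective v
  have e : ∀ a b : Fin n → F, Cfsg.hermForm n F q a b = hm σ a b := fun a b => by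
    simp [hm, Cfsg.hermForm, dotProduct, h.apply_eq]
  show Cfsg.hermForm n F q (stdMat Φ A *ᵥ Φ x) (stdMat Φ A *ᵥ Φ y) = _
  rw [stdMat_mulVec, stdMat_mulVec, e, e, hΦ, hΦ, hA']

/-- An element of `SU_n(q)` from an isometry of determinant one of the model. -/
noncomputable def suOf [Finite F] (h : UniField F σ q) (Φ : (Idx k → F) ≃ₗ[F] (Fin n → F))
    (hΦ : ∀ x y, hm σ (Φ x) (Φ y) = hA σ x y) (A : Module.End F (Idx k → F))
    (hA' : ∀ x y, hA σ (A x) (A y) = hA σ x y) (hdet : LinearMap.det A = 1) :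
    ↥(Cfsg.SU n F q) :=
  ⟨⟨stdMat Φ A, by rw [stdMat_det, hdet]⟩,
    mem_SU_of_form h Φ hΦ A hA' (by rw [stdMat_det, hdet])⟩

theorem suOf_act [Finite F] (h : UniField F σ q) (Φ : (Idx k → F) ≃ₗ[F] (Fin n → F))
    (hΦ : ∀ x y, hm σ (Φ x) (Φ y) = hA σ x y) (A : Module.End F (Idx k → F))
    (hA' : ∀ x y, hA σ (A x) (A y) = hA σ x y) (hdet : LinearMap.det A = 1) (x : Idx k → F) :
    suAct (suOf h Φ hΦ A hA' hdet) (Φ x) = Φ (A x) :=
  stdMat_mulVec Φ A x

/-- The two standard regular unipotents are conjugate in the special unitary group. -/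
theorem exists_su_conj_regular [Fintype F] (h : UniField F σ q)
    (Φ : (Idx k → F) ≃ₗ[F] (Fin n → F)) (hΦ : ∀ x y, hm σ (Φ x) (Φ y) = hA σ x y)
    (hn : n = 2 * k + 1) (hk : 0 < k) {c c' : F} (hc : c + σ c + 1 = 0)
    (hc' : c' + σ c' + 1 = 0) :
    ∃ g : ↥(Cfsg.SU n F q),
      g * suOf h Φ hΦ (uLin hk c) (hA_uLin σ hk hc) (uLin_det hn hk c) * g⁻¹ =
        suOf h Φ hΦ (uLin hk c') (hA_uLin σ hk hc') (uLin_det hn hk c') := by
  have hcard : Fintype.card F = q ^ 2 := by rw [← Nat.card_eq_fintype_card, h.card]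
  set U₁ := suOf h Φ hΦ (uLin hk c) (hA_uLin σ hk hc) (uLin_det hn hk c)
  set U₂ := suOf h Φ hΦ (uLin hk c') (hA_uLin σ hk hc') (uLin_det hn hk c')
  -- ordered matrices
  let T : Module.End F (Idx k → F) ≃ₐ[F] Matrix (Fin n) (Fin n) F :=
    LinearMap.toMatrixAlgEquiv'.trans (Matrix.reindexAlgEquiv F F (ordEquiv hn))
  have hT : ∀ d, T (uLin hk d) = nilPart hn hk d + 1 := fun d => by
    rw [nilPart, map_sub, map_one, sub_add_cancel]
    rfl
  obtain ⟨X, hX, hXeq⟩ := exists_similar_of_upper (nilPart_upper hn hk c')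
    (fun i j hij => (nilPart_super hn hk c' c i j hij).1) (nilPart_upper hn hk c)
    (fun i j hij => (nilPart_super hn hk c c' i j hij).1)
  let ψ : Matrix (Fin n) (Fin n) F ≃ₐ[F] Matrix (Fin n) (Fin n) F := T.symm.trans (stdMat Φ)
  have hU : ∀ d, ψ (nilPart hn hk d + 1) = stdMat Φ (uLin hk d) := fun d => by
    simp [ψ, ← hT]
  obtain ⟨x, hx⟩ := hX.map ψ
  let toGU : ↥(Cfsg.SU n F q) → ↥(Cfsg.GU n F q) := fun g =>
    ⟨Matrix.SpecialLinearGroup.toGL (g : Matrix.SpecialLinearGroup (Fin n) F), g.2⟩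
  have hconj : IsConj (toGU U₁) (toGU U₂) := by
    rw [Classes.isConj_gu_iff hcard, isConj_iff]
    refine ⟨x, ?_⟩
    rw [mul_inv_eq_iff_eq_mul]
    apply Units.ext
    show (x : Matrix (Fin n) (Fin n) F) * stdMat Φ (uLin hk c) =
      stdMat Φ (uLin hk c') * (x : Matrix (Fin n) (Fin n) F)
    rw [hx, ← hU, ← hU, ← map_mul, ← map_mul, Matrix.mul_add, Matrix.mul_one, Matrix.add_mul,
      Matrix.one_mul, hXeq]
  obtain ⟨g, hg⟩ := isConj_iff.1 hconj
  set G : Matrix (Fin n) (Fin n) F := ((g : GL (Fin n) F) : Matrix (Fin n) (Fin n) F)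
  have hgeq : G * stdMat Φ (uLin hk c) = stdMat Φ (uLin hk c') * G := by
    have := congrArg (fun z : ↥(Cfsg.GU n F q) => (z : GL (Fin n) F))
      (mul_inv_eq_iff_eq_mul.1 hg)
    exact congrArg Units.val this
  set G' := ψ.symm G with hG'
  have hG'eq : G' * nilPart hn hk c = nilPart hn hk c' * G' := by
    have e : G' * (nilPart hn hk c + 1) = (nilPart hn hk c' + 1) * G' := by
      apply ψ.injective
      rw [map_mul, map_mul, hU, hU, hG', AlgEquiv.apply_symm_apply, hgeq]
    rwa [Matrix.mul_add, Matrix.mul_one, Matrix.add_mul, Matrix.one_mul, add_left_inj] at e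
  obtain ⟨hup, hdiag⟩ := intertwiner_upper (nilPart_upper hn hk c) (nilPart_upper hn hk c')
    (fun i j hij => (nilPart_super hn hk c' c i j hij).1)
    (fun i j hij => (nilPart_super hn hk c c' i j hij).1)
    (fun i j hij => (nilPart_super hn hk c c' i j hij).2) hG'eq
  set e0 := ordEquiv hn (.inl (.inl ⟨0, hk⟩))
  set γ := G' e0 e0
  have hdetG : G.det = γ ^ n := by
    have : G.det = G'.det := by
      rw [show G = ψ G' by rw [hG', AlgEquiv.apply_symm_apply]]
      show (stdMat Φ (T.symm G')).det = _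
      rw [stdMat_det, ← LinearMap.det_toMatrix',
        show LinearMap.toMatrix' (T.symm G') = LinearMap.toMatrixAlgEquiv' (T.symm G') from rfl]
      simp [T]
    rw [this, Matrix.det_of_isUpperTriangular (show G'.IsUpperTriangular from fun i j hij => hup i j hij),
      Finset.prod_congr rfl fun i _ => hdiag i e0, Finset.prod_const, Finset.card_univ,
      Fintype.card_fin]
  -- the diagonal entry has norm one
  let A : Module.End F (Idx k → F) := T.symm G'
  have hAG : stdMat Φ A = G := by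
    show ψ G' = G
    rw [hG', AlgEquiv.apply_symm_apply]
  have hentry : ∀ i j, A (Pi.single j 1) i = G' (ordEquiv hn i) (ordEquiv hn j) := by
    intro i j
    rw [← LinearMap.toMatrixAlgEquiv'_apply]
    simp [A, T]
  have hform : ∀ x y, hA σ (A x) (A y) = hA σ x y := by
    intro x y
    rw [← hΦ, ← hΦ x, ← stdMat_mulVec, ← stdMat_mulVec, hAG]
    have e : ∀ a b : Fin n → F, hm σ a b = Cfsg.hermForm n F q a b := fun a b => by
      simp [hm, Cfsg.hermForm, dotProduct, h.apply_eq]
    rw [e, e]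
    exact g.2 (Φ x) (Φ y)
  have hγ : γ * σ γ = 1 := by
    have h1 := hform (Pi.single (.inl (.inl ⟨0, hk⟩)) 1) (Pi.single (.inl (.inr ⟨0, hk⟩)) 1)
    have hcol : A (Pi.single (.inl (.inl ⟨0, hk⟩)) 1) = hv (γ • dv k F 0) 0 0 := by
      funext i
      rw [hentry]
      rcases i with (i | i) | i
      · by_cases hi : (i : ℕ) = 0
        · obtain rfl : i = ⟨0, hk⟩ := Fin.ext hi
          simp [hv, dv, γ, e0]
        · rw [hup _ _ (by rw [ordEquiv_val, ordEquiv_val]; simp only; omega)]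
          simp [hv, dv, hi]
      · rw [hup _ _ (by rw [ordEquiv_val, ordEquiv_val]; have := i.isLt; simp only; omega)]
        simp [hv]
      · rw [hup _ _ (by rw [ordEquiv_val, ordEquiv_val]; simp only; omega)]
        simp [hv]
    rw [hcol, ← hv_eta (A (Pi.single (.inl (.inr ⟨0, hk⟩)) 1)), hA_hv, smul_dotProduct,
      dv_dot _ hk, zero_dotProduct, zero_mul, add_zero, add_zero, smul_eq_mul] at h1
    simp only [Function.comp_apply, hentry, hdiag _ e0] at h1
    have e1 : (Pi.single (.inl (.inl ⟨0, hk⟩)) 1 : Idx k → F) = hv (dv k F 0) 0 0 := by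
      funext i
      rcases i with (i | i) | i <;> simp [hv, dv, Pi.single_apply, Fin.ext_iff]
    have e2 : (Pi.single (.inl (.inr ⟨0, hk⟩)) 1 : Idx k → F) = hv 0 (dv k F 0) 0 := by
      funext i
      rcases i with (i | i) | i <;> simp [hv, dv, Pi.single_apply, Fin.ext_iff]
    rw [e1, e2, hA_hv, dv_dot _ hk, zero_dotProduct, zero_mul, add_zero, add_zero] at h1
    simpa [dv, γ] using h1
  have hγ0 : γ ≠ 0 := fun e => by simp [e] at hγ
  set G₁ : Matrix (Fin n) (Fin n) F := γ⁻¹ • G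
  have hdet1 : G₁.det = 1 := by
    rw [Matrix.det_smul, hdetG, Fintype.card_fin, ← mul_pow, inv_mul_cancel₀ hγ0, one_pow]
  have hmem : (⟨G₁, hdet1⟩ : Matrix.SpecialLinearGroup (Fin n) F) ∈ Cfsg.SU n F q := by
    intro a b
    have e : ∀ a b : Fin n → F, Cfsg.hermForm n F q a b = hm σ a b := fun a b => by
      simp [hm, Cfsg.hermForm, dotProduct, h.apply_eq]
    show Cfsg.hermForm n F q (G₁ *ᵥ a) (G₁ *ᵥ b) = _
    rw [smul_mulVec, smul_mulVec, e, hm_smul_left, hm_smul_right, ← mul_assoc, map_inv₀,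
      ← mul_inv, hγ, inv_one, one_mul, ← e]
    exact g.2 a b
  refine ⟨⟨_, hmem⟩, mul_inv_eq_iff_eq_mul.2 (Subtype.ext (Subtype.ext ?_))⟩
  show G₁ * stdMat Φ (uLin hk c) = stdMat Φ (uLin hk c') * G₁
  rw [Matrix.smul_mul, Matrix.mul_smul, hgeq]

end CfsgLib.RegularGenForms
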