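import Cfsg.Prelude.Def_Classical
import Cfsg.Agent.Lib.Amalgams.UnitaryField

/-!
Root elements in `SU_n(q)`: from a few transvections of one scalar to a full transvection group,
and spreading of transvection centres to all isotropic vectors.
-/

set_option autoImplicit false

open Matrix

namespace CfsgLib.RegularGenForms

open CfsgLib.Amalgams

variable {F : Type*} [Field F] {n q : ℕ}

/-- The natural action of `SU_n(q)` on vectors. -/
def suAct (g : ↥(Cfsg.SU n F q)) (v : Fin n → F) : Fin n → F :=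
  ((g : Matrix.SpecialLinearGroup (Fin n) F) : Matrix (Fin n) (Fin n) F) *ᵥ v

theorem suAct_mul (g g' : ↥(Cfsg.SU n F q)) (v : Fin n → F) :
    suAct (g * g') v = suAct g (suAct g' v) := by
  rw [suAct, suAct, suAct, mulVec_mulVec]
  rfl

theorem suAct_one (v : Fin n → F) : suAct (1 : ↥(Cfsg.SU n F q)) v = v := by
  show (1 : Matrix (Fin n) (Fin n) F) *ᵥ v = v
  exact one_mulVec v

theorem suAct_inv_act (g : ↥(Cfsg.SU n F q)) (v : Fin n → F) : suAct g⁻¹ (suAct g v) = v := by
  rw [← suAct_mul, inv_mul_cancel, suAct_one]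

theorem suAct_act_inv (g : ↥(Cfsg.SU n F q)) (v : Fin n → F) : suAct g (suAct g⁻¹ v) = v := by
  rw [← suAct_mul, mul_inv_cancel, suAct_one]

theorem suAct_add (g : ↥(Cfsg.SU n F q)) (v w : Fin n → F) :
    suAct g (v + w) = suAct g v + suAct g w := mulVec_add _ _ _

theorem suAct_sub (g : ↥(Cfsg.SU n F q)) (v w : Fin n → F) :
    suAct g (v - w) = suAct g v - suAct g w := mulVec_sub _ _ _

theorem suAct_smul (g : ↥(Cfsg.SU n F q)) (a : F) (v : Fin n → F) :
    suAct g (a • v) = a • suAct g v := mulVec_smul _ _ _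

/-- The Hermitian form. -/
def hm (σ : F →+* F) (x y : Fin n → F) : F := x ⬝ᵥ (σ ∘ y)

variable {σ : F →+* F}

theorem hm_add_left (x x' y : Fin n → F) : hm σ (x + x') y = hm σ x y + hm σ x' y :=
  add_dotProduct _ _ _

theorem hm_sub_left (x x' y : Fin n → F) : hm σ (x - x') y = hm σ x y - hm σ x' y :=
  sub_dotProduct _ _ _

theorem hm_smul_left (a : F) (x y : Fin n → F) : hm σ (a • x) y = a * hm σ x y :=
  smul_dotProduct _ _ _

theorem hm_add_right (x y y' : Fin n → F) : hm σ x (y + y') = hm σ x y + hm σ x y' := by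
  simp [hm, dotProduct, mul_add, Finset.sum_add_distrib]

theorem hm_sub_right (x y y' : Fin n → F) : hm σ x (y - y') = hm σ x y - hm σ x y' := by
  simp [hm, dotProduct, mul_sub, Finset.sum_sub_distrib]

theorem hm_smul_right (a : F) (x y : Fin n → F) : hm σ x (a • y) = σ a * hm σ x y := by
  simp [hm, dotProduct, Finset.mul_sum, mul_left_comm]

theorem hm_neg_left (x y : Fin n → F) : hm σ (-x) y = -hm σ x y := neg_dotProduct _ _

theorem hm_neg_right (x y : Fin n → F) : hm σ x (-y) = -hm σ x y := by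
  simp [hm, dotProduct]

theorem hm_zero_right (x : Fin n → F) : hm σ x (0 : Fin n → F) = 0 := by
  simp [hm, dotProduct]

variable [Finite F] (h : UniField F σ q)
include h

theorem hm_symm (x y : Fin n → F) : σ (hm σ x y) = hm σ y x := by
  simp [hm, dotProduct, map_sum, h.conj_conj, mul_comm]

theorem hm_symm_zero {x y : Fin n → F} (hxy : hm σ x y = 0) : hm σ y x = 0 := by
  rw [← hm_symm h, hxy, map_zero]

theorem hm_suAct (g : ↥(Cfsg.SU n F q)) (x y : Fin n → F) :
    hm σ (suAct g x) (suAct g y) = hm σ x y := by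
  have e : ∀ u v : Fin n → F, hm σ u v = Cfsg.hermForm n F q u v := fun u v => by
    simp [hm, Cfsg.hermForm, dotProduct, h.apply_eq]
  rw [e, e]
  exact g.2 x y

variable (K : Subgroup ↥(Cfsg.SU n F q))

omit [Finite F] h in
/-- `K` contains the transvection `v ↦ v + a h(v, z) z`. -/
def HasT (σ : F →+* F) (z : Fin n → F) (a : F) : Prop :=
  ∃ g ∈ K, ∀ v, suAct g v = v + (a * hm σ v z) • z

omit [Finite F] h in
/-- `K` contains the root element `v ↦ v + h(v,y) r - h(v,r) y + τ h(v,r) r`. -/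
def HasM (σ : F →+* F) (r y : Fin n → F) (τ : F) : Prop :=
  hm σ y r = 0 ∧ τ + σ τ + hm σ y y = 0 ∧
    ∃ g ∈ K, ∀ v, suAct g v = v + (hm σ v y) • r - (hm σ v r) • y + (τ * hm σ v r) • r

omit [Finite F] h in
/-- The isotropic vectors all whose transvections lie in `K`. -/
def suCentres (σ : F →+* F) : Set (Fin n → F) :=
  {z | hm σ z z = 0 ∧ ∀ a, σ a = -a → HasT K σ z a}

variable {K}

theorem HasT.conj {z : Fin n → F} {a : F} (hT : HasT K σ z a) {g : ↥(Cfsg.SU n F q)}
    (hg : g ∈ K) : HasT K σ (suAct g z) a := by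
  obtain ⟨t, ht, hv⟩ := hT
  refine ⟨g * t * g⁻¹, K.mul_mem (K.mul_mem hg ht) (K.inv_mem hg), fun v => ?_⟩
  rw [suAct_mul, suAct_mul, hv, suAct_add, suAct_smul, suAct_act_inv]
  have : hm σ (suAct g⁻¹ v) z = hm σ v (suAct g z) := by
    conv_lhs => rw [← suAct_inv_act g z]
    exact hm_suAct h g⁻¹ _ _
  rw [this]

theorem HasT.smul {z : Fin n → F} {a l : F} (hT : HasT K σ z (a * (l * σ l))) :
    HasT K σ (l • z) a := by
  obtain ⟨g, hg, hv⟩ := hT
  refine ⟨g, hg, fun v => ?_⟩
  rw [hv, hm_smul_right, smul_smul]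
  congr 2
  ring

theorem smul_mem_suCentres {z : Fin n → F} (hz : z ∈ suCentres K σ) (l : F) :
    l • z ∈ suCentres K σ := by
  refine ⟨by rw [hm_smul_left, hm_smul_right, hz.1, mul_zero, mul_zero], fun a ha => ?_⟩
  refine HasT.smul h (hz.2 _ ?_)
  rw [map_mul, map_mul, h.conj_conj, ha]; ring

theorem act_mem_suCentres {z : Fin n → F} (hz : z ∈ suCentres K σ) {g : ↥(Cfsg.SU n F q)}
    (hg : g ∈ K) : suAct g z ∈ suCentres K σ :=
  ⟨by rw [hm_suAct h]; exact hz.1, fun a ha => (hz.2 a ha).conj h hg⟩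

theorem tv_mem_suCentres {z x : Fin n → F} (hz : z ∈ suCentres K σ) (hx : x ∈ suCentres K σ)
    {a : F} (ha : σ a = -a) : z + (a * hm σ z x) • x ∈ suCentres K σ := by
  obtain ⟨g, hg, hv⟩ := hx.2 a ha
  rw [← hv]
  exact act_mem_suCentres h hz hg

section root

variable {r : Fin n → F} (hr : hm σ r r = 0)
include hr

theorem HasM.mul {y y' : Fin n → F} {τ τ' : F} (hM : HasM K σ r y τ) (hM' : HasM K σ r y' τ') :
    HasM K σ r (y + y') (τ + τ' - hm σ y' y) := by
  obtain ⟨hy, hc, g, hg, hv⟩ := hM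
  obtain ⟨hy', hc', g', hg', hv'⟩ := hM'
  refine ⟨by rw [hm_add_left, hy, hy', add_zero], ?_, g * g', K.mul_mem hg hg', fun v => ?_⟩
  · rw [map_sub, map_add, hm_symm h, hm_add_left, hm_add_right, hm_add_right]
    linear_combination hc + hc'
  · rw [suAct_mul, hv', hv]
    simp only [hm_add_left, hm_sub_left, hm_smul_left, hm_add_right, hm_smul_right, hr,
      hm_symm_zero h hy, hy']
    module

theorem HasM.inv {y : Fin n → F} {τ : F} (hM : HasM K σ r y τ) :
    HasM K σ r (-y) (-τ - hm σ y y) := by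
  obtain ⟨hy, hc, g, hg, hv⟩ := hM
  refine ⟨by rw [hm_neg_left, hy, neg_zero], ?_, g⁻¹, K.inv_mem hg, fun v => ?_⟩
  · rw [map_sub, map_neg, hm_symm h, hm_neg_left, hm_neg_right, neg_neg]
    linear_combination -hc
  · have : v = suAct g (v + hm σ v (-y) • r - hm σ v r • (-y)
        + ((-τ - hm σ y y) * hm σ v r) • r) := by
      rw [hv]
      simp only [hm_add_left, hm_sub_left, hm_smul_left, hm_neg_left, hm_neg_right, hr, hy,
        hm_symm_zero h hy]
      module
    conv_lhs => rw [this]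
    rw [suAct_inv_act]

omit hr in
theorem HasM.conj {y : Fin n → F} {τ : F} (hM : HasM K σ r y τ) {g : ↥(Cfsg.SU n F q)}
    (hg : g ∈ K) (hgr : suAct g r = r) : HasM K σ r (suAct g y) τ := by
  obtain ⟨hy, hc, t, ht, hv⟩ := hM
  have e : ∀ v z, hm σ (suAct g⁻¹ v) z = hm σ v (suAct g z) := fun v z => by
    conv_lhs => rw [← suAct_inv_act g z]
    exact hm_suAct h g⁻¹ _ _
  refine ⟨?_, by rw [hm_suAct h]; exact hc, g * t * g⁻¹,
    K.mul_mem (K.mul_mem hg ht) (K.inv_mem hg), fun v => ?_⟩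
  · conv_lhs => rw [← hgr]
    rw [hm_suAct h]; exact hy
  · rw [suAct_mul, suAct_mul, hv, suAct_add, suAct_sub, suAct_add, suAct_smul, suAct_smul,
      suAct_smul, suAct_act_inv, e, e, hgr]

theorem HasM.shift {y : Fin n → F} {μ τ : F} (hy : hm σ y r = 0)
    (hM : HasM K σ r (y + μ • r) τ) : HasM K σ r y (τ + σ μ - μ) := by
  obtain ⟨-, hc, g, hg, hv⟩ := hM
  refine ⟨hy, ?_, g, hg, fun v => ?_⟩
  · simp only [hm_add_left, hm_add_right, hm_smul_left, hm_smul_right, hr, hy,
      hm_symm_zero h hy] at hc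
    rw [map_sub, map_add, h.conj_conj]
    linear_combination hc
  · rw [hv, hm_add_right, hm_smul_right]
    module

omit hr in
theorem HasM.hasT {τ : F} (hM : HasM K σ r 0 τ) : HasT K σ r τ := by
  obtain ⟨-, -, g, hg, hv⟩ := hM
  refine ⟨g, hg, fun v => ?_⟩
  rw [hv, hm_zero_right, zero_smul, smul_zero, add_zero, sub_zero]

omit hr in
theorem HasT.hasM {τ : F} (hτ : σ τ = -τ) (hT : HasT K σ r τ) : HasM K σ r 0 τ := by
  obtain ⟨g, hg, hv⟩ := hT
  refine ⟨by simp [hm], by rw [hm_zero_right, hτ]; ring, g, hg, fun v => ?_⟩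
  rw [hv, hm_zero_right, zero_smul, smul_zero, add_zero, sub_zero]

theorem hasM_of_shift {z : Fin n → F} (hzr : hm σ z r = 0) (hz : hm σ z z = 0) {a β : F}
    (ha : σ a = -a) (h1 : HasT K σ z a) (h2 : HasT K σ (z + β • r) a) :
    HasM K σ r ((-(a * σ β)) • z) (a * β * σ β) := by
  obtain ⟨g₁, hg₁, hv₁⟩ := h1
  obtain ⟨g₂, hg₂, hv₂⟩ := h2
  refine ⟨by rw [hm_smul_left, hzr, mul_zero], ?_, g₂ * g₁⁻¹,
    K.mul_mem hg₂ (K.inv_mem hg₁), fun v => ?_⟩
  · rw [map_mul, map_mul, ha, h.conj_conj, hm_smul_left, hm_smul_right, hz]; ring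
  · have e : suAct g₁⁻¹ v = v - (a * hm σ v z) • z := by
      have : v = suAct g₁ (v - (a * hm σ v z) • z) := by
        rw [hv₁, hm_sub_left, hm_smul_left, hz]
        module
      conv_lhs => rw [this]
      rw [suAct_inv_act]
    rw [suAct_mul, e, hv₂]
    simp only [hm_sub_left, hm_smul_left, hm_add_right, hm_smul_right, hz, hzr, map_neg, map_mul,
      ha, h.conj_conj]
    module

theorem HasM.move_hasT {y : Fin n → F} {τ : F} (hM : HasM K σ r y τ) {z : Fin n → F} {a : F}
    (hzr : hm σ z r = 0) (hT : HasT K σ z a) : HasT K σ (z + hm σ z y • r) a := by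
  obtain ⟨-, -, g, hg, hv⟩ := hM
  have := hT.conj h hg
  rwa [hv, hzr, zero_smul, sub_zero, mul_zero, zero_smul, add_zero] at this

omit hr in
/-- The vectors `y` with a root element `M(y, τ)` in `K`. -/
def rootVecs (hr : hm σ r r = 0) (h1 : HasM K σ r 0 0) : AddSubgroup (Fin n → F) where
  carrier := {y | ∃ τ, HasM K σ r y τ}
  add_mem' := fun {y y'} ⟨τ, hM⟩ ⟨τ', hM'⟩ => ⟨_, hM.mul h hr hM'⟩
  zero_mem' := ⟨0, h1⟩
  neg_mem' := fun {y} ⟨τ, hM⟩ => ⟨_, hM.inv h hr⟩

omit hr in
theorem hasM_zero : HasM K σ r 0 0 :=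
  ⟨by simp [hm], by simp [hm], 1, K.one_mem, fun v => by simp [suAct_one, hm_zero_right]⟩

omit hr in
/-- All multiples of `y` give root elements. -/
def FullLine (K : Subgroup ↥(Cfsg.SU n F q)) (σ : F →+* F) (r y : Fin n → F) : Prop :=
  ∀ c : F, ∃ τ, HasM K σ r (c • y) τ

theorem tv_rootVec {y z : Fin n → F} {a : F} (hy : ∃ τ, HasM K σ r y τ) (hT : HasT K σ z a)
    (hzr : hm σ z r = 0) : ∃ τ, HasM K σ r ((a * hm σ y z) • z) τ := by
  obtain ⟨g, hg, hv⟩ := hT
  obtain ⟨τ, hM⟩ := hy
  have hgr : suAct g r = r := by rw [hv, hm_symm_zero h hzr, mul_zero, zero_smul, add_zero]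
  have := (hM.conj h hg hgr).mul h hr (hM.inv h hr)
  rw [hv] at this
  rw [show y + (a * hm σ y z) • z + -y = (a * hm σ y z) • z by abel] at this
  exact ⟨_, this⟩

theorem add_rootVec {y y' : Fin n → F} (hy : ∃ τ, HasM K σ r y τ) (hy' : ∃ τ, HasM K σ r y' τ) :
    ∃ τ, HasM K σ r (y + y') τ := by
  obtain ⟨τ, hM⟩ := hy
  obtain ⟨τ', hM'⟩ := hy'
  exact ⟨_, hM.mul h hr hM'⟩

theorem fullLine_of_two {z : Fin n → F} {c₁ c₂ : F} (hD : c₁ * σ c₂ - σ c₁ * c₂ ≠ 0)
    (h₁ : ∀ t, σ t = t → ∃ τ, HasM K σ r ((t * c₁) • z) τ)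
    (h₂ : ∀ t, σ t = t → ∃ τ, HasM K σ r ((t * c₂) • z) τ) : FullLine K σ r z := by
  intro c
  set D := c₁ * σ c₂ - σ c₁ * c₂ with hDdef
  have hσD : σ D = -D := by
    rw [hDdef, map_sub, map_mul, map_mul, h.conj_conj, h.conj_conj]; ring
  have e1 : σ ((c * σ c₂ - σ c * c₂) / D) = (c * σ c₂ - σ c * c₂) / D := by
    rw [map_div₀, hσD, map_sub, map_mul, map_mul, h.conj_conj, h.conj_conj, div_neg, ← neg_div]
    congr 1
    ring
  have e2 : σ ((σ c * c₁ - c * σ c₁) / D) = (σ c * c₁ - c * σ c₁) / D := by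
    rw [map_div₀, hσD, map_sub, map_mul, map_mul, h.conj_conj, h.conj_conj, div_neg, ← neg_div]
    congr 1
    ring
  have := add_rootVec h hr (h₁ _ e1) (h₂ _ e2)
  rw [← add_smul] at this
  convert this using 5
  field_simp
  rw [hDdef]
  ring

theorem fullLine_tv {y z : Fin n → F} (hy : FullLine K σ r y) {a : F} (ha : a ≠ 0)
    (hT : HasT K σ z a) (hzr : hm σ z r = 0) (hyz : hm σ y z ≠ 0) : FullLine K σ r z := by
  intro c
  have := tv_rootVec h hr (hy (c / (a * hm σ y z))) hT hzr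
  rw [hm_smul_left, mul_comm _ (hm σ y z), ← mul_assoc, mul_div_cancel₀ _ (mul_ne_zero ha hyz)]
    at this
  exact this

theorem hasT_of_lines {y x : Fin n → F} (hy : FullLine K σ r y) (hx : FullLine K σ r x)
    (hyx : hm σ y x ≠ 0) {τ : F} (hτ : σ τ = -τ) : HasT K σ r τ := by
  obtain ⟨ζ, hζ⟩ := h.exists_not_fix
  have hζ' : ζ - σ ζ ≠ 0 := sub_ne_zero.2 fun e => hζ e.symm
  set w := τ / (ζ - σ ζ) * ζ with hw
  have hσw : w - σ w = τ := by
    rw [hw, map_mul, map_div₀, map_sub, hτ, h.conj_conj, ← neg_sub ζ (σ ζ), neg_div_neg_eq,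
      ← mul_sub, div_mul_cancel₀ _ hζ']
  obtain ⟨τ₁, h₁⟩ := hy (w / hm σ y x)
  obtain ⟨τ₂, h₂⟩ := hx 1
  have h12 := h₁.mul h hr h₂
  have h21 := h₂.mul h hr h₁
  have := h12.mul h hr (h21.inv h hr)
  rw [add_comm ((1 : F) • x) ((w / hm σ y x) • y), add_neg_cancel] at this
  have h3 := this.hasT h
  convert h3 using 1
  simp only [hm_add_left, hm_add_right, hm_neg_left, hm_smul_left, hm_smul_right, map_div₀,
    map_one, hm_symm h]
  rw [← hm_symm h y x]
  have hne : σ (hm σ y x) ≠ 0 := by simpa using hyx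
  field_simp
  linear_combination -(σ (hm σ y x) * hm σ y x) * hσw

theorem hasM_exact {y : Fin n → F} (hy : ∃ τ, HasM K σ r y τ) (hrc : r ∈ suCentres K σ) {τ : F}
    (hτ : τ + σ τ + hm σ y y = 0) : HasM K σ r y τ := by
  obtain ⟨τ', hM⟩ := hy
  have hsk : σ (τ - τ') = -(τ - τ') := by
    rw [map_sub]; linear_combination hτ - hM.2.1
  have := hM.mul h hr ((hrc.2 _ hsk).hasM h hsk)
  rw [add_zero, show hm σ (0 : Fin n → F) y = 0 by simp [hm], sub_zero, add_sub_cancel] at this
  exact this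

end root

section seeds

variable {r p x z₃ : Fin n → F} {a C μ : F}

/-- From four transvections of one scalar to the whole transvection group at `r`. -/
theorem lines_of_seeds (hr : hm σ r r = 0) (hp : hm σ p p = 0) (hx : hm σ x x = 0)
    (hz : hm σ z₃ z₃ = 0) (hpr : hm σ p r = 0) (hxr : hm σ x r = 0) (hzr : hm σ z₃ r = 0)
    (hpx : hm σ p x = C) (hzp : hm σ z₃ p = σ C) (hC : C ≠ 0)
    (hzx : hm σ z₃ x + σ (hm σ z₃ x) ≠ 0) (ha : σ a = -a) (ha0 : a ≠ 0)
    (h1 : HasT K σ p a) (h2 : HasT K σ (p + r) a) (h3 : HasT K σ x a)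
    (h4 : HasT K σ (z₃ + μ • r) a)
    (hgen : ∀ R : Subring F, a * a * (C * σ C) ∈ R → ∀ t, σ t = t → t ∈ R) :
    FullLine K σ r p ∧ FullLine K σ r x := by
  let Y := rootVecs h hr (hasM_zero h (K := K) (r := r))
  let L : AddSubgroup F :=
    { carrier := {l | (l * a) • p ∈ Y}
      add_mem' := fun {l l'} hl hl' => by
        simp only [Set.mem_ofPred_eq, add_mul, add_smul] at *
        exact Y.add_mem hl hl'
      zero_mem' := by simp [Y.zero_mem]
      neg_mem' := fun {l} hl => by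
        simp only [Set.mem_ofPred_eq, neg_mul, neg_smul] at *
        exact Y.neg_mem hl }
  let R : Subring F :=
    { carrier := {t | ∀ l ∈ L, t * l ∈ L}
      mul_mem' := fun {r s} hr hs x hx => by rw [mul_assoc]; exact hr _ (hs _ hx)
      one_mem' := fun x hx => by rwa [one_mul]
      add_mem' := fun {r s} hr hs x hx => by rw [add_mul]; exact L.add_mem (hr _ hx) (hs _ hx)
      zero_mem' := fun x _ => by rw [zero_mul]; exact L.zero_mem
      neg_mem' := fun {r} hr x hx => by rw [neg_mul]; exact L.neg_mem (hr _ hx) }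
  have hone : (1 : F) ∈ L := by
    have := (hasM_of_shift h hr hpr hp (β := 1) ha h1 (by rwa [one_smul])).inv h hr
    rw [map_one, mul_one, neg_smul, neg_neg] at this
    show ((1 : F) * a) • p ∈ Y
    rw [one_mul]
    exact ⟨_, this⟩
  have hxt : ∀ l ∈ L, (l * (a * a * C)) • x ∈ Y := by
    intro l hl
    have := tv_rootVec h hr hl h3 hxr
    rw [hm_smul_left, hpx, show a * (l * a * C) = l * (a * a * C) by ring] at this
    exact this
  have hk : a * a * (C * σ C) ∈ R := by
    intro l hl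
    have := tv_rootVec h hr (hxt l hl) h1 hpr
    rw [hm_smul_left, ← hm_symm h p x, hpx,
      show a * (l * (a * a * C) * σ C) = a * a * (C * σ C) * l * a by ring] at this
    exact this
  have hreal : ∀ t, σ t = t → t ∈ L := fun t ht => by
    simpa using hgen R hk t ht 1 hone
  have hzY : ∀ t, σ t = t → ∃ τ, HasM K σ r ((t * C) • z₃) τ := by
    intro t ht
    set s := t / (a * a) with hs
    have hss : σ s = s := by rw [hs, map_div₀, map_mul, ha, ht, neg_mul_neg]
    obtain ⟨τ, hM⟩ := hreal s hss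
    have hzr' : hm σ (z₃ + μ • r) r = 0 := by
      rw [hm_add_left, hm_smul_left, hzr, hr, mul_zero, add_zero]
    have hzz' : hm σ (z₃ + μ • r) (z₃ + μ • r) = 0 := by
      simp only [hm_add_left, hm_add_right, hm_smul_left, hm_smul_right, hz, hzr, hr,
        hm_symm_zero h hzr]
      ring
    have h5 := hM.move_hasT h hr hzr' h4
    have hδ : hm σ (z₃ + μ • r) ((s * a) • p) = -(s * a * σ C) := by
      rw [hm_smul_right, map_mul, ha, hss, hm_add_left, hm_smul_left, hzp,
        show hm σ r p = 0 from hm_symm_zero h hpr]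
      ring
    rw [hδ] at h5
    have h6 := hasM_of_shift h hr hzr' hzz' ha h4 h5
    rw [smul_add, smul_smul] at h6
    have h7 := (HasM.shift h hr (by rw [hm_smul_left, hzr, mul_zero]) h6).inv h hr
    have e : -((-(a * σ (-(s * a * σ C)))) • z₃) = (t * C) • z₃ := by
      rw [← neg_smul, map_neg, map_mul, map_mul, h.conj_conj, hss, ha]
      congr 1
      rw [hs]
      field_simp
    rw [e] at h7
    exact ⟨_, h7⟩
  have hxline : ∀ t, σ t = t → ∃ τ, HasM K σ r ((t * C) • x) τ := by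
    intro t ht
    have hss : σ (t / (a * a)) = t / (a * a) := by rw [map_div₀, map_mul, ha, ht, neg_mul_neg]
    have := hxt _ (hreal _ hss)
    rw [show t / (a * a) * (a * a * C) = t * C by field_simp] at this
    exact this
  have hFx : FullLine K σ r x := by
    refine fullLine_of_two h hr (c₁ := C) (c₂ := a * (C * hm σ z₃ x)) ?_ hxline ?_
    · rw [map_mul, map_mul, ha]
      intro e
      refine hzx ?_
      have hsC : σ C ≠ 0 := by simpa using hC
      refine mul_left_cancel₀ (mul_ne_zero (mul_ne_zero ha0 hC) hsC) ?_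
      linear_combination -e
    · intro t ht
      have := tv_rootVec h hr (hzY t ht) h3 hxr
      rw [hm_smul_left, show a * (t * C * hm σ z₃ x) = t * (a * (C * hm σ z₃ x)) by ring] at this
      exact this
  refine ⟨fullLine_tv h hr hFx ha0 h1 hpr ?_, hFx⟩
  rw [← hm_symm h p x, hpx]
  simpa using hC

end seeds

section spread

/-- The isotropic vectors of a non-degenerate three-space. -/
theorem three_mem_suCentres {e f g : Fin n → F} (he : e ∈ suCentres K σ)
    (hf : f ∈ suCentres K σ) (hef : hm σ e f = 1) (heg : hm σ e g = 0) (hfg : hm σ f g = 0)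
    (hgg : hm σ g g ≠ 0) {α₀ β₀ γ₀ : F} (hz₀ : α₀ • e + β₀ • f + γ₀ • g ∈ suCentres K σ)
    (hγ₀ : γ₀ ≠ 0) {α β γ : F}
    (hiso : hm σ (α • e + β • f + γ • g) (α • e + β • f + γ • g) = 0) :
    α • e + β • f + γ • g ∈ suCentres K σ := by
  have hfe : hm σ f e = 1 := by rw [← hm_symm h, hef, map_one]
  have hge := hm_symm_zero h heg
  have hgf := hm_symm_zero h hfg
  have hN : ∀ a b c : F, hm σ (a • e + b • f + c • g) (a • e + b • f + c • g) =
      a * σ b + b * σ a + c * σ c * hm σ g g := by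
    intro a b c
    simp only [hm_add_left, hm_add_right, hm_smul_left, hm_smul_right, he.1, hf.1, hef, hfe, heg,
      hfg, hge, hgf]
    ring
  have moveE : ∀ a b c s : F, σ s = -s → a • e + b • f + c • g ∈ suCentres K σ →
      (a + s * b) • e + b • f + c • g ∈ suCentres K σ := by
    intro a b c s hs hz
    have := tv_mem_suCentres h hz he hs
    convert this using 1
    simp only [hm_add_left, hm_smul_left, he.1, hfe, hge]
    module
  have moveF : ∀ a b c s : F, σ s = -s → a • e + b • f + c • g ∈ suCentres K σ →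
      a • e + (b + s * a) • f + c • g ∈ suCentres K σ := by
    intro a b c s hs hz
    have := tv_mem_suCentres h hz hf hs
    convert this using 1
    simp only [hm_add_left, hm_smul_left, hf.1, hef, hgf]
    module
  -- normalisation of the middle coordinate, with the moves reversible
  have key : ∀ a b c : F, c ≠ 0 → a * σ b + b * σ a + c * σ c * hm σ g g = 0 →
      ∃ a' : F, a' + σ a' + c * σ c * hm σ g g = 0 ∧
        (a • e + b • f + c • g ∈ suCentres K σ ↔ a' • e + (1 : F) • f + c • g ∈ suCentres K σ) := by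
    intro a b c hc hab
    have iE : ∀ a b s : F, σ s = -s → (a • e + b • f + c • g ∈ suCentres K σ ↔
        (a + s * b) • e + b • f + c • g ∈ suCentres K σ) := by
      intro a b s hs
      refine ⟨moveE a b c s hs, fun hz => ?_⟩
      have := moveE _ b c (-s) (by rw [map_neg, hs]) hz
      rwa [show a + s * b + -s * b = a by ring] at this
    have iF : ∀ a b s : F, σ s = -s → (a • e + b • f + c • g ∈ suCentres K σ ↔
        a • e + (b + s * a) • f + c • g ∈ suCentres K σ) := by
      intro a b s hs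
      refine ⟨moveF a b c s hs, fun hz => ?_⟩
      have := moveF a _ c (-s) (by rw [map_neg, hs]) hz
      rwa [show b + s * a + -s * a = b by ring] at this
    set N := c * σ c * hm σ g g
    have hN0 : N ≠ 0 := mul_ne_zero (mul_ne_zero hc (by simpa using hc)) hgg
    have hσN : σ N = N := by
      simp only [N, map_mul, h.conj_conj, hm_symm h]; ring
    have main : ∀ a b : F, σ b ≠ b → a * σ b + b * σ a + N = 0 →
        ∃ a' : F, a' + σ a' + N = 0 ∧ (a • e + b • f + c • g ∈ suCentres K σ ↔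
          a' • e + (1 : F) • f + c • g ∈ suCentres K σ) := by
      intro a b hb hab
      have hb' : b - σ b ≠ 0 := sub_ne_zero.2 fun e => hb e.symm
      set s := -(N + a + σ a) / (b - σ b) with hs
      have hsk : σ s = -s := by
        rw [hs, map_div₀, map_neg, map_add, map_add, h.conj_conj, map_sub, h.conj_conj, hσN,
          ← neg_sub b (σ b), div_neg]
        congr 2
        ring
      set a₁ := a + s * b with ha₁
      have ha₁N : a₁ + σ a₁ + N = 0 := by
        rw [ha₁, map_add, map_mul, hsk, hs]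
        field_simp
        ring
      have ha₁0 : a₁ ≠ 0 := fun e => hN0 (by rw [e, map_zero, zero_add, zero_add] at ha₁N; exact ha₁N)
      have hab₁ : a₁ * σ b + b * σ a₁ + N = 0 := by
        rw [ha₁, map_add, map_mul, hsk]
        linear_combination hab
      have ht : σ ((1 - b) / a₁) = -((1 - b) / a₁) := by
        have hσa₁ : σ a₁ ≠ 0 := by simpa using ha₁0
        rw [map_div₀, map_sub, map_one]
        field_simp
        linear_combination ha₁N - hab₁
      refine ⟨a₁, ha₁N, (iE a b s hsk).trans ((iF a₁ b _ ht).trans ?_)⟩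
      rw [div_mul_cancel₀ _ ha₁0, add_sub_cancel]
    by_cases hb : σ b = b
    · obtain ⟨ε, hε0, hε⟩ := h.exists_skew
      have hb2 : σ (b + ε * a) ≠ b + ε * a := by
        rw [map_add, map_mul, hb, hε]
        intro e'
        have : a + σ a = 0 := mul_left_cancel₀ hε0 (by linear_combination -e')
        exact hN0 (by rw [hb] at hab; linear_combination hab - b * this)
      obtain ⟨a', ha', hiff⟩ := main a (b + ε * a) hb2 (by
        rw [map_add, map_mul, hε]; linear_combination hab)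
      exact ⟨a', ha', (iF a b ε hε).trans hiff⟩
    · exact main a b hb hab
  have hz0' := hN α₀ β₀ γ₀
  rw [hz₀.1] at hz0'
  rw [hN] at hiso
  by_cases hγ : γ = 0
  · subst hγ
    rw [zero_smul, add_zero]
    by_cases hβ : β = 0
    · subst hβ; rw [zero_smul, add_zero]; exact smul_mem_suCentres h he α
    have hsk : σ (α / β) = -(α / β) := by
      have hσβ : σ β ≠ 0 := by simpa using hβ
      rw [map_div₀]
      field_simp
      linear_combination hiso
    have := smul_mem_suCentres h (tv_mem_suCentres h hf he hsk) β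
    rw [hfe, mul_one, smul_add, smul_smul, mul_div_cancel₀ _ hβ] at this
    rwa [add_comm]
  · obtain ⟨a₁, ha₁, hiff₁⟩ := key α β γ hγ hiso
    have hγγ : γ₀ ≠ 0 := hγ₀
    set l := γ / γ₀ with hl
    have hz₁ : (l * α₀) • e + (l * β₀) • f + γ • g ∈ suCentres K σ := by
      have := smul_mem_suCentres h hz₀ l
      rwa [smul_add, smul_add, smul_smul, smul_smul, smul_smul, hl, div_mul_cancel₀ _ hγ₀] at this
    have hzn := hz₁.1
    rw [hN] at hzn
    obtain ⟨a₂, ha₂, hiff₂⟩ := key _ _ γ hγ hzn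
    refine hiff₁.2 ?_
    have := moveE a₂ 1 γ (a₁ - a₂) (by rw [map_sub]; linear_combination ha₁ - ha₂) (hiff₂.1 hz₁)
    rwa [mul_one, add_sub_cancel] at this

variable {W : Submodule F (Fin n → F)} {e f w d d' : Fin n → F}

/-- Lines for the new vector: from one translate. -/
theorem lines_of_translate (hW : ∀ z ∈ W, hm σ z z = 0 → z ∈ suCentres K σ)
    (heW : ∀ z ∈ W, hm σ z e = 0) (he : hm σ e e = 0) (hw : w ∈ W) (hww : hm σ w w = 0)
    (hd : d ∈ W) (hdd : hm σ d d = 0) (hd' : d' ∈ W) (hdd' : hm σ d' d' = 0)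
    (hwd : hm σ w d = 1) (hwd' : hm σ w d' = 1)
    (htri : hm σ d d' + σ (hm σ d d') ≠ 0) (hz : w + e ∈ suCentres K σ) :
    e ∈ suCentres K σ ∧ FullLine K σ e w ∧ FullLine K σ e d ∧ FullLine K σ e d' ∧
      ∀ y ∈ W, hm σ y y = 0 → hm σ y d = 0 → hm σ y w = 0 → FullLine K σ e y := by
  obtain ⟨ε, hε0, hε⟩ := h.exists_skew
  have hwe := heW w hw
  have hYw : ∀ a, σ a = -a → ∃ τ, HasM K σ e (a • w) τ := by
    intro a ha
    have hna : σ (-a) = -(-a) := by rw [map_neg, ha]
    have := hasM_of_shift h he hwe hww (β := 1) hna ((hW w hw hww).2 _ hna)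
      (by rw [one_smul]; exact hz.2 _ hna)
    rw [map_one, mul_one, neg_neg] at this
    exact ⟨_, this⟩
  have hTd := (hW d hd hdd).2 ε hε
  have hTd' := (hW d' hd' hdd').2 ε hε
  have hTw := (hW w hw hww).2 ε hε
  have hεi : σ (ε⁻¹) = -ε⁻¹ := by rw [map_inv₀, hε, inv_neg]
  have hYd : ∀ t, σ t = t → ∃ τ, HasM K σ e (t • d) τ := by
    intro t ht
    have := tv_rootVec h he (hYw (t * ε⁻¹) (by rw [map_mul, ht, hεi]; ring)) hTd (heW d hd)
    rw [hm_smul_left, hwd, mul_one, mul_comm, inv_mul_cancel_right₀ hε0] at this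
    exact this
  have hFd' : FullLine K σ e d' := by
    refine fullLine_of_two h he (c₁ := 1) (c₂ := ε * hm σ d d') ?_ ?_ ?_
    · rw [map_one, map_mul, hε]
      intro e'
      exact htri (mul_left_cancel₀ hε0 (by linear_combination -e'))
    · intro t ht
      have := tv_rootVec h he (hYw (t * ε⁻¹) (by rw [map_mul, ht, hεi]; ring)) hTd' (heW d' hd')
      rw [hm_smul_left, hwd', mul_one, mul_comm, inv_mul_cancel_right₀ hε0] at this
      rwa [mul_one]
    · intro t ht
      have := tv_rootVec h he (hYd t ht) hTd' (heW d' hd')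
      rw [hm_smul_left, show ε * (t * hm σ d d') = t * (ε * hm σ d d') by ring] at this
      exact this
  have hFd : FullLine K σ e d := by
    refine fullLine_tv h he hFd' hε0 hTd (heW d hd) ?_
    intro e'
    exact htri (by rw [← hm_symm h d' d, e']; simp)
  have hFw : FullLine K σ e w := by
    refine fullLine_tv h he hFd hε0 hTw hwe ?_
    rw [← hm_symm h w d, hwd, map_one]; exact one_ne_zero
  refine ⟨⟨he, fun a ha => hasT_of_lines h he hFw hFd (by rw [hwd]; exact one_ne_zero) ha⟩, hFw,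
    hFd, hFd', fun y hy hyy hyd hyw c => ?_⟩
  have hdy : hm σ (d + y) (d + y) = 0 := by
    simp only [hm_add_left, hm_add_right, hdd, hyy, hyd, hm_symm_zero h hyd]
    ring
  have hF := fullLine_tv h he hFw hε0 ((hW _ (W.add_mem hd hy) hdy).2 ε hε)
    (heW _ (W.add_mem hd hy)) (by
      rw [hm_add_right, hwd, show hm σ w y = 0 from hm_symm_zero h hyw, add_zero]
      exact one_ne_zero)
  have := add_rootVec h he (hF c) (hFd (-c))
  rwa [smul_add, add_right_comm, ← add_smul, add_neg_cancel, zero_smul, zero_add] at this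

/-- Adding a hyperbolic pair. -/
theorem sum_mem_suCentres (hW : ∀ z ∈ W, hm σ z z = 0 → z ∈ suCentres K σ)
    (hnd : ∀ z ∈ W, z ≠ 0 → ∃ y ∈ W, hm σ z y ≠ 0)
    (heW : ∀ z ∈ W, hm σ z e = 0) (hfW : ∀ z ∈ W, hm σ z f = 0) (hef : hm σ e f = 1)
    (hec : e ∈ suCentres K σ) (hfc : f ∈ suCentres K σ)
    (hY : ∀ y ∈ W, ∃ τ, HasM K σ e y τ) {w₀ : Fin n → F} (hw₀ : w₀ ∈ W) (α β : F)
    (hiso : hm σ (w₀ + α • e + β • f) (w₀ + α • e + β • f) = 0) :
    w₀ + α • e + β • f ∈ suCentres K σ := by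
  have hfe : hm σ f e = 1 := by rw [← hm_symm h, hef, map_one]
  simp only [hm_add_left, hm_add_right, hm_smul_left, hm_smul_right, hec.1, hfc.1, hef, hfe,
    heW _ hw₀, hfW _ hw₀, hm_symm_zero h (heW _ hw₀), hm_symm_zero h (hfW _ hw₀)] at hiso
  rcases eq_or_ne β 0 with rfl | hβ
  · rw [zero_smul, add_zero]
    rcases eq_or_ne w₀ 0 with rfl | hw0
    · rw [zero_add]; exact smul_mem_suCentres h hec α
    have hw00 : hm σ w₀ w₀ = 0 := by simpa using hiso
    obtain ⟨y, hy, hne⟩ := hnd w₀ hw₀ hw0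
    obtain ⟨τ, hM⟩ := hY (σ (α / hm σ w₀ y) • y) (W.smul_mem _ hy)
    obtain ⟨-, -, g, hg, hv⟩ := hM
    have := act_mem_suCentres h (hW w₀ hw₀ hw00) hg
    rw [hv, hm_smul_right, h.conj_conj, div_mul_cancel₀ _ hne, heW _ hw₀, zero_smul, sub_zero,
      mul_zero, zero_smul, add_zero] at this
    exact this
  · set y := (-β⁻¹) • w₀ with hy
    have hτ : α / β + σ (α / β) + hm σ y y = 0 := by
      have hσβ : σ β ≠ 0 := by simpa using hβ
      rw [hy, hm_smul_left, hm_smul_right, map_neg, map_inv₀, map_div₀]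
      field_simp
      linear_combination hiso
    have hM := hasM_exact h hec.1 (hY y (W.smul_mem _ hw₀)) hec hτ
    obtain ⟨-, -, g, hg, hv⟩ := hM
    have := smul_mem_suCentres h (act_mem_suCentres h hfc hg) β
    rw [hv, hfe, hy, hm_smul_right, hm_symm_zero h (hfW _ hw₀), mul_zero, zero_smul, add_zero,
      one_smul, mul_one, smul_add, smul_sub, smul_smul, smul_smul, mul_div_cancel₀ _ hβ,
      mul_neg, mul_inv_cancel₀ hβ, neg_one_smul] at this
    convert this using 1
    abel

end spread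

end CfsgLib.RegularGenForms
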