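import Cfsg.Agent.Lib.RegularGenForms.SuConj
import Cfsg.Agent.S0780

/-!
`SU_n(q)`, `n ≥ 5` odd, is generated by three conjugate regular unipotent elements.
-/

set_option autoImplicit false

open Matrix

namespace CfsgLib.RegularGenForms

open CfsgLib.Amalgams CfsgLib.InvCentralizers

universe u

variable {F : Type u} [Field F] {k n q : ℕ}

/-- First half basis vector of the model. -/
def eV (k : ℕ) (F : Type u) [Field F] (i : ℕ) : Idx k → F := hv (dv k F i) 0 0

/-- Second half basis vector of the model. -/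
def fV (k : ℕ) (F : Type u) [Field F] (i : ℕ) : Idx k → F := hv 0 (dv k F i) 0

/-- Middle basis vector of the model. -/
def gV (k : ℕ) (F : Type u) [Field F] : Idx k → F := hv 0 0 1

/-- The opposite regular unipotent of the model. -/
noncomputable def vLin (hk : 0 < k) (c : F) : (Idx k → F) →ₗ[F] (Idx k → F) :=
  swapLin k F ∘ₗ uLin hk c ∘ₗ swapLin k F

theorem vLin_hv (hk : 0 < k) (c : F) (a b : Fin k → F) (γ : F) :
    vLin hk c (hv a b γ) = hv ((RegularGen.Ui k F)ᵀ *ᵥ a)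
      (RegularGen.U k F *ᵥ b + (γ + c * lastCoord hk a) • dv k F (k - 1))
      (γ - lastCoord hk a) := rfl

theorem lastCoord_zero (hk : 0 < k) : lastCoord hk (0 : Fin k → F) = 0 := by
  simp [lastCoord]

theorem lastCoord_last (hk : 0 < k) : lastCoord hk (dv k F (k - 1)) = 1 := by
  simp [lastCoord, UiT_mulVec_dv_last, dv]

theorem lastCoord_prev (hk : 0 < k) (h2 : 2 ≤ k) : lastCoord hk (dv k F (k - 2)) = -1 := by
  simp [lastCoord, UiT_mulVec_dv_prev h2, dv, show k - 1 ≠ k - 2 by omega]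

theorem uLin_eV_succ (hk : 0 < k) (c : F) {j : ℕ} (hj : j + 1 < k) :
    uLin hk c (eV k F (j + 1)) = eV k F (j + 1) + eV k F j := by
  rw [eV, uLin_hv, lastCoord_zero, U_mulVec_dv_succ hj, eV, hv_add]
  simp

theorem vLin_fV_succ (hk : 0 < k) (c : F) {j : ℕ} (hj : j + 1 < k) :
    vLin hk c (fV k F (j + 1)) = fV k F (j + 1) + fV k F j := by
  rw [fV, vLin_hv, lastCoord_zero, U_mulVec_dv_succ hj, fV, hv_add]
  simp

theorem hA_hv_dv_left (σ : F →+* F) (a b : Fin k → F) (γ : F) {i : ℕ} (hi : i < k) :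
    hA σ (hv a b γ) (eV k F i) = b ⟨i, hi⟩ := by
  rw [eV, hA_hv, comp_dv, dot_dv _ hi]
  simp [dotProduct]

theorem hA_hv_dv_right (σ : F →+* F) (a b : Fin k → F) (γ : F) {i : ℕ} (hi : i < k) :
    hA σ (hv a b γ) (fV k F i) = a ⟨i, hi⟩ := by
  rw [fV, hA_hv, comp_dv, dot_dv _ hi]
  simp [dotProduct]

theorem hA_eV_eV (σ : F →+* F) (i : ℕ) {l : ℕ} (hl : l < k) :
    hA σ (eV k F i) (eV k F l) = 0 :=
  hA_hv_dv_left σ (dv k F i) 0 0 hl

theorem hA_fV_fV (σ : F →+* F) (i : ℕ) {l : ℕ} (hl : l < k) :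
    hA σ (fV k F i) (fV k F l) = 0 :=
  hA_hv_dv_right σ 0 (dv k F i) 0 hl

theorem hA_eV_fV (σ : F →+* F) (i : ℕ) {l : ℕ} (hl : l < k) :
    hA σ (eV k F i) (fV k F l) = if l = i then 1 else 0 :=
  hA_hv_dv_right σ (dv k F i) 0 0 hl

theorem hA_fV_eV (σ : F →+* F) (i : ℕ) {l : ℕ} (hl : l < k) :
    hA σ (fV k F i) (eV k F l) = if l = i then 1 else 0 :=
  hA_hv_dv_left σ 0 (dv k F i) 0 hl

/-- The vectors supported on the coordinates from `j` on. -/
def suTail (k : ℕ) (F : Type u) [Field F] (j : ℕ) : Submodule F (Idx k → F) where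
  carrier := {z | ∀ i : Fin k, (i : ℕ) < j → z (.inl (.inl i)) = 0 ∧ z (.inl (.inr i)) = 0}
  add_mem' {a b} ha hb i hi := by simp [ha i hi, hb i hi]
  zero_mem' i _ := by simp
  smul_mem' c x hx i hi := by simp [hx i hi]

theorem eV_mem_suTail {i j : ℕ} (h : j ≤ i) : eV k F i ∈ suTail k F j := fun l hl => by
  simp [eV, hv, dv, show (l : ℕ) ≠ i by omega]

theorem fV_mem_suTail {i j : ℕ} (h : j ≤ i) : fV k F i ∈ suTail k F j := fun l hl => by
  simp [fV, hv, dv, show (l : ℕ) ≠ i by omega]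

theorem gV_mem_suTail {j : ℕ} : gV k F ∈ suTail k F j := fun l _ => by
  simp [gV, hv]

theorem hA_suTail_left (σ : F →+* F) {j : ℕ} (hj : j < k) {z : Idx k → F}
    (hz : z ∈ suTail k F (j + 1)) : hA σ z (eV k F j) = 0 := by
  rw [← hv_eta z, hA_hv_dv_left _ _ _ _ hj]
  exact (hz ⟨j, hj⟩ (by simp)).2

theorem hA_suTail_right (σ : F →+* F) {j : ℕ} (hj : j < k) {z : Idx k → F}
    (hz : z ∈ suTail k F (j + 1)) : hA σ z (fV k F j) = 0 := by
  rw [← hv_eta z, hA_hv_dv_right _ _ _ _ hj]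
  exact (hz ⟨j, hj⟩ (by simp)).1

theorem suTail_nondeg (σ : F →+* F) {j : ℕ} {z : Idx k → F} (hz : z ∈ suTail k F j) (hz0 : z ≠ 0) :
    ∃ y ∈ suTail k F j, hA σ z y ≠ 0 := by
  obtain ⟨s, hs⟩ := Function.ne_iff.1 hz0
  rcases s with (i | i) | i
  · refine ⟨fV k F i, fV_mem_suTail (not_lt.1 fun h => hs (hz i h).1), ?_⟩
    rw [← hv_eta z, hA_hv_dv_right _ _ _ _ i.isLt]
    exact hs
  · refine ⟨eV k F i, eV_mem_suTail (not_lt.1 fun h => hs (hz i h).2), ?_⟩
    rw [← hv_eta z, hA_hv_dv_left _ _ _ _ i.isLt]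
    exact hs
  · refine ⟨gV k F, gV_mem_suTail, ?_⟩
    rw [← hv_eta z, gV, hA_hv]
    simpa [dotProduct] using hs

theorem exists_suTail_decomp {j : ℕ} (hj : j < k) {z : Idx k → F} (hz : z ∈ suTail k F j) :
    ∃ (w : Idx k → F) (l μ : F), w ∈ suTail k F (j + 1) ∧ z = w + l • eV k F j + μ • fV k F j := by
  refine ⟨z - z (.inl (.inl ⟨j, hj⟩)) • eV k F j - z (.inl (.inr ⟨j, hj⟩)) • fV k F j,
    z (.inl (.inl ⟨j, hj⟩)), z (.inl (.inr ⟨j, hj⟩)), ?_, by abel⟩
  intro i hi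
  by_cases h : (i : ℕ) = j
  · obtain rfl : i = ⟨j, hj⟩ := Fin.ext h
    simp [eV, fV, hv, dv]
  · obtain ⟨h1, h2⟩ := hz i (by omega)
    simp [eV, fV, hv, dv, h, h1, h2]

variable [Finite F] {σ : F →+* F}

/-- A skew scalar whose norm ratio generates the real subfield. -/
theorem exists_good_scalar (h : UniField F σ q) {K0 : F} (hK : σ K0 = K0) (hK0 : K0 ≠ 0) :
    ∃ a : F, σ a = -a ∧ a ≠ 0 ∧
      ∀ R : Subring F, a * a * K0 ∈ R → ∀ t, σ t = t → t ∈ R := by
  obtain ⟨ε, hε0, hε⟩ := h.exists_skew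
  obtain ⟨g, hg⟩ := h.exists_gen
  have hq := h.one_lt
  have hqq : q ^ 2 - 1 = (q - 1) * (q + 1) := by
    rw [mul_comm, ← Nat.sq_sub_sq]
  set θ : F := ((g ^ (q + 1) : Fˣ) : F) with hθ
  have hθ0 : θ ≠ 0 := (g ^ (q + 1) : Fˣ).ne_zero
  have hσθ : σ θ = θ := by
    rw [hθ, h.apply_eq, ← Units.val_pow_eq_pow_val]
    congr 1
    rw [← pow_mul]
    have e : (q + 1) * q = (q + 1) + (q ^ 2 - 1) := by
      rw [hqq]
      obtain ⟨m, rfl⟩ : ∃ m, q = m + 1 := ⟨q - 1, by omega⟩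
      simp only [Nat.add_sub_cancel]
      ring
    rw [e, pow_add, ← hg, pow_orderOf_eq_one, mul_one]
  have hgen : ∀ x : F, σ x = x → x ≠ 0 → ∃ i : ℕ, x = θ ^ i := by
    intro x hx hx0
    have hmem : Units.mk0 x hx0 ∈ Submonoid.powers g := by
      rw [mem_powers_iff_mem_zpowers]
      have : Subgroup.zpowers g = ⊤ :=
        Subgroup.eq_top_of_card_eq _ (by rw [Nat.card_zpowers, hg, Nat.card_units, h.card])
      rw [this]; trivial
    obtain ⟨j, hj⟩ := hmem
    have h1 : g ^ (j * (q - 1)) = 1 := by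
      rw [pow_mul, show g ^ j = Units.mk0 x hx0 from hj]
      apply Units.ext
      rw [Units.val_pow_eq_pow_val, Units.val_mk0, Units.val_one]
      refine mul_right_cancel₀ hx0 ?_
      rw [← pow_succ, show q - 1 + 1 = q by omega, one_mul, ← h.apply_eq, hx]
    have h2 := orderOf_dvd_of_pow_eq_one h1
    rw [hg, hqq, mul_comm j] at h2
    obtain ⟨i, hi⟩ := Nat.dvd_of_mul_dvd_mul_left (by omega) h2
    refine ⟨i, ?_⟩
    rw [hθ, ← Units.val_pow_eq_pow_val, ← pow_mul, ← hi]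
    exact (congrArg Units.val hj).symm
  have key : ∀ (a : F) (e : ℕ), a * a * K0 = θ ^ e → e = 1 ∨ e = 2 → ∀ R : Subring F,
      a * a * K0 ∈ R → ∀ t, σ t = t → t ∈ R := by
    intro a e he he' R hR t ht
    rw [he] at hR
    have hsq : ∀ y, σ y = y → y ^ 2 ∈ R := by
      intro y hy
      by_cases hy0 : y = 0
      · subst hy0; simp [R.zero_mem]
      obtain ⟨i, rfl⟩ := hgen y hy hy0
      rw [← pow_mul]
      rcases he' with rfl | rfl
      · rw [pow_one] at hR; exact pow_mem hR _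
      · rw [mul_comm, pow_mul]; exact pow_mem hR _
    by_cases h2 : (2 : F) = 0
    · have : CharP F 2 := CharTwo.of_one_ne_zero_of_two_eq_zero one_ne_zero h2
      cases nonempty_fintype F
      obtain ⟨y, hy⟩ := FiniteField.isSquare_of_char_two (F := F) (ringChar.eq F 2) t
      rw [← sq] at hy
      have hyy : σ y = y := by
        have : (σ y - y) ^ 2 = 0 := by
          have : σ (y ^ 2) = y ^ 2 := by rw [← hy, ht]
          rw [map_pow] at this
          linear_combination this + (y ^ 2 - σ y * y) * h2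
        exact sub_eq_zero.1 (pow_eq_zero_iff two_ne_zero |>.1 this)
      rw [hy]; exact hsq y hyy
    · have hinv : (2 : F)⁻¹ ∈ R := by
        have : (2 : F)⁻¹ = ((2 : F)⁻¹) ^ 2 * 2 := by field_simp
        rw [this]
        exact R.mul_mem (hsq _ (by rw [map_inv₀, map_ofNat]))
          (by simpa using (natCast_mem R 2 : ((2 : ℕ) : F) ∈ R))
      have : t = ((t + 1) ^ 2 - t ^ 2 - 1) * (2 : F)⁻¹ := by field_simp; ring
      rw [this]
      exact R.mul_mem (R.sub_mem (R.sub_mem (hsq _ (by rw [map_add, ht, map_one])) (hsq _ ht))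
        R.one_mem) hinv
  obtain ⟨i, hi⟩ := hgen (ε * ε * K0) (by rw [map_mul, map_mul, hε, hK, neg_mul_neg])
    (mul_ne_zero (mul_ne_zero hε0 hε0) hK0)
  rcases Nat.even_or_odd i with ⟨l, rfl⟩ | ⟨l, rfl⟩
  · refine ⟨ε * θ * (θ ^ l)⁻¹, ?_, mul_ne_zero (mul_ne_zero hε0 hθ0)
      (inv_ne_zero (pow_ne_zero _ hθ0)), key _ 2 ?_ (Or.inr rfl)⟩
    · rw [map_mul, map_mul, map_inv₀, map_pow, hσθ, hε]; ring
    · rw [show ε * θ * (θ ^ l)⁻¹ * (ε * θ * (θ ^ l)⁻¹) * K0 =
        ε * ε * K0 * (θ * θ) / (θ ^ l * θ ^ l) by field_simp, hi, ← pow_add]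
      field_simp
  · refine ⟨ε * (θ ^ l)⁻¹, ?_, mul_ne_zero hε0 (inv_ne_zero (pow_ne_zero _ hθ0)),
      key _ 1 ?_ (Or.inl rfl)⟩
    · rw [map_mul, map_inv₀, map_pow, hσθ, hε]; ring
    · rw [show ε * (θ ^ l)⁻¹ * (ε * (θ ^ l)⁻¹) * K0 =
        ε * ε * K0 / (θ ^ l * θ ^ l) by field_simp, hi]
      field_simp
      ring

section generation

variable (h : UniField F σ q) (Φ : (Idx k → F) ≃ₗ[F] (Fin n → F))
  (hΦ : ∀ x y, hm σ (Φ x) (Φ y) = hA σ x y) (K : Subgroup ↥(Cfsg.SU n F q))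
include h hΦ

theorem tail_mem_of_base (hk : 2 ≤ k) {c : F} (hc : c + σ c + 1 = 0)
    {U V : ↥(Cfsg.SU n F q)} (hU : U ∈ K) (hV : V ∈ K)
    (hUa : ∀ x, suAct U (Φ x) = Φ (uLin (by omega) c x))
    (hVa : ∀ x, suAct V (Φ x) = Φ (vLin (by omega) c x))
    (hbase : ∀ z ∈ suTail k F (k - 1), hA σ z z = 0 → Φ z ∈ suCentres K σ) :
    ∀ z, hA σ z z = 0 → Φ z ∈ suCentres K σ := by
  have hc' : σ c + c + 1 = 0 := by linear_combination hc
  have hstep : ∀ j, j + 1 < k → (∀ z ∈ suTail k F (j + 1), hA σ z z = 0 → Φ z ∈ suCentres K σ) →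
      ∀ z ∈ suTail k F j, hA σ z z = 0 → Φ z ∈ suCentres K σ := by
    intro j hj hW0
    set W := (suTail k F (j + 1)).map (Φ : (Idx k → F) →ₗ[F] (Fin n → F)) with hWdef
    have hW : ∀ z ∈ W, hm σ z z = 0 → z ∈ suCentres K σ := by
      rintro _ ⟨z, hz, rfl⟩ hzz
      exact hW0 z hz (by rw [← hΦ]; exact hzz)
    have hjk : j < k := by omega
    have heW : ∀ z ∈ W, hm σ z (Φ (eV k F j)) = 0 := by
      rintro _ ⟨z, hz, rfl⟩
      exact (hΦ _ _).trans (hA_suTail_left σ hjk hz)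
    have hfW : ∀ z ∈ W, hm σ z (Φ (fV k F j)) = 0 := by
      rintro _ ⟨z, hz, rfl⟩
      exact (hΦ _ _).trans (hA_suTail_right σ hjk hz)
    have hnd : ∀ z ∈ W, z ≠ 0 → ∃ y ∈ W, hm σ z y ≠ 0 := by
      rintro _ ⟨z, hz, rfl⟩ hz0
      obtain ⟨y, hy, hne⟩ := suTail_nondeg σ hz (fun e => hz0 (by simp [e]))
      exact ⟨Φ y, ⟨y, hy, rfl⟩, by rw [LinearEquiv.coe_coe, hΦ]; exact hne⟩
    have mem : ∀ {z}, z ∈ suTail k F (j + 1) → Φ z ∈ W := fun hz => ⟨_, hz, rfl⟩
    have e1 : eV k F (j + 1) ∈ suTail k F (j + 1) := eV_mem_suTail le_rfl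
    have f1 : fV k F (j + 1) ∈ suTail k F (j + 1) := fV_mem_suTail le_rfl
    have g1 : gV k F ∈ suTail k F (j + 1) := gV_mem_suTail
    set dd : Idx k → F := c • eV k F (j + 1) + fV k F (j + 1) + gV k F with hdd
    set dd' : Idx k → F := eV k F (j + 1) + c • fV k F (j + 1) + gV k F with hdd'
    have hd1 : dd ∈ suTail k F (j + 1) := by
      rw [hdd]; exact add_mem (add_mem (Submodule.smul_mem _ _ e1) f1) g1
    have hd2 : dd' ∈ suTail k F (j + 1) := by
      rw [hdd']; exact add_mem (add_mem e1 (Submodule.smul_mem _ _ f1)) g1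
    have hdde : dd = hv (c • dv k F (j + 1)) (dv k F (j + 1)) 1 := by
      rw [hdd, eV, fV, gV, hv_smul, hv_add, hv_add]; simp
    have hdde' : dd' = hv (dv k F (j + 1)) (c • dv k F (j + 1)) 1 := by
      rw [hdd', eV, fV, gV, hv_smul, hv_add, hv_add]; simp
    have dvdot : dv k F (j + 1) ⬝ᵥ dv k F (j + 1) = 1 := by
      rw [dot_dv _ hj]; simp [dv]
    have scomp : ∀ a : F, (σ ∘ (a • dv k F (j + 1)) : Fin k → F) = σ a • dv k F (j + 1) := by
      intro a; funext i; simp [dv, apply_ite σ]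
    have hz : Φ (eV k F (j + 1)) + Φ (eV k F j) ∈ suCentres K σ := by
      rw [← map_add, ← uLin_eV_succ (by omega) c hj, ← hUa]
      exact act_mem_suCentres h (hW _ (mem e1) (by
        rw [hΦ, hA_eV_eV σ _ hj])) hU
    have hz' : Φ (fV k F (j + 1)) + Φ (fV k F j) ∈ suCentres K σ := by
      rw [← map_add, ← vLin_fV_succ (by omega) c hj, ← hVa]
      exact act_mem_suCentres h (hW _ (mem f1) (by
        rw [hΦ, hA_fV_fV σ _ hj])) hV
    have iso_e : ∀ i, i < k → hm σ (Φ (eV k F i)) (Φ (eV k F i)) = 0 := fun i hi => by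
      rw [hΦ, hA_eV_eV σ _ hi]
    have iso_f : ∀ i, i < k → hm σ (Φ (fV k F i)) (Φ (fV k F i)) = 0 := fun i hi => by
      rw [hΦ, hA_fV_fV σ _ hi]
    obtain ⟨hec, hFw, hFd, hFd', hFy⟩ := lines_of_translate h (K := K) (W := W)
      (e := Φ (eV k F j)) (w := Φ (eV k F (j + 1))) (d := Φ (fV k F (j + 1))) (d' := Φ dd)
      hW heW (iso_e j hjk) (mem e1) (iso_e _ hj) (mem f1) (iso_f _ hj) (mem hd1)
      (by rw [hΦ, hdde, hA_hv, scomp, comp_dv]; simp [dotProduct_smul, smul_dotProduct, dvdot]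
          linear_combination hc)
      (by rw [hΦ, hA_eV_fV σ _ hj, if_pos rfl])
      (by rw [hΦ, hdde, eV, hA_hv, comp_dv]; simp [dvdot])
      (by rw [hΦ, hdde, fV, hA_hv, scomp, comp_dv]
          simp [dotProduct_smul, dvdot, h.conj_conj]
          intro e'
          exact one_ne_zero (by linear_combination hc - e' : (1 : F) = 0)) hz
    obtain ⟨hfc, -, -, -, -⟩ := lines_of_translate h (K := K) (W := W)
      (e := Φ (fV k F j)) (w := Φ (fV k F (j + 1))) (d := Φ (eV k F (j + 1))) (d' := Φ dd')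
      hW hfW (iso_f j hjk) (mem f1) (iso_f _ hj) (mem e1) (iso_e _ hj) (mem hd2)
      (by rw [hΦ, hdde', hA_hv, scomp, comp_dv]; simp [dotProduct_smul, smul_dotProduct, dvdot]
          linear_combination hc)
      (by rw [hΦ, hA_fV_eV σ _ hj, if_pos rfl])
      (by rw [hΦ, hdde', fV, hA_hv, comp_dv]; simp [dvdot])
      (by rw [hΦ, hdde', eV, hA_hv, scomp, comp_dv]
          simp [dotProduct_smul, dvdot, h.conj_conj]
          intro e'
          exact one_ne_zero (by linear_combination hc - e' : (1 : F) = 0)) hz'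
    have hr := iso_e j hjk
    let Y : Submodule F (Fin n → F) :=
      { carrier := {y | FullLine K σ (Φ (eV k F j)) y}
        add_mem' := fun {y y'} hy hy' a => by
          have := add_rootVec h hr (hy a) (hy' a)
          rwa [← smul_add] at this
        zero_mem' := fun a => by rw [smul_zero]; exact ⟨0, hasM_zero h⟩
        smul_mem' := fun b y hy a => by
          show ∃ τ, HasM K σ _ (a • b • y) τ
          rw [smul_smul]; exact hy _ }
    have hYmem : ∀ i, j + 1 ≤ i → i < k → Φ (eV k F i) ∈ Y ∧ Φ (fV k F i) ∈ Y := by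
      intro i hi hik
      by_cases hij : i = j + 1
      · subst hij; exact ⟨hFw, hFd⟩
      · refine ⟨hFy _ (mem (eV_mem_suTail hi)) (iso_e i hik) ?_ ?_,
          hFy _ (mem (fV_mem_suTail hi)) (iso_f i hik) ?_ ?_⟩
        · rw [hΦ, hA_eV_fV σ _ hj, if_neg (Ne.symm hij)]
        · rw [hΦ, hA_eV_eV σ _ hj]
        · rw [hΦ, hA_fV_fV σ _ hj]
        · rw [hΦ, hA_fV_eV σ _ hj, if_neg (Ne.symm hij)]
    have hYg : Φ (gV k F) ∈ Y := by
      have e : gV k F = dd - c • eV k F (j + 1) - fV k F (j + 1) := by rw [hdd]; abel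
      rw [e, map_sub, map_sub, map_smul]
      exact Y.sub_mem (Y.sub_mem hFd' (Y.smul_mem _ hFw)) hFd
    have hY : ∀ y ∈ W, ∃ τ, HasM K σ (Φ (eV k F j)) y τ := by
      rintro _ ⟨z, hz, rfl⟩
      have e : z = ∑ i : Fin k, (z (.inl (.inl i)) • eV k F i + z (.inl (.inr i)) • fV k F i) +
          z (.inr ()) • gV k F := by
        funext s
        rcases s with (l | l) | l <;>
          simp [eV, fV, gV, hv, dv, Finset.sum_apply, Pi.single_apply, ← Fin.ext_iff]
      have hzY : Φ z ∈ Y := by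
        rw [e, map_add, map_sum, map_smul]
        refine Y.add_mem (Y.sum_mem fun i _ => ?_) (Y.smul_mem _ hYg)
        rw [map_add, map_smul, map_smul]
        by_cases hi : (i : ℕ) < j + 1
        · obtain ⟨z1, z2⟩ := hz i hi
          rw [z1, z2, zero_smul, zero_smul, add_zero]
          exact Y.zero_mem
        · obtain ⟨y1, y2⟩ := hYmem i (not_lt.1 hi) i.isLt
          exact Y.add_mem (Y.smul_mem _ y1) (Y.smul_mem _ y2)
      simpa using hzY 1
    intro z hz hzz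
    obtain ⟨w₀, α, β, hw₀, rfl⟩ := exists_suTail_decomp hjk hz
    rw [map_add, map_add, map_smul, map_smul]
    refine sum_mem_suCentres h hW hnd heW hfW ?_ hec hfc hY (mem hw₀) α β ?_
    · rw [hΦ, hA_eV_fV σ _ hjk, if_pos rfl]
    · rw [← map_smul, ← map_smul, ← map_add, ← map_add, hΦ]; exact hzz
  have hall : ∀ d, d + 1 ≤ k → ∀ z ∈ suTail k F (k - 1 - d), hA σ z z = 0 →
      Φ z ∈ suCentres K σ := by
    intro d
    induction d with
    | zero => intro _; simpa using hbase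
    | succ d ih =>
      intro hd
      refine hstep _ (by omega) ?_
      rw [show k - 1 - (d + 1) + 1 = k - 1 - d by omega]
      exact ih (by omega)
  intro z hz
  refine hall (k - 1) (by omega) z ?_ hz
  intro i hi
  omega

set_option maxHeartbeats 1000000 in
theorem base_mem (hk : 2 ≤ k) {c a : F} (hc : c + σ c + 1 = 0) (ha : σ a = -a) (ha0 : a ≠ 0)
    (hgen : ∀ R : Subring F, a * a * (c * σ c) ∈ R → ∀ t, σ t = t → t ∈ R)
    {U V : ↥(Cfsg.SU n F q)} (hU : U ∈ K) (hV : V ∈ K)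
    (hUa : ∀ x, suAct U (Φ x) = Φ (uLin (by omega) c x))
    (hVa : ∀ x, suAct V (Φ x) = Φ (vLin (by omega) c x))
    (hT : HasT K σ (Φ (eV k F (k - 1))) a) :
    ∀ z ∈ suTail k F (k - 1), hA σ z z = 0 → Φ z ∈ suCentres K σ := by
  have hk0 : 0 < k := by omega
  have hl : k - 1 < k := by omega
  have hpr' : k - 2 < k := by omega
  have hne : k - 1 ≠ k - 2 := by omega
  have hc0 : c ≠ 0 := fun e => by simp [e] at hc
  set δ := dv k F (k - 1) with hδ
  set δ' := dv k F (k - 2) with hδ'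
  have dd : δ ⬝ᵥ δ = 1 := by rw [hδ, dot_dv _ hl]; simp [dv]
  have dd' : δ' ⬝ᵥ δ = 0 := by rw [hδ, dot_dv _ hl]; simp [hδ', dv, hne]
  have d'd : δ ⬝ᵥ δ' = 0 := by rw [dotProduct_comm, dd']
  have scomp : ∀ (b : F), (σ ∘ (b • δ) : Fin k → F) = σ b • δ := by
    intro b; funext i; simp [hδ, dv, apply_ite σ]
  have sδ : (σ ∘ δ : Fin k → F) = δ := comp_dv σ _
  have sδ' : (σ ∘ δ' : Fin k → F) = δ' := comp_dv σ _
  have s0 : (σ ∘ (0 : Fin k → F)) = 0 := by funext i; simp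
  set p := hv δ (0 : Fin k → F) 0 with hp
  set r := hv δ' (0 : Fin k → F) 0 with hr
  set x := hv δ (c • δ) (-1) with hx
  set z₃ := hv ((c * c) • δ) (c • δ) (-1 - c) with hz
  have hTp : HasT K σ (Φ p) a := hT
  have hup : uLin hk0 c p = p + r := by
    have := uLin_eV_succ hk0 c (j := k - 2) (by omega)
    rw [show k - 2 + 1 = k - 1 by omega] at this
    exact this
  have hUδ : RegularGen.U k F *ᵥ δ = δ + δ' := by
    have := U_mulVec_dv_succ (F := F) (m := k) (i := k - 2) (by omega)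
    rwa [show k - 2 + 1 = k - 1 by omega] at this
  have hvp : vLin hk0 c p = x := by
    rw [hp, vLin_hv, hδ, lastCoord_last, UiT_mulVec_dv_last, ← hδ, hx]
    simp
  have hux : uLin hk0 c x = z₃ + r := by
    have hlc : lastCoord hk0 (c • δ) = c := by
      rw [lastCoord, mulVec_smul, hδ, UiT_mulVec_dv_last, Pi.smul_apply]
      simp [dv]
    rw [hx, uLin_hv, hlc, hUδ, mulVec_smul, hδ, UiT_mulVec_dv_last, ← hδ, hz, hr, hv_add]
    congr 1
    · module
    · simp
    · ring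
  have hvr : vLin hk0 c r = r - x := by
    rw [hr, vLin_hv, hδ', lastCoord_prev hk0 hk, UiT_mulVec_dv_prev hk, ← hδ', ← hδ, hx, hv_sub]
    congr 1 <;> first | simp | ring
  have eval : ∀ (a₁ b₁ : F) (γ₁ a₂ b₂ γ₂ : F),
      hA σ (hv (a₁ • δ) (b₁ • δ) γ₁) (hv (a₂ • δ) (b₂ • δ) γ₂) =
        a₁ * σ b₂ + b₁ * σ a₂ + γ₁ * σ γ₂ := by
    intro a₁ b₁ γ₁ a₂ b₂ γ₂
    rw [hA_hv, scomp, scomp]
    simp [dotProduct_smul, smul_dotProduct, dd, mul_comm]
  have ep : p = hv ((1 : F) • δ) ((0 : F) • δ) 0 := by simp [hp]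
  have ex : x = hv ((1 : F) • δ) (c • δ) (-1) := by simp [hx]
  have hm_r : ∀ (a₁ b₁ γ₁ : F), hA σ (hv (a₁ • δ) (b₁ • δ) γ₁) r = 0 := by
    intro a₁ b₁ γ₁
    rw [hr, hA_hv, s0, sδ']
    simp [smul_dotProduct, d'd]
  have hrr : hA σ r r = 0 := by rw [hr, hA_hv, s0, sδ']; simp
  have hsc : c + σ c = -1 := by linear_combination hc
  have hxx : hA σ x x = 0 := by rw [ex, eval]; simp; linear_combination hc
  have hzz : hA σ z₃ z₃ = 0 := by
    rw [hz, eval]; simp; linear_combination (1 + c * σ c) * hc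
  have hT2 : HasT K σ (Φ p + Φ r) a := by
    rw [← map_add, ← hup, ← hUa]; exact hTp.conj h hU
  have hT3 : HasT K σ (Φ x) a := by
    rw [← hvp, ← hVa]; exact hTp.conj h hV
  have hT4 : HasT K σ (Φ z₃ + (1 : F) • Φ r) a := by
    rw [one_smul, ← map_add, ← hux, ← hUa]; exact hT3.conj h hU
  have hΦr : hm σ (Φ r) (Φ r) = 0 := by rw [hΦ]; exact hrr
  have hpr : hm σ (Φ p) (Φ r) = 0 := by rw [hΦ, ep]; exact hm_r _ _ _
  have hxr : hm σ (Φ x) (Φ r) = 0 := by rw [hΦ, ex]; exact hm_r _ _ _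
  have hzr : hm σ (Φ z₃) (Φ r) = 0 := by rw [hΦ, hz]; exact hm_r _ _ _
  have hpx : hm σ (Φ p) (Φ x) = σ c := by rw [hΦ, ep, ex, eval]; simp
  have hzp : hm σ (Φ z₃) (Φ p) = σ (σ c) := by
    rw [hΦ, ep, hz, eval, h.conj_conj]; simp
  have hzx : hm σ (Φ z₃) (Φ x) + σ (hm σ (Φ z₃) (Φ x)) ≠ 0 := by
    rw [hΦ, ex, hz, eval]
    simp [h.conj_conj]
    intro e'
    refine mul_ne_zero hc0 (show σ c ≠ 0 by simpa using hc0) ?_
    linear_combination -e' + (c * σ c + 2) * hc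
  obtain ⟨hFp, hFx⟩ := lines_of_seeds h (r := Φ r) (p := Φ p) (x := Φ x) (z₃ := Φ z₃) (C := σ c)
    (μ := 1) hΦr (by rw [hΦ, ep, eval]; simp) (by rw [hΦ]; exact hxx) (by rw [hΦ]; exact hzz)
    hpr hxr hzr hpx hzp (by simpa using hc0) hzx ha ha0 hTp hT2 hT3 hT4
    (fun R hR => hgen R (by rwa [h.conj_conj, mul_comm (σ c) c] at hR))
  have hrc : Φ r ∈ suCentres K σ :=
    ⟨hΦr, fun b hb => hasT_of_lines h hΦr hFp hFx (by rw [hpx]; simpa using hc0) hb⟩
  have hxc : Φ x ∈ suCentres K σ := by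
    have h1 : Φ r - Φ x ∈ suCentres K σ := by
      rw [← map_sub, ← hvr, ← hVa]; exact act_mem_suCentres h hrc hV
    refine ⟨by rw [hΦ]; exact hxx, fun b hb => ?_⟩
    have hM : HasM K σ (Φ r) (b • Φ x) b := by
      refine hasM_exact h hΦr (hFx b) hrc ?_
      rw [hm_smul_left, hm_smul_right, hΦ, hxx, hb]; ring
    obtain ⟨hy, -, g, hg, hgv⟩ := hM
    obtain ⟨g', hg', hgv'⟩ := h1.2 b hb
    refine ⟨g⁻¹ * g', K.mul_mem (K.inv_mem hg) hg', fun v => ?_⟩
    have : suAct g (v + (b * hm σ v (Φ x)) • Φ x) = suAct g' v := by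
      rw [hgv, hgv', hm_add_left, hm_add_left, hm_smul_left, hm_smul_left, hm_smul_right,
        hm_smul_right, hm_sub_right, hb, hΦ x x, hxx, hxr]
      module
    rw [suAct_mul, ← this, suAct_inv_act]
  have hpc : Φ p ∈ suCentres K σ := by
    have := act_mem_suCentres h hxc (K.inv_mem hV)
    rwa [← hvp, ← hVa, suAct_inv_act] at this
  have hz3c : Φ z₃ ∈ suCentres K σ := by
    have h1 : Φ z₃ + Φ r ∈ suCentres K σ := by
      rw [← map_add, ← hux, ← hUa]; exact act_mem_suCentres h hxc hU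
    obtain ⟨τ, hM⟩ := hFp (σ (-1 / c))
    obtain ⟨-, -, g, hg, hgv⟩ := hM
    have h2 := act_mem_suCentres h h1 hg
    have e1 : hm σ (Φ z₃ + Φ r) (σ (-1 / c) • Φ p) = -1 := by
      rw [hm_smul_right, h.conj_conj, hm_add_left, hzp, h.conj_conj,
        show hm σ (Φ r) (Φ p) = 0 from hm_symm_zero h hpr, add_zero, div_mul_cancel₀ _ hc0]
    rw [hgv, e1, hm_add_left, hzr, hΦr, add_zero, zero_smul, sub_zero, mul_zero, zero_smul,
      add_zero] at h2
    convert h2 using 1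
    module
  intro z hzm hziso
  obtain ⟨w₀, A, B, hw₀, rfl⟩ := exists_suTail_decomp hl hzm
  set G := w₀ (.inr ()) with hG
  have hw₀e : w₀ = hv (0 : Fin k → F) 0 G := by
    rw [hG, ← hv_eta w₀]
    have h1 : ∀ i : Fin k, w₀ (.inl (.inl i)) = 0 ∧ w₀ (.inl (.inr i)) = 0 :=
      fun i => hw₀ i (by omega)
    congr 1 <;> funext i
    · exact (h1 i).1
    · exact (h1 i).2
  set f := c⁻¹ • x with hf
  set g := hv ((1 : F) • δ) ((0 : F) • δ) (σ c) with hg
  have hsc0 : σ c ≠ 0 := by simpa using hc0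
  have comb : ∀ α β γ : F, α • p + β • f + γ • g =
      hv ((α + β / c + γ) • δ) (β • δ) (-β / c + γ * σ c) := by
    intro α β γ
    rw [hf, hg, ep, ex, smul_smul, hv_smul, hv_smul, hv_smul, hv_add, hv_add]
    simp only [smul_smul, ← add_smul, mul_one, mul_zero, zero_add, add_zero]
    congr 1
    · congr 1; field_simp
    · congr 1; field_simp
    all_goals (field_simp; try ring)
  have hwant : ∀ A B G : F, hv (A • δ) (B • δ) G =
      (A - B / c - (G + B / c) / σ c) • p + B • f + ((G + B / c) / σ c) • g := by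
    intro A B G
    rw [comb]
    congr 1
    · congr 1; ring
    · field_simp; ring
  have hzw : w₀ + A • eV k F (k - 1) + B • fV k F (k - 1) = hv (A • δ) (B • δ) G := by
    rw [hw₀e, eV, fV, hv_smul, hv_smul, hv_add, hv_add, ← hδ]
    simp
  rw [hzw] at hziso ⊢
  rw [hwant, map_add, map_add, map_smul Φ _ p, map_smul Φ _ f, map_smul Φ _ g]
  refine three_mem_suCentres h hpc (f := Φ f) (g := Φ g)
    (by rw [hf, map_smul]; exact smul_mem_suCentres h hxc _) ?_ ?_
    ?_ ?_ (α₀ := c * c - c / c - (-1 - c + c / c) / σ c) (β₀ := c)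
    (γ₀ := (-1 - c + c / c) / σ c) ?_ ?_ ?_
  · rw [hΦ, hf, ex, ep, hv_smul, smul_smul, smul_smul, eval]
    simp
    field_simp
  · rw [hΦ, hg, ep, eval]; simp
  · rw [hΦ, hg, hf, ex, hv_smul, smul_smul, smul_smul, eval]
    simp [h.conj_conj]
  · rw [hΦ, hg, eval]
    simp [h.conj_conj]
    exact hc0
  · rw [← map_smul, ← map_smul, ← map_smul, ← map_add, ← map_add, ← hwant, ← hz]
    exact hz3c
  · rw [div_self hc0, show -1 - c + 1 = -c by ring]
    exact div_ne_zero (neg_ne_zero.2 hc0) hsc0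
  · rw [← map_smul, ← map_smul, ← map_smul, ← map_add, ← map_add, ← hwant, hΦ]
    exact hziso

end generation

/-- `SU_n(q)` for odd `n ≥ 5` is generated by three conjugate regular unipotent elements. -/
theorem su_generated_of_five_le {F : Type u} [Field F] [Fintype F] {σ : F →+* F} {q : ℕ}
    (h : UniField F σ q) {n k : ℕ} (hn : n = 2 * k + 1) (hk : 2 ≤ k) :
    ∃ u g g' : ↥(Cfsg.SU n F q),
      (IsNilpotent (((u : Matrix.SpecialLinearGroup (Fin n) F) : Matrix (Fin n) (Fin n) F) - 1) ∧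
        (((u : Matrix.SpecialLinearGroup (Fin n) F) : Matrix (Fin n) (Fin n) F) - 1) ^ (n - 1) ≠ 0) ∧
      Subgroup.closure ({u, g * u * g⁻¹, g' * u * g'⁻¹} : Set ↥(Cfsg.SU n F q)) = ⊤ := by
  have hk0 : 0 < k := by omega
  obtain ⟨Φ, hΦ⟩ := exists_frame_linearEquiv h hn
  obtain ⟨c, hc1⟩ := h.exists_trace (a := -1) (by rw [map_neg, map_one])
  have hc : c + σ c + 1 = 0 := by rw [hc1]; ring
  have hc0 : c ≠ 0 := fun e => by simp [e] at hc
  obtain ⟨a, ha, ha0, hgen⟩ := exists_good_scalar h (K0 := c * σ c)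
    (by rw [map_mul, h.conj_conj, mul_comm]) (mul_ne_zero hc0 (by simpa using hc0))
  have hca : c + a + σ (c + a) + 1 = 0 := by rw [map_add, ha]; linear_combination hc
  set U := suOf h Φ hΦ (uLin hk0 c) (hA_uLin σ hk0 hc) (uLin_det hn hk0 c)
  obtain ⟨t, ht⟩ := exists_su_conj_regular h Φ hΦ hn hk0 hc hca
  set d := LinearMap.det (swapLin k F)
  have hd2 : d * d = 1 := swapLin_det_sq
  have hdd : d * σ d = 1 := by
    rcases mul_self_eq_one_iff.1 hd2 with e | e <;> rw [e] <;> simp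
  have hS : ∀ x y, hA σ ((d • swapLin k F) x) ((d • swapLin k F) y) = hA σ x y := by
    intro x y
    rw [LinearMap.smul_apply, LinearMap.smul_apply, ← hΦ, map_smul, map_smul, hm_smul_left,
      hm_smul_right, hΦ, ← mul_assoc, hdd, one_mul, hA_swapLin]
  have hSd : LinearMap.det (d • swapLin k F) = 1 := by
    rw [LinearMap.det_smul, Module.finrank_fintype_fun_eq_card, ← pow_succ,
      show Fintype.card (Idx k) + 1 = 2 * (k + 1) by simp; omega, pow_mul, sq, hd2, one_pow]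
  set S := suOf h Φ hΦ (d • swapLin k F) hS hSd
  refine ⟨U, t, S, ?_, ?_⟩
  · have hU : (((U : Matrix.SpecialLinearGroup (Fin n) F)) : Matrix (Fin n) (Fin n) F) - 1 =
        stdMat Φ (uLin hk0 c - 1) := by
      rw [map_sub, map_one]; rfl
    let T : Module.End F (Idx k → F) ≃ₐ[F] Matrix (Fin n) (Fin n) F :=
      LinearMap.toMatrixAlgEquiv'.trans (Matrix.reindexAlgEquiv F F (ordEquiv hn))
    have hT : T (uLin hk0 c - 1) = nilPart hn hk0 c := by
      simp only [T, nilPart, AlgEquiv.trans_apply, map_sub, map_one]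
    obtain ⟨hnil, hpow⟩ := regular_of_triangular (m := n) (by omega) (Equiv.refl (Fin n))
      (nilPart hn hk0 c) (fun i j hij => nilPart_upper hn hk0 c i j hij)
      (fun i j hij => (nilPart_super hn hk0 c c i j hij).1)
    rw [hU]
    constructor
    · obtain ⟨m, hm⟩ := hnil
      refine ⟨m, ?_⟩
      have : (uLin hk0 c - 1) ^ m = 0 := T.injective (by rw [map_pow, hT, hm, map_zero])
      rw [← map_pow, this, map_zero]
    · intro e
      rw [← map_pow, map_eq_zero_iff _ (stdMat Φ).injective] at e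
      exact hpow (by rw [← hT, ← map_pow, e, map_zero])
  set K := Subgroup.closure ({U, t * U * t⁻¹, S * U * S⁻¹} : Set ↥(Cfsg.SU n F q))
  have hUK : U ∈ K := Subgroup.subset_closure (by simp)
  have hVK : S * U * S⁻¹ ∈ K := Subgroup.subset_closure (by simp)
  have hWK : t * U * t⁻¹ ∈ K := Subgroup.subset_closure (by simp)
  have hUa : ∀ x, suAct U (Φ x) = Φ (uLin hk0 c x) := suOf_act h Φ hΦ _ _ _
  have hVa : ∀ x, suAct (S * U * S⁻¹) (Φ x) = Φ (vLin hk0 c x) := by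
    intro x
    have hSa : ∀ y, suAct S (Φ y) = Φ (d • swapLin k F y) := fun y =>
      suOf_act h Φ hΦ _ hS hSd y
    have e : suAct S⁻¹ (Φ x) = Φ (d • swapLin k F x) := by
      have : Φ x = suAct S (Φ (d • swapLin k F x)) := by
        rw [hSa, map_smul (swapLin k F), swapLin_swapLin, smul_smul, hd2, one_smul]
      conv_lhs => rw [this]
      rw [suAct_inv_act]
    rw [suAct_mul, suAct_mul, e, hUa, hSa, map_smul (uLin hk0 c), map_smul (swapLin k F), smul_smul,
      hd2, one_smul]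
    rfl
  have hT : HasT K σ (Φ (eV k F (k - 1))) a := by
    refine ⟨(t * U * t⁻¹) * U⁻¹, K.mul_mem hWK (K.inv_mem hUK), fun v => ?_⟩
    obtain ⟨y, hy⟩ := Φ.surjective (suAct U⁻¹ v)
    have hv' : v = Φ (uLin hk0 c y) := by rw [← hUa, hy, suAct_act_inv]
    rw [suAct_mul, ← hy, ht, suOf_act, hv', hΦ, ← map_smul, ← map_add]
    congr 1
    rw [← hv_eta y, uLin_hv, uLin_hv, hA_hv_dv_left _ _ _ _ (show k - 1 < k by omega), eV,
      hv_smul, hv_add]
    congr 1
    · rw [show ((RegularGen.Ui k F)ᵀ *ᵥ fun i => y (.inl (.inr i))) ⟨k - 1, by omega⟩ =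
        lastCoord hk0 fun i => y (.inl (.inr i)) from rfl]
      module
    · simp
    · ring
  have hall := tail_mem_of_base h Φ hΦ K hk hc hUK hVK hUa hVa
    (base_mem h Φ hΦ K hk hc ha ha0 hgen hUK hVK hUa hVa hT)
  have hcard : Fintype.card F = q ^ 2 := by rw [← Nat.card_eq_fintype_card, h.card]
  rw [eq_top_iff, ← Cfsg.Agent.S0780.result hcard n (by omega) (by omega), Subgroup.closure_le]
  rintro A ⟨v, b, hviso, hAmat⟩
  obtain ⟨z, rfl⟩ := Φ.surjective v
  have e : ∀ u w : Fin n → F, Cfsg.hermForm n F q u w = hm σ u w := fun u w => by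
    simp [hm, Cfsg.hermForm, dotProduct, h.apply_eq]
  rw [e] at hviso
  have hziso : hA σ z z = 0 := by rw [← hΦ]; exact hviso
  have hAv : ∀ w, suAct A w = w + (b * hm σ w (Φ z)) • Φ z := by
    intro w
    rw [suAct, hAmat, Cfsg.unitaryTransvection, Matrix.add_mulVec, Matrix.one_mulVec,
      Matrix.smul_mulVec, Matrix.vecMulVec_mulVec, op_smul_eq_smul, smul_smul]
    congr 3
    simp [hm, dotProduct, h.apply_eq, mul_comm]
  rcases eq_or_ne (Φ z) 0 with hz0 | hz0
  · have : A = 1 := by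
      apply Subtype.ext; apply Subtype.ext
      refine Matrix.ext_of_mulVec_single fun i => ?_
      have := hAv (Pi.single i 1)
      rw [hz0, smul_zero, add_zero] at this
      exact this.trans (suAct_one (n := n) (F := F) (q := q) _).symm
    rw [this]; exact K.one_mem
  obtain ⟨y, hy⟩ := suTail_nondeg σ (j := 0) (z := z) (fun i hi => by omega)
    (fun e => hz0 (by rw [e, map_zero]))
  have hw : hm σ (Φ y) (Φ z) ≠ 0 := fun e => hy.2 (by rw [← hΦ]; exact hm_symm_zero h e)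
  have hskew : σ b = -b := by
    have h1 := hm_suAct h A (Φ y) (Φ y)
    rw [hAv] at h1
    simp only [hm_add_left, hm_add_right, hm_smul_left, hm_smul_right, hviso, map_mul,
      hm_symm h] at h1
    rw [← hm_symm h (Φ y) (Φ z)] at h1
    have h2 : hm σ (Φ y) (Φ z) * σ (hm σ (Φ y) (Φ z)) * (b + σ b) = 0 := by
      linear_combination h1
    have := (mul_eq_zero.1 h2).resolve_left (mul_ne_zero hw (by simpa using hw))
    linear_combination this
  obtain ⟨g, hgK, hgv⟩ := (hall z hziso).2 b hskew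
  have hAg : A = g := by
    apply Subtype.ext; apply Subtype.ext
    exact Matrix.ext_of_mulVec_single fun i => (hAv _).trans (hgv _).symm
  rw [hAg]; exact hgK

end CfsgLib.RegularGenForms
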