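import Cfsg.Agent.Lib.RegularGenForms.Chain

/-!
Regular nilpotent triangular matrices: similarity, and the shape of intertwiners of two of them with
the same first diagonal.
-/

set_option autoImplicit false

namespace CfsgLib.RegularGenForms

open Matrix

variable {F : Type*} [Field F] {m : ℕ}

theorem upper_pow_mulVec_apply {A : Matrix (Fin m) (Fin m) F}
    (hA : ∀ i j : Fin m, (j : ℕ) ≤ i → A i j = 0)
    (hs : ∀ i j : Fin m, (i : ℕ) + 1 = j → A i j ≠ 0) {k l : ℕ} (hkl : k ≤ l) (hl : l < m)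
    {x : Fin m → F} (hx : ∀ i : Fin m, l < (i : ℕ) → x i = 0) :
    (A ^ k *ᵥ x) ⟨l - k, by omega⟩ = (A ^ k) ⟨l - k, by omega⟩ ⟨l, hl⟩ * x ⟨l, hl⟩ := by
  rw [Matrix.mulVec, dotProduct, Finset.sum_eq_single ⟨l, hl⟩]
  · intro i _ hi
    have hi' : (i : ℕ) ≠ l := fun e => hi (Fin.ext e)
    rcases Nat.lt_or_ge l i with h | h
    · rw [hx i h, mul_zero]
    · rw [(upper_pow_apply A hA hs k _ i).1 (by simp only; omega), zero_mul]
  · simp

/-- Two regular strictly upper triangular matrices are similar. -/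
theorem exists_similar_of_upper {A B : Matrix (Fin m) (Fin m) F}
    (hA : ∀ i j : Fin m, (j : ℕ) ≤ i → A i j = 0)
    (hs : ∀ i j : Fin m, (i : ℕ) + 1 = j → A i j ≠ 0)
    (hB : ∀ i j : Fin m, (j : ℕ) ≤ i → B i j = 0)
    (hs' : ∀ i j : Fin m, (i : ℕ) + 1 = j → B i j ≠ 0) :
    ∃ X : Matrix (Fin m) (Fin m) F, IsUnit X ∧ A * X = X * B := by
  let cyc : Matrix (Fin m) (Fin m) F → Matrix (Fin m) (Fin m) F := fun M =>
    Matrix.of fun i j => (M ^ (j : ℕ)) i ⟨m - 1, by have := i.isLt; omega⟩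
  let S : Matrix (Fin m) (Fin m) F := Matrix.of fun i j => if (j : ℕ) + 1 = i then 1 else 0
  have hcyc : ∀ M : Matrix (Fin m) (Fin m) F, (∀ i j : Fin m, (j : ℕ) ≤ i → M i j = 0) →
      (∀ i j : Fin m, (i : ℕ) + 1 = j → M i j ≠ 0) →
      IsUnit (cyc M) ∧ M * cyc M = cyc M * S := by
    intro M hM hMs
    constructor
    · rw [← Matrix.mulVec_injective_iff_isUnit]
      intro x y hxy
      have h0 : cyc M *ᵥ (x - y) = 0 := by rw [mulVec_sub, sub_eq_zero]; exact hxy
      rw [← sub_eq_zero]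
      generalize x - y = z at h0
      by_contra hz
      obtain ⟨j, hj, hmin⟩ : ∃ j : Fin m, z j ≠ 0 ∧ ∀ i : Fin m, (i : ℕ) < j → z i = 0 := by
        classical
        obtain ⟨j₀, hj₀⟩ := Function.ne_iff.1 hz
        have hex : ∃ l, ∃ h : l < m, z ⟨l, h⟩ ≠ 0 := ⟨j₀, j₀.isLt, hj₀⟩
        obtain ⟨hl, hl'⟩ := Nat.find_spec hex
        refine ⟨⟨Nat.find hex, hl⟩, hl', fun i hi => ?_⟩
        by_contra h
        exact Nat.find_min hex hi ⟨i.isLt, h⟩
      have hj' := j.isLt
      have e := congrFun h0 ⟨m - 1 - j, by omega⟩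
      rw [Matrix.mulVec, dotProduct, Finset.sum_eq_single j] at e
      · exact mul_ne_zero ((upper_pow_apply M hM hMs j _ _).2 (by simp only; omega)) hj e
      · intro i _ hi
        have hi' : (i : ℕ) ≠ j := fun e => hi (Fin.ext e)
        rcases Nat.lt_or_ge (i : ℕ) j with h | h
        · rw [hmin i h, mul_zero]
        · show (M ^ (i : ℕ)) _ _ * z i = 0
          rw [(upper_pow_apply M hM hMs i _ _).1 (by simp only; omega), zero_mul]
      · simp
    · ext i j
      have hi := i.isLt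
      have hj := j.isLt
      rw [Matrix.mul_apply, Matrix.mul_apply]
      have hl : ∑ l, M i l * cyc M l j = (M ^ ((j : ℕ) + 1)) i ⟨m - 1, by omega⟩ := by
        rw [pow_succ', Matrix.mul_apply]
        exact Finset.sum_congr rfl fun l _ => rfl
      rw [hl]
      by_cases h : (j : ℕ) + 1 < m
      · rw [Finset.sum_eq_single ⟨j + 1, h⟩]
        · simp [S, cyc]
        · intro l _ hl'
          have : (l : ℕ) ≠ j + 1 := fun e => hl' (Fin.ext e)
          simp [S, Ne.symm this]
        · simp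
      · rw [Finset.sum_eq_zero fun l _ => by
          have := l.isLt
          simp [S, show (j : ℕ) + 1 ≠ l by omega]]
        exact (upper_pow_apply M hM hMs _ i _).1 (by simp only; omega)
  obtain ⟨hua, hea⟩ := hcyc A hA hs
  obtain ⟨hub, heb⟩ := hcyc B hB hs'
  have hdb : IsUnit (cyc B).det := (Matrix.isUnit_iff_isUnit_det _).1 hub
  refine ⟨cyc A * (cyc B)⁻¹, hua.mul (by simpa using hub), ?_⟩
  calc A * (cyc A * (cyc B)⁻¹) = cyc A * (S * (cyc B)⁻¹) := by
        rw [← Matrix.mul_assoc, hea, Matrix.mul_assoc]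
    _ = cyc A * ((cyc B)⁻¹ * ((cyc B * S) * (cyc B)⁻¹)) := by
        rw [← Matrix.mul_assoc (cyc B)⁻¹ (cyc B * S), ← Matrix.mul_assoc (cyc B)⁻¹ (cyc B) S,
          nonsing_inv_mul _ hdb, Matrix.one_mul]
    _ = cyc A * (cyc B)⁻¹ * B := by
        rw [← heb, Matrix.mul_assoc B, mul_nonsing_inv _ hdb, Matrix.mul_one, Matrix.mul_assoc]

/-- An intertwiner of two regular strictly upper triangular matrices with the same first diagonal is
upper triangular with constant diagonal. -/
theorem intertwiner_upper {G A B : Matrix (Fin m) (Fin m) F}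
    (hA : ∀ i j : Fin m, (j : ℕ) ≤ i → A i j = 0)
    (hB : ∀ i j : Fin m, (j : ℕ) ≤ i → B i j = 0)
    (hsB : ∀ i j : Fin m, (i : ℕ) + 1 = j → B i j ≠ 0)
    (hsA : ∀ i j : Fin m, (i : ℕ) + 1 = j → A i j ≠ 0)
    (hsame : ∀ i j : Fin m, (i : ℕ) + 1 = j → A i j = B i j) (hG : G * A = B * G) :
    (∀ i j : Fin m, (j : ℕ) < i → G i j = 0) ∧ ∀ i j : Fin m, G i i = G j j := by
  have hpow : ∀ k, G * A ^ k = B ^ k * G := by
    intro k
    induction k with
    | zero => simp
    | succ k ih => rw [pow_succ, ← Matrix.mul_assoc, ih, Matrix.mul_assoc, hG, ← Matrix.mul_assoc,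
        ← pow_succ]
  have hup : ∀ i j : Fin m, (j : ℕ) < i → G i j = 0 := by
    intro i j hji
    have hi := i.isLt
    have h0 : ∀ l, (A ^ ((j : ℕ) + 1)) l j = 0 := fun l =>
      (upper_pow_apply A hA hsA _ l j).1 (by omega)
    have h1 : B ^ ((j : ℕ) + 1) *ᵥ (fun l => G l j) = 0 := by
      funext l
      have := congrFun (congrFun (hpow ((j : ℕ) + 1)) l) j
      rw [Matrix.mul_apply, Matrix.mul_apply] at this
      simp only [h0, mul_zero, Finset.sum_const_zero] at this
      exact this.symm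
    suffices ∀ d, ∀ l : Fin m, (j : ℕ) < l → m - (l : ℕ) ≤ d → G l j = 0 from
      this m i hji (by omega)
    intro d
    induction d with
    | zero => intro l hl hd; have := l.isLt; omega
    | succ d ih =>
      intro l hl hd
      have := upper_pow_mulVec_apply hB hsB (k := (j : ℕ) + 1) (l := l) (by omega) l.isLt
        (x := fun l => G l j) (fun i hi => ih i (by omega) (by have := i.isLt; omega))
      rw [h1, Pi.zero_apply] at this
      exact (mul_eq_zero.1 this.symm).resolve_left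
        ((upper_pow_apply B hB hsB _ _ _).2 (by simp only; omega))
  refine ⟨hup, ?_⟩
  have hstep : ∀ l : ℕ, ∀ h : l + 1 < m, G ⟨l + 1, h⟩ ⟨l + 1, h⟩ = G ⟨l, by omega⟩ ⟨l, by omega⟩ := by
    intro l h
    have e := congrFun (congrFun hG ⟨l, by omega⟩) ⟨l + 1, h⟩
    rw [Matrix.mul_apply, Matrix.mul_apply, Finset.sum_eq_single ⟨l, by omega⟩,
      Finset.sum_eq_single ⟨l + 1, h⟩] at e
    · rw [hsame _ _ rfl, mul_comm] at e
      exact (mul_left_cancel₀ (hsB _ _ rfl) e).symm
    · intro i _ hi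
      have hi' : (i : ℕ) ≠ l + 1 := fun e => hi (Fin.ext e)
      rcases Nat.lt_or_ge (l + 1) i with h' | h'
      · rw [hup i _ h', mul_zero]
      · rw [hB _ _ (show (i : ℕ) ≤ l by omega), zero_mul]
    · simp
    · intro i _ hi
      have hi' : (i : ℕ) ≠ l := fun e => hi (Fin.ext e)
      rcases Nat.lt_or_ge i l with h' | h'
      · rw [hup _ i h', zero_mul]
      · rw [hA i _ (show l + 1 ≤ (i : ℕ) by omega), mul_zero]
    · simp
  intro i j
  have hm : 0 < m := Fin.pos_iff_nonempty.2 ⟨i⟩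
  have : ∀ l : ℕ, ∀ h : l < m, G ⟨l, h⟩ ⟨l, h⟩ = G ⟨0, hm⟩ ⟨0, hm⟩ := by
    intro l
    induction l with
    | zero => intro h; rfl
    | succ l ih => intro h; rw [hstep l h, ih]
  rw [this i i.isLt, this j j.isLt]

end CfsgLib.RegularGenForms
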