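import Cfsg.Agent.Lib.RegularGenForms.SpStd
import Cfsg.Agent.Lib.RegularGenForms.SuTriangular
import Cfsg.Agent.Lib.RegularGenForms.SuElim
import Cfsg.Agent.Lib.Classes.UnipotentGU

/-!
A hyperbolic model of the odd dimensional unitary space, the standard regular unipotent elements,
and the transfer to `SU_n(q)`.
-/

set_option autoImplicit false

open Matrix

namespace CfsgLib.RegularGenForms

open CfsgLib.Amalgams CfsgLib.InvCentralizers

universe u

/-- The index set of the model: two halves and a middle. -/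
abbrev Idx (k : ℕ) := (Fin k ⊕ Fin k) ⊕ Unit

variable {F : Type u} [Field F] {k : ℕ}

/-- A vector of the model. -/
def hv (a b : Fin k → F) (γ : F) : Idx k → F := Sum.elim (Sum.elim a b) fun _ => γ

theorem hv_eta (x : Idx k → F) :
    hv (fun i => x (.inl (.inl i))) (fun i => x (.inl (.inr i))) (x (.inr ())) = x := by
  funext i
  rcases i with (i | i) | i <;> rfl

theorem hv_add (a b a' b' : Fin k → F) (γ γ' : F) :
    hv a b γ + hv a' b' γ' = hv (a + a') (b + b') (γ + γ') := by
  funext i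
  rcases i with (i | i) | i <;> rfl

theorem hv_smul (r : F) (a b : Fin k → F) (γ : F) :
    r • hv a b γ = hv (r • a) (r • b) (r * γ) := by
  funext i
  rcases i with (i | i) | i <;> rfl

theorem hv_sub (a b a' b' : Fin k → F) (γ γ' : F) :
    hv a b γ - hv a' b' γ' = hv (a - a') (b - b') (γ - γ') := by
  funext i
  rcases i with (i | i) | i <;> rfl

/-- The form of the model. -/
def hA (σ : F →+* F) (x y : Idx k → F) : F :=
  (fun i => x (.inl (.inl i))) ⬝ᵥ (σ ∘ fun i => y (.inl (.inr i))) +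
    (fun i => x (.inl (.inr i))) ⬝ᵥ (σ ∘ fun i => y (.inl (.inl i))) +
    x (.inr ()) * σ (y (.inr ()))

theorem hA_hv (σ : F →+* F) (a b a' b' : Fin k → F) (γ γ' : F) :
    hA σ (hv a b γ) (hv a' b' γ') = a ⬝ᵥ (σ ∘ b') + b ⬝ᵥ (σ ∘ a') + γ * σ γ' := rfl

theorem comp_mulVec_U (σ : F →+* F) (a : Fin k → F) :
    σ ∘ (RegularGen.U k F *ᵥ a) = RegularGen.U k F *ᵥ (σ ∘ a) := by
  funext i
  show σ _ = _
  rw [RingHom.map_mulVec]
  congr 1
  ext l j
  simp [RegularGen.U_apply, apply_ite σ]

theorem comp_mulVec_UiT (σ : F →+* F) (a : Fin k → F) :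
    σ ∘ ((RegularGen.Ui k F)ᵀ *ᵥ a) = (RegularGen.Ui k F)ᵀ *ᵥ (σ ∘ a) := by
  funext i
  show σ _ = _
  rw [RingHom.map_mulVec]
  congr 1
  ext l j
  simp [RegularGen.Ui, apply_ite σ]

theorem U_dot_UiT (a b : Fin k → F) :
    (RegularGen.U k F *ᵥ a) ⬝ᵥ ((RegularGen.Ui k F)ᵀ *ᵥ b) = a ⬝ᵥ b := by
  rw [dotProduct_mulVec, ← mulVec_transpose, Matrix.transpose_transpose, mulVec_mulVec, Ui_mul_U,
    one_mulVec]

theorem UiT_dot_U (a b : Fin k → F) :
    ((RegularGen.Ui k F)ᵀ *ᵥ b) ⬝ᵥ (RegularGen.U k F *ᵥ a) = b ⬝ᵥ a := by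
  rw [dotProduct_comm, U_dot_UiT, dotProduct_comm]

theorem comp_dv (σ : F →+* F) (i : ℕ) : σ ∘ dv k F i = dv k F i := by
  funext j
  simp [dv, apply_ite σ]

/-- The last coordinate of the transformed second half. -/
noncomputable def lastCoord (hk : 0 < k) (b : Fin k → F) : F :=
  ((RegularGen.Ui k F)ᵀ *ᵥ b) ⟨k - 1, by omega⟩

/-- The standard regular unipotent of the model. -/
noncomputable def uLin (hk : 0 < k) (c : F) : (Idx k → F) →ₗ[F] (Idx k → F) where
  toFun x := hv (RegularGen.U k F *ᵥ (fun i => x (.inl (.inl i))) +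
      (x (.inr ()) + c * lastCoord hk fun i => x (.inl (.inr i))) • dv k F (k - 1))
    ((RegularGen.Ui k F)ᵀ *ᵥ fun i => x (.inl (.inr i)))
    (x (.inr ()) - lastCoord hk fun i => x (.inl (.inr i)))
  map_add' x y := by
    rw [hv_add]
    simp only [lastCoord, Pi.add_apply]
    congr 1
    · rw [show (fun i => x (.inl (.inl i)) + y (.inl (.inl i))) =
        (fun i => x (.inl (.inl i))) + fun i => y (.inl (.inl i)) from rfl, mulVec_add,
        show (fun i => x (.inl (.inr i)) + y (.inl (.inr i))) =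
        (fun i => x (.inl (.inr i))) + fun i => y (.inl (.inr i)) from rfl, mulVec_add,
        Pi.add_apply]
      module
    · rw [show (fun i => x (.inl (.inr i)) + y (.inl (.inr i))) =
        (fun i => x (.inl (.inr i))) + fun i => y (.inl (.inr i)) from rfl, mulVec_add]
    · rw [show (fun i => x (.inl (.inr i)) + y (.inl (.inr i))) =
        (fun i => x (.inl (.inr i))) + fun i => y (.inl (.inr i)) from rfl, mulVec_add, Pi.add_apply]
      ring
  map_smul' r x := by
    rw [RingHom.id_apply, hv_smul]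
    simp only [lastCoord, Pi.smul_apply]
    rw [show (fun i => r • x (.inl (.inl i))) = r • fun i => x (.inl (.inl i)) from rfl,
      show (fun i => r • x (.inl (.inr i))) = r • fun i => x (.inl (.inr i)) from rfl, mulVec_smul,
      mulVec_smul, Pi.smul_apply]
    simp only [smul_eq_mul]
    congr 1
    · module
    · ring

theorem uLin_hv (hk : 0 < k) (c : F) (a b : Fin k → F) (γ : F) :
    uLin hk c (hv a b γ) = hv (RegularGen.U k F *ᵥ a + (γ + c * lastCoord hk b) • dv k F (k - 1))
      ((RegularGen.Ui k F)ᵀ *ᵥ b) (γ - lastCoord hk b) := rfl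

/-- The exchange of the halves. -/
def swapLin (k : ℕ) (F : Type u) [Field F] : (Idx k → F) →ₗ[F] (Idx k → F) where
  toFun x := hv (fun i => x (.inl (.inr i))) (fun i => x (.inl (.inl i))) (x (.inr ()))
  map_add' x y := by rw [hv_add]; rfl
  map_smul' r x := by rw [RingHom.id_apply, hv_smul]; rfl

theorem swapLin_hv (a b : Fin k → F) (γ : F) : swapLin k F (hv a b γ) = hv b a γ := rfl

theorem swapLin_swapLin (x : Idx k → F) : swapLin k F (swapLin k F x) = x := by
  rw [← hv_eta x, swapLin_hv, swapLin_hv]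

theorem hA_uLin (σ : F →+* F) (hk : 0 < k) {c : F} (hc : c + σ c + 1 = 0) (x y : Idx k → F) :
    hA σ (uLin hk c x) (uLin hk c y) = hA σ x y := by
  rw [← hv_eta x, ← hv_eta y, uLin_hv, uLin_hv, hA_hv, hA_hv]
  set b := fun i => x (.inl (.inr i))
  set b' := fun i => y (.inl (.inr i))
  set a := fun i => x (.inl (.inl i))
  set a' := fun i => y (.inl (.inl i))
  have hB : σ (lastCoord hk b') = lastCoord hk (σ ∘ b') := by
    rw [lastCoord, lastCoord, ← comp_mulVec_UiT]; rfl
  have hlt : k - 1 < k := by omega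
  have e1 : σ ∘ (RegularGen.U k F *ᵥ a' + (y (.inr ()) + c * lastCoord hk b') • dv k F (k - 1)) =
      RegularGen.U k F *ᵥ (σ ∘ a') +
        σ (y (.inr ()) + c * lastCoord hk b') • dv k F (k - 1) := by
    rw [← comp_mulVec_U]
    funext i
    simp [dv, apply_ite σ]
  rw [e1, comp_mulVec_UiT, add_dotProduct, dotProduct_add, U_dot_UiT, UiT_dot_U, smul_dotProduct,
    dotProduct_smul, dot_dv _ hlt, dv_dot _ hlt]
  simp only [map_add, map_mul, map_sub, hB, smul_eq_mul]
  rw [show ((RegularGen.Ui k F)ᵀ *ᵥ b) ⟨k - 1, hlt⟩ = lastCoord hk b from rfl,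
    show ((RegularGen.Ui k F)ᵀ *ᵥ (σ ∘ b')) ⟨k - 1, hlt⟩ = lastCoord hk (σ ∘ b') from rfl]
  linear_combination (lastCoord hk b * lastCoord hk (σ ∘ b')) * hc

theorem hA_swapLin (σ : F →+* F) (x y : Idx k → F) :
    hA σ (swapLin k F x) (swapLin k F y) = hA σ x y := by
  rw [← hv_eta x, ← hv_eta y, swapLin_hv, swapLin_hv, hA_hv, hA_hv]
  ring

variable {n : ℕ}

/-- The ordering `e_0, …, e_{k-1}, g, f_{k-1}, …, f_0`. -/
def ordFun (hn : n = 2 * k + 1) : Idx k → Fin n
  | .inl (.inl i) => ⟨i, by omega⟩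
  | .inl (.inr i) => ⟨2 * k - i, by omega⟩
  | .inr _ => ⟨k, by omega⟩

theorem ordFun_bijective (hn : n = 2 * k + 1) : Function.Bijective (ordFun hn) := by
  rw [Fintype.bijective_iff_injective_and_card]
  refine ⟨?_, by simp [hn]; omega⟩
  rintro ((i | i) | i) ((j | j) | j) h <;> simp [ordFun, Fin.ext_iff] at h ⊢ <;> omega

/-- The ordering as an equivalence. -/
noncomputable def ordEquiv (hn : n = 2 * k + 1) : Idx k ≃ Fin n :=
  Equiv.ofBijective _ (ordFun_bijective hn)

theorem exists_frame_linearEquiv [Finite F] {σ : F →+* F} {q : ℕ} (h : UniField F σ q)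
    (hn : n = 2 * k + 1) :
    ∃ Φ : (Idx k → F) ≃ₗ[F] (Fin n → F), ∀ x y, hm σ (Φ x) (Φ y) = hA σ x y := by
  obtain ⟨κ, hκ⟩ := h.exists_norm (a := -1) (by rw [map_neg, map_one])
  obtain ⟨t, ht⟩ := h.exists_trace (a := -1) (by rw [map_neg, map_one])
  let L : (Idx k → F) →ₗ[F] (Idx k → F) :=
    { toFun := fun x => hv (fun i => x (.inl (.inl i)) + (1 + t) * x (.inl (.inr i)))
        (fun i => κ * x (.inl (.inl i)) + t * κ * x (.inl (.inr i))) (x (.inr ()))
      map_add' := fun x y => by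
        rw [hv_add]
        simp only [Pi.add_apply]
        congr 1 <;> funext i <;> simp <;> ring
      map_smul' := fun r x => by
        rw [RingHom.id_apply, hv_smul]
        simp only [Pi.smul_apply, smul_eq_mul]
        congr 1 <;> funext i <;> simp <;> ring }
  let R : (Idx k → F) ≃ₗ[F] (Fin n → F) := LinearEquiv.funCongrLeft F F (ordEquiv hn).symm
  have hform : ∀ x y, hm σ (R (L x)) (R (L y)) = hA σ x y := by
    intro x y
    have e : hm σ (R (L x)) (R (L y)) = ∑ i : Idx k, L x i * σ (L y i) := by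
      simp only [hm, dotProduct, R, LinearEquiv.funCongrLeft_apply, LinearMap.funLeft_apply,
        Function.comp_apply]
      exact Equiv.sum_comp (ordEquiv hn).symm fun i => L x i * σ (L y i)
    rw [e, hA]
    simp only [Fintype.sum_sum_type, Fintype.univ_ofSubsingleton, Finset.sum_singleton, L,
      LinearMap.coe_mk, AddHom.coe_mk, hv, Sum.elim_inl, Sum.elim_inr, dotProduct,
      Function.comp_apply, ← Finset.sum_add_distrib]
    congr 1
    refine Finset.sum_congr rfl fun i _ => ?_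
    simp only [map_add, map_mul, map_one]
    linear_combination (x (.inl (.inl i)) * σ (y (.inl (.inl i))) +
      x (.inl (.inl i)) * σ (y (.inl (.inr i))) * σ t +
      x (.inl (.inr i)) * σ (y (.inl (.inl i))) * t +
      x (.inl (.inr i)) * σ (y (.inl (.inr i))) * t * σ t) * hκ +
      (x (.inl (.inr i)) * σ (y (.inl (.inr i)))) * ht
  have hinj : Function.Injective L := by
    rw [injective_iff_map_eq_zero]
    intro x hx
    have hκ0 : κ ≠ 0 := by rintro rfl; simp at hκ
    have h1 := fun i => congrFun hx (Sum.inl (Sum.inl i))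
    have h2 := fun i => congrFun hx (Sum.inl (Sum.inr i))
    have h3 := congrFun hx (Sum.inr ())
    simp [L, hv] at h1 h2 h3
    funext i
    rcases i with (i | i) | i
    · have hb : x (.inl (.inr i)) = 0 :=
        mul_left_cancel₀ hκ0 (by linear_combination κ * h1 i - h2 i)
      simpa [hb] using h1 i
    · have hb : x (.inl (.inr i)) = 0 :=
        mul_left_cancel₀ hκ0 (by linear_combination κ * h1 i - h2 i)
      exact hb
    · exact h3
  exact ⟨(LinearEquiv.ofInjectiveEndo L hinj).trans R, hform⟩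

/-- A matrix over the model carried to the standard space. -/
noncomputable def stdMat (Φ : (Idx k → F) ≃ₗ[F] (Fin n → F)) :
    Module.End F (Idx k → F) ≃ₐ[F] Matrix (Fin n) (Fin n) F :=
  (Φ.conjAlgEquiv F).trans LinearMap.toMatrixAlgEquiv'

theorem stdMat_mulVec (Φ : (Idx k → F) ≃ₗ[F] (Fin n → F)) (A : Module.End F (Idx k → F))
    (x : Idx k → F) : stdMat Φ A *ᵥ Φ x = Φ (A x) := by
  rw [← Matrix.toLinAlgEquiv'_apply, stdMat, AlgEquiv.trans_apply,
    Matrix.toLinAlgEquiv'_toMatrixAlgEquiv']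
  simp [LinearEquiv.conjAlgEquiv_apply]

theorem stdMat_det (Φ : (Idx k → F) ≃ₗ[F] (Fin n → F)) (A : Module.End F (Idx k → F)) :
    (stdMat Φ A).det = LinearMap.det A := by
  show (LinearMap.toMatrix' (Φ.conjAlgEquiv F A)).det = _
  rw [LinearMap.det_toMatrix']
  exact LinearMap.det_conj A Φ

end CfsgLib.RegularGenForms
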